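/-
Helper library (helper54): `PSp m F` depends only on the isomorphism type of the field.
-/
import Mathlib
import Cfsg.Prelude.Def_Classical
import Cfsg.Agent.Lib.Helper54.PSUCongr

set_option autoImplicit false

namespace Cfsg.Agent.Lib.Helper54

open Matrix

variable {F K : Type*} [CommRing F] [CommRing K]

theorem J_map (f : F →+* K) (m : ℕ) : (Matrix.J (Fin m) F).map f = Matrix.J (Fin m) K := by
  ext i j
  rcases i with i | i <;> rcases j with j | j <;> simp [Matrix.J, Matrix.one_apply, apply_ite f]

theorem sp_map_mem (f : F →+* K) (m : ℕ) (A : Matrix (Fin m ⊕ Fin m) (Fin m ⊕ Fin m) F)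
    (hA : A ∈ Matrix.symplecticGroup (Fin m) F) : A.map f ∈ Matrix.symplecticGroup (Fin m) K := by
  rw [SymplecticGroup.mem_iff] at hA ⊢
  rw [← J_map f m, ← Matrix.transpose_map, ← Matrix.map_mul, ← Matrix.map_mul, hA]

/-- the isomorphism of symplectic groups induced by an isomorphism of rings -/
def spCongr (f : F ≃+* K) (m : ℕ) :
    Matrix.symplecticGroup (Fin m) F ≃* Matrix.symplecticGroup (Fin m) K where
  toFun A := ⟨A.1.map (f : F →+* K), sp_map_mem (f : F →+* K) m A.1 A.2⟩
  invFun A := ⟨A.1.map (f.symm : K →+* F), sp_map_mem (f.symm : K →+* F) m A.1 A.2⟩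
  left_inv A := by
    apply Subtype.ext
    ext i j
    exact f.symm_apply_apply _
  right_inv A := by
    apply Subtype.ext
    ext i j
    exact f.apply_symm_apply _
  map_mul' A B := by
    apply Subtype.ext
    exact Matrix.map_mul (f := (f : F →+* K))

theorem psp_congr_of_card {F K : Type*} [Field F] [Field K] [Fintype F] [Fintype K]
    (h : Fintype.card F = Fintype.card K) (m : ℕ) : Nonempty (Cfsg.PSp m F ≃* Cfsg.PSp m K) :=
  ⟨centerQuotCongr (spCongr (FiniteField.ringEquivOfCardEq h) m)⟩

end Cfsg.Agent.Lib.Helper54
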