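/-
Helper library (helper54): complements to `RelIso`: normal subgroups of perfect groups with simple central quotient,
and the version of `iso_of_relation` for two central quotients.
-/
import Cfsg.Agent.Lib.Helper54.RelIso

set_option autoImplicit false

namespace Cfsg.Agent.Lib.Helper54

open scoped commutatorElement

/-- in a perfect group with simple central quotient the proper normal subgroups are central -/
theorem normal_le_center_or_top {U : Type*} [Group U] (hs : IsSimpleGroup (U ⧸ Subgroup.center U))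
    (hp : commutator U = ⊤) (N : Subgroup U) (hN : N.Normal) : N ≤ Subgroup.center U ∨ N = ⊤ := by
  have hn : (N.map (QuotientGroup.mk' (Subgroup.center U))).Normal :=
    hN.map _ (QuotientGroup.mk'_surjective _)
  rcases hn.eq_bot_or_eq_top with h | h
  · left
    intro x hx
    have h1 : QuotientGroup.mk' (Subgroup.center U) x ∈ N.map (QuotientGroup.mk' (Subgroup.center U)) :=
      ⟨x, hx, rfl⟩
    rw [h, Subgroup.mem_bot, QuotientGroup.mk'_apply, QuotientGroup.eq_one_iff] at h1
    exact h1
  · right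
    have key : ∀ g : U, ∃ n ∈ N, ∃ z ∈ Subgroup.center U, g = n * z := by
      intro g
      have h1 : QuotientGroup.mk' (Subgroup.center U) g ∈ N.map (QuotientGroup.mk' (Subgroup.center U)) := by
        rw [h]; trivial
      obtain ⟨n, hn, e⟩ := h1
      refine ⟨n, hn, n⁻¹ * g, ?_, by group⟩
      rw [QuotientGroup.mk'_apply, QuotientGroup.mk'_apply] at e
      exact QuotientGroup.eq.1 e
    rw [eq_top_iff, ← hp, commutator_def, Subgroup.commutator_le]
    intro a _ b _
    obtain ⟨n, hn, z, hz, rfl⟩ := key a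
    have hzb : z * b = b * z := ((Subgroup.mem_center_iff.1 hz) b).symm
    have e : ⁅n * z, b⁆ = n * (b * n⁻¹ * b⁻¹) := by
      rw [commutatorElement_def]
      calc n * z * b * (n * z)⁻¹ * b⁻¹ = n * (z * b) * z⁻¹ * n⁻¹ * b⁻¹ := by group
        _ = n * (b * z) * z⁻¹ * n⁻¹ * b⁻¹ := by rw [hzb]
        _ = n * (b * n⁻¹ * b⁻¹) := by group
    rw [e]
    exact N.mul_mem hn (hN.conj_mem _ (N.inv_mem hn) b)

/-- the version of `iso_of_relation` for two central quotients -/
theorem iso_of_relation_quot {A U : Type*} [Group A] [Group U] [Finite A] [Finite U]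
    (hN : ∀ N : Subgroup U, N.Normal → N ≤ Subgroup.center U ∨ N = ⊤)
    (hcard : Nat.card (A ⧸ Subgroup.center A) = Nat.card (U ⧸ Subgroup.center U))
    (R : Subgroup (A × U)) (T : Set U) (hT : Subgroup.closure T = ⊤)
    (h1 : ∀ u ∈ T, ∃ a, (a, u) ∈ R) (h3 : ∃ u, ∀ z ∈ Subgroup.center A, (z, u) ∉ R) :
    Nonempty (A ⧸ Subgroup.center A ≃* U ⧸ Subgroup.center U) := by
  apply iso_of_relation hN hcard
    (R.map (MonoidHom.prodMap (QuotientGroup.mk' (Subgroup.center A)) (MonoidHom.id U))) T hT
  · intro u hu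
    obtain ⟨a, ha⟩ := h1 u hu
    exact ⟨QuotientGroup.mk' _ a, ⟨(a, u), ha, rfl⟩⟩
  · obtain ⟨u, hu⟩ := h3
    refine ⟨u, ?_⟩
    rintro ⟨⟨a, u'⟩, ha, e⟩
    rw [MonoidHom.prodMap_def, MonoidHom.prod_apply, Prod.mk.injEq] at e
    obtain ⟨e1, e2⟩ := e
    have e3 : u' = u := e2
    subst e3
    apply hu a _ ha
    have e4 : QuotientGroup.mk' (Subgroup.center A) a = 1 := e1
    rwa [QuotientGroup.mk'_apply, QuotientGroup.eq_one_iff] at e4

end Cfsg.Agent.Lib.Helper54
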