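/-
Helper library (helper54): PSp(4, 3) is isomorphic to PSU(4, 2): the 40 points of the projective space of dimension three
over the field with three elements are labelled by the 40 non-isotropic points of the hermitian space of dimension four
over the field with four elements.
-/
import Cfsg.Agent.Lib.Helper54.W4Code
import Cfsg.Agent.Lib.Helper54.RelIso2
import Cfsg.Agent.Lib.Helper54.PSUCongr
import Cfsg.Agent.Lib.Helper5.SpCenter
import Cfsg.Agent.S0245
import Cfsg.Agent.S0246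
import Cfsg.Agent.S0280

set_option autoImplicit false

namespace Cfsg.Agent.Lib.Helper54.W4

open Matrix Cfsg Cfsg.Agent.Lib.Helper5 Cfsg.Agent.Lib.Helper13 Cfsg.Agent.Lib.Helper27 Cfsg.Agent.Lib.Helper54
  Cfsg.Agent.Lib.Helper54.K4
open Cfsg.Agent.Lib.Helper54.U6 (forceN forceN_eq orL orL_eq anyL anyL_iff)

/-- the special unitary group -/
abbrev U : Type := ↥(Cfsg.SU 4 K4 2)

/-- the symplectic group -/
abbrev A : Type := ↥(Matrix.symplecticGroup (Fin 2) (ZMod 3))

/-- the numbering of the coordinates -/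
def ix : Fin 2 ⊕ Fin 2 → ℕ
  | .inl i => i.val
  | .inr i => 2 + i.val

/-- decoding of vectors over the field with three elements -/
def decS (m : ℕ) : Fin 2 ⊕ Fin 2 → ZMod 3 := fun i => ((m / 3 ^ ix i % 3 : ℕ) : ZMod 3)

/-- decoding of matrices -/
def matS (l : List ℕ) : Matrix (Fin 2 ⊕ Fin 2) (Fin 2 ⊕ Fin 2) (ZMod 3) :=
  fun i j => ((l.getD (4 * ix i + ix j) 0 : ℕ) : ZMod 3)

/-- the points and their labels -/
def tab : List (ℕ × ℕ) := [(27, 64), (9, 16), (36, 4), (63, 1), (3, 69), (30, 133), (57, 197), (12, 201), (39, 73), (66, 137), (21, 141), (48, 205), (75, 77), (1, 21), (28, 57), (55, 45), (10, 37), (37, 25), (64, 61), (19, 53), (46, 41), (73, 29), (4, 84), (31, 148), (58, 212), (13, 100), (40, 164), (67, 228), (22, 116), (49, 180), (76, 244), (7, 81), (34, 209), (61, 145), (16, 97), (43, 225), (70, 161), (25, 113), (52, 241), (79, 177)]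

/-- symplectic matrices and the centres of the corresponding unitary transvections -/
def gens : List (List ℕ × ℕ) := [
  ([1, 1, 0, 2, 0, 2, 1, 0, 0, 0, 1, 0, 0, 0, 1, 2], 231),
  ([1, 1, 0, 1, 0, 2, 2, 0, 0, 0, 1, 0, 0, 0, 1, 2], 182),
  ([1, 2, 0, 2, 0, 2, 1, 0, 0, 0, 1, 0, 0, 0, 2, 2], 103),
  ([0, 1, 0, 2, 1, 0, 1, 0, 0, 0, 0, 1, 0, 0, 1, 0], 218),
  ([1, 0, 0, 0, 0, 2, 0, 0, 0, 2, 1, 0, 1, 0, 0, 2], 6)]

/-- the centres -/
def ga : List ℕ := [231, 182, 103, 218, 6]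

/-- the codes of the non-zero isotropic vectors -/
def isoList : List ℕ := [5, 6, 7, 9, 10, 11, 13, 14, 15, 17, 18, 19, 20, 24, 28, 33, 34, 35, 36, 40, 44, 49, 50, 51, 52, 56, 60, 65, 66, 67, 68, 72, 76, 80, 85, 86, 87, 89, 90, 91, 93, 94, 95, 96, 101, 102, 103, 105, 106, 107, 109, 110, 111, 112, 117, 118, 119, 121, 122, 123, 125, 126, 127, 129, 130, 131, 132, 136, 140, 144, 149, 150, 151, 153, 154, 155, 157, 158, 159, 160, 165, 166, 167, 169, 170, 171, 173, 174, 175, 176, 181, 182, 183, 185, 186, 187, 189, 190, 191, 193, 194, 195, 196, 200, 204, 208, 213, 214, 215, 217, 218, 219, 221, 222, 223, 224, 229, 230, 231, 233, 234, 235, 237, 238, 239, 240, 245, 246, 247, 249, 250, 251, 253, 254, 255]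

/-- words in the transvections moving the first centre to the isotropic vectors -/
def wtab : List (List ℕ) := [
  [103, 231, 182],
  [103, 6, 231, 103],
  [182, 103, 231, 6],
  [6, 182, 231, 103],
  [231, 182, 103, 182],
  [231, 103, 231, 6, 103],
  [231, 6],
  [6, 103, 231, 182],
  [182, 231, 103],
  [103, 231, 182, 231, 103],
  [6, 103, 231, 182, 103],
  [231, 103, 231, 6],
  [103, 231, 182, 103],
  [6, 231, 103, 231, 6],
  [182, 231, 103, 6],
  [231, 6, 231, 103],
  [231, 103, 182],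
  [182, 103, 231, 6, 103],
  [6, 231, 103, 182],
  [231, 103, 182, 231, 103],
  [231, 6, 103],
  [6, 182],
  [103, 6, 103],
  [182, 103],
  [103, 6],
  [6, 182, 103],
  [182],
  [103, 231, 218, 182],
  [6, 182, 231, 218, 182],
  [231, 218, 182, 103, 231, 6],
  [182, 231, 218, 182],
  [182, 218, 6, 231, 103, 182],
  [6, 103, 231, 218, 182],
  [182, 218, 182],
  [6, 103],
  [182, 218, 6, 103],
  [218, 6, 182, 103],
  [218, 6, 218],
  [218, 6, 218, 182, 103],
  [103, 182],
  [103, 6, 218],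
  [103],
  [218, 6],
  [231, 218, 6, 231, 103, 182],
  [6, 218, 231, 182],
  [218, 6, 182, 231, 103],
  [6, 103, 231, 6],
  [6, 231, 218],
  [103, 231, 6],
  [218, 182, 103, 231, 182],
  [103, 231, 182, 103, 182],
  [218, 231, 182],
  [231, 218],
  [218, 231, 103, 6],
  [231, 182, 103, 6, 218],
  [231, 182, 231, 103],
  [182, 231, 218, 6],
  [182, 103, 231, 182, 103],
  [218, 231, 182, 231, 218],
  [231, 182, 218],
  [182, 103, 231, 218, 6],
  [103, 231, 182, 231, 218],
  [231, 103, 6, 231, 103],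
  [231, 218, 6, 182, 231, 103],
  [103, 182, 218],
  [6, 218],
  [6, 103, 182, 218],
  [218],
  [182, 218, 6, 182, 103],
  [103, 231, 6, 231, 218],
  [103, 231, 6, 103],
  [231, 6, 218, 182, 103],
  [218, 231, 103, 182],
  [6, 231, 218, 182],
  [6, 218, 231, 103, 182],
  [231, 103, 231, 182],
  [182, 231, 218, 231, 182],
  [103, 182, 231, 103, 182],
  [231, 218, 182],
  [231, 182, 231, 218],
  [6, 231, 218, 231, 6],
  [103, 231, 218, 6],
  [6, 231, 103, 6],
  [218, 182, 231, 103, 6],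
  [231, 103, 6],
  [182, 218, 231, 103, 6],
  [231, 182, 103],
  [231, 218, 231, 6],
  [103, 231, 182, 218, 6, 103],
  [231, 218, 6, 182, 103],
  [182, 218, 231, 182],
  [103, 182, 231, 103],
  [231, 182, 218, 182],
  [231, 103],
  [182, 218, 231, 6],
  [218, 6, 103, 231, 182],
  [218, 6, 103, 231, 6],
  [231, 218, 6, 218],
  [6, 231, 103],
  [231, 218, 6],
  [231, 218, 6, 103, 231, 182],
  [218, 231, 182, 231, 103],
  [182, 218, 182, 231, 103, 6],
  [231, 182, 218, 6, 103],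
  [6, 231, 218, 6],
  [231, 218, 182, 231, 103, 6],
  [231, 103, 6, 103],
  [218, 231, 103],
  [218, 231, 6],
  [182, 231, 218],
  [6, 218, 231, 6],
  [231, 182],
  [218, 182, 103, 231, 6],
  [182, 103, 231, 182],
  [6, 182, 231, 218],
  [218, 6, 103],
  [182, 218],
  [218, 182],
  [],
  [218, 182, 103],
  [6],
  [182, 103, 6, 218],
  [182, 103, 182],
  [6, 182, 218],
  [6, 218, 182, 103],
  [231, 218, 231, 182],
  [218, 6, 218, 231, 103, 182],
  [182, 231, 103, 231, 182],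
  [231, 6, 231, 218],
  [182, 231, 103, 182],
  [231, 6, 218],
  [218, 231, 6, 231, 103],
  [231, 6, 103, 182, 218],
  [218, 6, 231, 103, 182],
  [6, 182, 231, 103, 182]]

set_option maxRecDepth 100000 in
theorem wtab_eval : wtab.map (fun l => l.foldr tfc 231) = isoList := by decide +kernel

set_option maxRecDepth 100000 in
theorem wtab_letters : allList (fun l : List ℕ => allList (fun a => anyL (fun b => Nat.beq a b) ga) l) wtab = true := by
  decide +kernel

set_option maxRecDepth 100000 in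
theorem iso_complete : allBelow (fun m => orL (Nat.beq m 0) (orL (decide (hf (dec m) (dec m) ≠ 0))
    (anyL (fun b => Nat.beq m b) isoList))) 256 = true := by
  decide +kernel

set_option maxRecDepth 100000 in
theorem gens_mem : ∀ g ∈ gens, matS g.1 * Matrix.J (Fin 2) (ZMod 3) * (matS g.1)ᵀ = Matrix.J (Fin 2) (ZMod 3) := by
  decide +kernel

set_option maxRecDepth 100000 in
theorem gens_iso : ∀ g ∈ gens, hf (dec g.2) (dec g.2) = 0 := by decide +kernel

theorem gens_snd : gens.map Prod.snd = ga := by decide +kernel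

set_option maxRecDepth 100000 in
theorem gens_chk : ∀ g ∈ gens, ∀ e ∈ tab, ∃ e' ∈ tab, (∃ c : ZMod 3, matS g.1 *ᵥ decS e.1 = c • decS e'.1) ∧
    ∃ c : K4, tf g.2 (dec e.2) = c • dec e'.2 := by
  decide +kernel

/-- compatibility of a symplectic matrix and a unitary matrix -/
def Rel (a : A) (u : U) : Prop :=
  ∀ e ∈ tab, ∃ e' ∈ tab, (∃ c : ZMod 3, a.1 *ᵥ decS e.1 = c • decS e'.1) ∧
    ∃ c : K4, u.1.1 *ᵥ dec e.2 = c • dec e'.2

theorem Rel.one : Rel 1 1 := fun e he =>
  ⟨e, he, ⟨1, by simp⟩, ⟨1, by rw [SU_one_mulVec, one_smul]⟩⟩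

theorem Rel.mul {a a' : A} {u u' : U} (h : Rel a u) (h' : Rel a' u') : Rel (a * a') (u * u') := by
  intro e he
  obtain ⟨e1, he1, ⟨c1, a1⟩, ⟨d1, b1⟩⟩ := h' e he
  obtain ⟨e2, he2, ⟨c2, a2⟩, ⟨d2, b2⟩⟩ := h e1 he1
  refine ⟨e2, he2, ⟨c1 * c2, ?_⟩, ⟨d1 * d2, ?_⟩⟩
  · show (a.1 * a'.1) *ᵥ decS e.1 = _
    rw [← Matrix.mulVec_mulVec, a1, Matrix.mulVec_smul, a2, smul_smul]
  · rw [SU_mul_mulVec, b1, Matrix.mulVec_smul, b2, smul_smul]

/-- the compatible pairs -/
def relMonoid : Submonoid (A × U) where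
  carrier := {p | Rel p.1 p.2}
  one_mem' := Rel.one
  mul_mem' := fun ha hb => Rel.mul ha hb

instance finite_U : Finite U := inferInstance

instance finite_A : Finite A := inferInstance

/-- the compatible pairs -/
def R : Subgroup (A × U) := subgroupOfSubmonoid relMonoid

theorem mem_R {x : A} {u : U} : (x, u) ∈ R ↔ Rel x u := Iff.rfl

theorem gen_partner : ∀ g ∈ gens, ∃ x : A, (x, tvc g.2) ∈ R := by
  intro g hg
  refine ⟨⟨matS g.1, SymplecticGroup.mem_iff.2 (gens_mem g hg)⟩, ?_⟩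
  rw [mem_R]
  intro e he
  obtain ⟨e', he', h1, c, h2⟩ := gens_chk g hg e he
  exact ⟨e', he', h1, c, by rw [tvc_mulVec (gens_iso g hg)]; exact h2⟩

theorem ga_iso : ∀ a ∈ ga, hf (dec a) (dec a) = 0 := by
  intro a ha
  rw [← gens_snd, List.mem_map] at ha
  obtain ⟨g, hg, rfl⟩ := ha
  exact gens_iso g hg

theorem tvc_partner : ∀ a ∈ ga, ∃ x : A, (x, tvc a) ∈ R := by
  intro a ha
  rw [← gens_snd, List.mem_map] at ha
  obtain ⟨g, hg, rfl⟩ := ha
  exact gen_partner g hg

theorem tl_partner (l : List ℕ) (hl : ∀ a ∈ l, a ∈ ga) : ∃ x : A, (x, tl l) ∈ R := by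
  induction l with
  | nil =>
    have e : tl [] = 1 := by simp [tl]
    rw [e]
    exact ⟨1, R.one_mem⟩
  | cons a l ih =>
    obtain ⟨x, hx⟩ := ih (fun b hb => hl b (List.mem_cons_of_mem _ hb))
    obtain ⟨y, hy⟩ := tvc_partner a (hl a List.mem_cons_self)
    refine ⟨y * x, ?_⟩
    have e : tl (a :: l) = tvc a * tl l := by simp [tl]
    rw [e]
    have h5 := R.mul_mem hy hx
    rwa [Prod.mk_mul_mk] at h5

theorem exists_word (v : VV) (hv0 : v ≠ 0) (hv : hf v v = 0) :
    ∃ l ∈ wtab, v = dec (l.foldr tfc 231) := by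
  have h := (allBelow_iff _ _).1 iso_complete (enc v) (enc_lt v)
  rw [orL_eq, orL_eq, Bool.or_eq_true, Bool.or_eq_true, decide_eq_true_eq, dec_enc, anyL_iff] at h
  rcases h with h | h | h
  · exfalso
    apply hv0
    rw [← dec_enc v, Nat.eq_of_beq_eq_true h, dec_zero]
  · exact absurd hv h
  · obtain ⟨b, hb, hb2⟩ := h
    rw [← Nat.eq_of_beq_eq_true hb2, ← wtab_eval, List.mem_map] at hb
    obtain ⟨l, hl, e⟩ := hb
    exact ⟨l, hl, by rw [e, dec_enc]⟩

theorem wtab_ga : ∀ l ∈ wtab, ∀ a ∈ l, a ∈ ga := by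
  intro l hl a ha
  have h := (allList_iff _ _).1 ((allList_iff _ _).1 wtab_letters l hl) a ha
  rw [anyL_iff] at h
  obtain ⟨b, hb, e⟩ := h
  rw [Nat.eq_of_beq_eq_true e]
  exact hb

theorem tv_partner (v : VV) (hv0 : v ≠ 0) (hv : hf v v = 0) :
    ∃ x : A, (x, tSU card_eq' v c0 hv hc0) ∈ R := by
  obtain ⟨l, hl, e⟩ := exists_word v hv0 hv
  have hl' := wtab_ga l hl
  have h0 : (231 : ℕ) ∈ ga := by decide
  have e2 : v = (tl l).1.1 *ᵥ dec 231 := by
    rw [e, dec_foldr, tl_mulVec l (fun a ha => ga_iso a (hl' a ha))]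
  obtain ⟨x, hx⟩ := tl_partner l hl'
  obtain ⟨y, hy⟩ := tvc_partner 231 h0
  refine ⟨x * y * x⁻¹, ?_⟩
  have e3 : tSU card_eq' v c0 hv hc0 = tl l * tvc 231 * (tl l)⁻¹ := by
    apply SU_ext_mulVec
    intro z
    rw [tSU_mulVec, SU_mul_mulVec, SU_mul_mulVec, tvc_mulVec (ga_iso _ h0), tf, mulVec_add,
      mulVec_smul, SU_mulVec_inv_mulVec, ← e2]
    congr 3
    show Cfsg.hermForm 4 K4 2 z v = Cfsg.hermForm 4 K4 2 _ _
    rw [← SU_preserves (tl l) _ (dec 231), SU_mulVec_inv_mulVec, ← e2]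
  rw [e3]
  have h5 := R.mul_mem (R.mul_mem hx hy) (R.inv_mem hx)
  rwa [Prod.mk_mul_mk, Prod.inv_mk, Prod.mk_mul_mk] at h5

theorem skew_key : ∀ c : K4, c + c ^ 2 = 0 → c = 0 ∨ ∃ l : K4, l ≠ 0 ∧ c = c0 * l ^ 2 * l := by
  decide +kernel

theorem partner_of_ut (M : U) (hM : ∃ (v : Fin 4 → K4) (c : K4), Cfsg.hermForm 4 K4 2 v v = 0 ∧
    ((M : Matrix.SpecialLinearGroup (Fin 4) K4) : Matrix (Fin 4) (Fin 4) K4)
      = Cfsg.unitaryTransvection 4 2 v c) : ∃ x : A, (x, M) ∈ R := by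
  obtain ⟨v, c, hv, hM⟩ := hM
  by_cases hv0 : v = 0
  · have : M = 1 := by
      apply SU_ext_mulVec
      intro x
      rw [hM, unitaryTransvection_mulVec, hv0, SU_one_mulVec]; simp
    rw [this]
    exact ⟨1, R.one_mem⟩
  · have hc := skew_of_ut_mem card_eq' M hv0 hv hM
    rcases skew_key c hc with rfl | ⟨l, hl, rfl⟩
    · have : M = 1 := by
        apply SU_ext_mulVec
        intro x
        rw [hM, unitaryTransvection_mulVec, SU_one_mulVec]; simp
      rw [this]
      exact ⟨1, R.one_mem⟩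
    · have hlv : hf (l • v) (l • v) = 0 := by
        rw [hf, hermForm_smul_left, hermForm_smul_right, hv]; simp
      have : M = tSU card_eq' (l • v) c0 hlv hc0 := by
        apply SU_ext_mulVec
        intro x
        rw [hM, unitaryTransvection_mulVec, tSU_mulVec, hermForm_smul_right]
        module
      rw [this]
      exact tv_partner (l • v) (smul_ne_zero hl hv0) hlv

set_option maxRecDepth 100000 in
theorem e0_uniq : ∀ e ∈ tab, ∀ a c : ZMod 3, a ≠ 0 → a • decS 27 = c • decS e.1 → e.2 = 64 := by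
  decide +kernel

theorem e0_ne : ¬ ∃ c : K4, tf 231 (dec 64) = c • dec 64 := by decide +kernel

theorem not_rel : ∀ z ∈ Subgroup.center A, (z, tvc 231) ∉ R := by
  intro z hz h
  rw [mem_R] at h
  obtain ⟨e', he', ⟨c, a1⟩, ⟨d, b1⟩⟩ := h (27, 64) (by decide)
  obtain ⟨a, ha⟩ := sp_center_scalar 2 z hz
  have ha0 : a ≠ 0 := by
    rintro rfl
    have h1 := SymplecticGroup.mem_iff.1 z.2
    rw [ha] at h1
    have h2 := congrFun (congrFun h1 (Sum.inl 0)) (Sum.inr 0)
    simp [Matrix.J] at h2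
  have a2 : a • decS 27 = c • decS e'.1 := by
    rw [← a1, ha]
    ext i
    simp [Matrix.scalar_apply, Matrix.mulVec_diagonal]
  have a3 := e0_uniq e' he' a c ha0 a2
  rw [a3, tvc_mulVec (ga_iso 231 (by decide))] at b1
  exact e0_ne ⟨d, b1⟩

theorem card_PSU : Nat.card (Cfsg.PSU 4 K4 2) = 25920 := by
  have h := Cfsg.Agent.S0280.result (F := K4) (q := 2) card_eq' 4 (by norm_num)
  have e : (2 : ℕ) ^ (4 * (4 - 1) / 2) * ∏ i ∈ Finset.range 4,
      (if Even i then 2 ^ (i + 1) + 1 else 2 ^ (i + 1) - 1) = 77760 := by decide +kernel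
  rw [e] at h
  have g : Nat.gcd 4 (2 + 1) = 1 := by decide
  rw [g] at h
  generalize Nat.card (Cfsg.PSU 4 K4 2) = c at h ⊢
  omega

theorem card_PSp : Nat.card (Cfsg.PSp 2 (ZMod 3)) = 25920 := by
  have h1 := Cfsg.Agent.S0245.result (F := ZMod 3) (q := 3) (ZMod.card 3) 2
  have h2 := Cfsg.Agent.S0246.result (F := ZMod 3) (q := 3) (ZMod.card 3) 2 (by norm_num)
  have h3 := Subgroup.card_eq_card_quotient_mul_card_subgroup
    (Subgroup.center (Matrix.symplecticGroup (Fin 2) (ZMod 3)))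
  have e : (3 : ℕ) ^ (2 ^ 2) * ∏ i ∈ Finset.range 2, (3 ^ (2 * (i + 1)) - 1) = 51840 := by decide +kernel
  have g : Nat.gcd 2 (3 - 1) = 2 := by decide
  rw [h1, h2, e, g] at h3
  show Nat.card (Matrix.symplecticGroup (Fin 2) (ZMod 3) ⧸ Subgroup.center _) = 25920
  omega

theorem main0 : Nonempty (Cfsg.PSp 2 (ZMod 3) ≃* Cfsg.PSU 4 K4 2) := by
  apply iso_of_relation_quot (A := A) (U := U) (fun N hN => by
      have := hN
      exact su_normal_le_center_or card_eq' (by norm_num) (by norm_num) N)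
    (by
      have h1 := card_PSp
      have h2 := card_PSU
      exact h1.trans h2.symm) R _
    (Cfsg.Agent.S0780.result card_eq' 4 (by norm_num) (by norm_num))
    partner_of_ut ⟨_, not_rel⟩

end Cfsg.Agent.Lib.Helper54.W4
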