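/-
Helper library (helper54): normal subgroups of a transitive group with simple point stabiliser, controlled by the
lengths of the orbits of the point stabiliser (and Frobenius' theorem on the number of solutions of `x ^ d = 1`).
-/
import Mathlib
import Cfsg.Agent.Lib.Helper70.FrobeniusCount

set_option autoImplicit false

namespace Cfsg.Agent.Lib.Helper54

open MulAction

/-- subset sums of a list -/
def subSums : List ℕ → List ℕ
  | [] => [0]
  | c :: cs => subSums cs ++ (subSums cs).map (fun m => c + m)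

theorem ncard_mem_subSums {Y ι : Type*} (κ : Y → ι) : ∀ (L : List (ι × ℕ)) (T : Set Y), T.Finite →
    (∀ z ∈ T, κ z ∈ L.map Prod.fst) →
    (∀ e ∈ L, (∀ z ∈ T, κ z ≠ e.1) ∨ {z | z ∈ T ∧ κ z = e.1}.ncard = e.2) →
    T.ncard ∈ subSums (L.map Prod.snd) := by
  classical
  intro L
  induction L with
  | nil =>
    intro T _ hc _
    have : T = ∅ := by
      ext z
      simp only [Set.mem_empty_iff_false, iff_false]
      intro hz
      simpa using hc z hz
    rw [this]
    simp [subSums]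
  | cons e L ih =>
    intro T hfin hc hcls
    have hT' : ({z | z ∈ T ∧ κ z ≠ e.1} : Set Y).Finite := hfin.subset (fun z hz => hz.1)
    have h1 := ih {z | z ∈ T ∧ κ z ≠ e.1} hT'
      (by
        intro z hz
        have := hc z hz.1
        rw [List.map_cons, List.mem_cons] at this
        rcases this with h | h
        · exact absurd h hz.2
        · exact h)
      (by
        intro e' he'
        by_cases hee : e'.1 = e.1
        · left
          intro z hz
          rw [hee]; exact hz.2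
        · rcases hcls e' (List.mem_cons_of_mem _ he') with h | h
          · left
            intro z hz
            exact h z hz.1
          · right
            rw [← h]
            congr 1
            ext z
            constructor
            · rintro ⟨⟨h1, _⟩, h3⟩
              exact ⟨h1, h3⟩
            · rintro ⟨h1, h3⟩
              exact ⟨⟨h1, by rw [h3]; exact hee⟩, h3⟩)
    rw [List.map_cons]
    show T.ncard ∈ subSums (L.map Prod.snd) ++ (subSums (L.map Prod.snd)).map (fun m => e.2 + m)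
    rw [List.mem_append]
    rcases hcls e List.mem_cons_self with h | h
    · left
      have : {z | z ∈ T ∧ κ z ≠ e.1} = T := by
        ext z
        exact ⟨fun hz => hz.1, fun hz => ⟨hz, h z hz⟩⟩
      rwa [this] at h1
    · right
      refine List.mem_map.2 ⟨_, h1, ?_⟩
      show e.2 + _ = _
      rw [← h]
      have hdisj : Disjoint {z | z ∈ T ∧ κ z = e.1} {z | z ∈ T ∧ κ z ≠ e.1} := by
        rw [Set.disjoint_left]
        intro z hz hz'
        exact hz'.2 hz.2
      rw [← Set.ncard_union_eq hdisj (hfin.subset (fun z hz => hz.1)) hT']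
      congr 1
      ext z
      constructor
      · rintro (h | h) <;> exact h.1
      · intro hz
        by_cases hk : κ z = e.1
        · exact Or.inl ⟨hz, hk⟩
        · exact Or.inr ⟨hz, hk⟩

/-- counting the group elements that move a point into a subset of its orbit -/
theorem card_smul_mem' {G X : Type*} [Group G] [MulAction G X] (x : X) (S : Set X)
    (hS : ∀ y ∈ S, ∃ g : G, g • x = y) :
    Nat.card {g : G // g • x ∈ S} = S.ncard * Nat.card (MulAction.stabilizer G x) := by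
  choose! r hr using hS
  have hbij : Function.Bijective (fun p : ↥S × ↥(MulAction.stabilizer G x) =>
      (⟨r p.1.1 * p.2.1, by
        rw [mul_smul, MulAction.mem_stabilizer_iff.1 p.2.2, hr _ p.1.2]; exact p.1.2⟩ :
        {g : G // g • x ∈ S})) := by
    constructor
    · rintro ⟨⟨y, hy⟩, ⟨h, hh⟩⟩ ⟨⟨y', hy'⟩, ⟨h', hh'⟩⟩ e
      have e1 : r y * h = r y' * h' := congrArg Subtype.val e
      have e2 : y = y' := by
        have := congrArg (fun g => g • x) e1
        simp only [mul_smul, MulAction.mem_stabilizer_iff.1 hh, MulAction.mem_stabilizer_iff.1 hh',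
          hr _ hy, hr _ hy'] at this
        exact this
      subst e2
      have e3 : h = h' := mul_left_cancel e1
      subst e3
      rfl
    · rintro ⟨g, hg⟩
      refine ⟨⟨⟨g • x, hg⟩, ⟨(r (g • x))⁻¹ * g, ?_⟩⟩, Subtype.ext ?_⟩
      · rw [MulAction.mem_stabilizer_iff, mul_smul, inv_smul_eq_iff, hr _ hg]
      · show r (g • x) * ((r (g • x))⁻¹ * g) = g
        rw [mul_inv_cancel_left]
  rw [← Nat.card_congr (Equiv.ofBijective _ hbij), Nat.card_prod, Nat.card_coe_set_eq]

/-- the data of a transitive action on a set `O` whose point stabiliser has known orbits -/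
structure OrbSetup (G Y ι : Type*) [Group G] [MulAction G Y] where
  O : Set Y
  α : Y
  κ : Y → ι
  L : List (ι × ℕ)
  hα : α ∈ O
  hfin : O.Finite
  hinv : ∀ g : G, ∀ z ∈ O, g • z ∈ O
  htrans : ∀ z ∈ O, ∃ g : G, g • α = z
  hcover : ∀ z ∈ O, z ≠ α → κ z ∈ L.map Prod.fst
  hcount : ∀ e ∈ L, {z | z ∈ O ∧ z ≠ α ∧ κ z = e.1}.ncard = e.2
  htr : ∀ z ∈ O, ∀ z' ∈ O, z ≠ α → z' ≠ α → κ z = κ z' → ∃ h : G, h • α = α ∧ h • z = z'

namespace OrbSetup

variable {G Y ι : Type*} [Group G] [MulAction G Y] (D : OrbSetup G Y ι)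

/-- the possible sizes of the subsets of `O` containing `α` and invariant under its stabiliser -/
def A : List ℕ := (subSums (D.L.map Prod.snd)).map (fun m => 1 + m)

theorem ncard_mem_A (T : Set Y) (hT : T ⊆ D.O) (hα : D.α ∈ T)
    (hinv : ∀ h : G, h • D.α = D.α → ∀ z ∈ T, h • z ∈ T) : T.ncard ∈ D.A := by
  have hTfin : T.Finite := D.hfin.subset hT
  have h0fin : (T \ {D.α}).Finite := hTfin.subset Set.diff_subset
  have h1 := ncard_mem_subSums D.κ D.L (T \ {D.α}) h0fin
    (fun z hz => D.hcover z (hT hz.1) hz.2)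
    (by
      intro e he
      by_cases hex : ∃ z ∈ T \ {D.α}, D.κ z = e.1
      · right
        obtain ⟨z, hz, hzk⟩ := hex
        rw [← D.hcount e he]
        congr 1
        ext z'
        constructor
        · rintro ⟨h1, h2⟩
          exact ⟨hT h1.1, h1.2, h2⟩
        · rintro ⟨h1, h2, h3⟩
          obtain ⟨h, hh, hhz⟩ := D.htr z (hT hz.1) z' h1 hz.2 h2 (hzk.trans h3.symm)
          exact ⟨⟨hhz ▸ hinv h hh z hz.1, h2⟩, h3⟩
      · left
        intro z hz hk
        exact hex ⟨z, hz, hk⟩)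
  refine List.mem_map.2 ⟨_, h1, ?_⟩
  show 1 + _ = _
  rw [add_comm]
  exact Set.ncard_diff_singleton_add_one hα hTfin

theorem orbit_eq : orbit G D.α = D.O := by
  ext z
  constructor
  · rintro ⟨g, rfl⟩
    exact D.hinv g _ D.hα
  · intro hz
    obtain ⟨g, rfl⟩ := D.htrans z hz
    exact ⟨g, rfl⟩

theorem card_eq : Nat.card G = D.O.ncard * Nat.card (stabilizer G D.α) := by
  rw [← card_smul_mem' (G := G) D.α D.O D.htrans]
  symm
  apply Nat.card_congr
  apply Equiv.subtypeUnivEquiv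
  intro g
  exact D.hinv g _ D.hα

variable (N : Subgroup G) [hN : N.Normal]

/-- the orbit of `α` under the normal subgroup `N` -/
def B : Set Y := {z | ∃ n ∈ N, n • D.α = z}

theorem B_subset : D.B N ⊆ D.O := by
  rintro _ ⟨n, _, rfl⟩
  exact D.hinv n _ D.hα

theorem α_mem_B : D.α ∈ D.B N := ⟨1, N.one_mem, one_smul _ _⟩

include hN in
theorem B_ncard_mem : (D.B N).ncard ∈ D.A := by
  apply D.ncard_mem_A _ (D.B_subset N) (D.α_mem_B N)
  rintro h hh _ ⟨n, hn, rfl⟩
  refine ⟨h * n * h⁻¹, hN.conj_mem n hn h, ?_⟩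
  rw [mul_smul, mul_smul, inv_smul_eq_iff.2 hh.symm]

include hN in
theorem B_ncard_dvd [Finite G] : (D.B N).ncard ∣ D.O.ncard := by
  let K : Subgroup G :=
    { carrier := {g | g • D.α ∈ D.B N}
      one_mem' := by
        show (1 : G) • D.α ∈ D.B N
        rw [one_smul]; exact D.α_mem_B N
      mul_mem' := by
        rintro a b ⟨n, hn, hna⟩ ⟨m, hm, hmb⟩
        refine ⟨a * m * a⁻¹ * n, N.mul_mem (hN.conj_mem m hm a) hn, ?_⟩
        rw [mul_smul, hna, mul_smul, mul_smul, inv_smul_smul, hmb, mul_smul]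
      inv_mem' := by
        rintro a ⟨n, hn, hna⟩
        refine ⟨a⁻¹ * n⁻¹ * a⁻¹⁻¹, hN.conj_mem _ (N.inv_mem hn) a⁻¹, ?_⟩
        rw [inv_inv, mul_smul, mul_smul, ← hna, inv_smul_smul] }
  have h1 : Nat.card ↥K = (D.B N).ncard * Nat.card (stabilizer G D.α) := by
    rw [← card_smul_mem' (G := G) D.α (D.B N) (fun y hy => by
      obtain ⟨n, _, h⟩ := hy
      exact ⟨n, h⟩)]
    rfl
  have h2 := Subgroup.card_subgroup_dvd_card K
  rw [h1, D.card_eq] at h2
  exact Nat.dvd_of_mul_dvd_mul_right Nat.card_pos h2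

include hN in
theorem stabilizer_le_of_le (h : stabilizer G D.α ≤ N) (y : Y) (hy : y ∈ D.O) :
    stabilizer G y ≤ N := by
  obtain ⟨g, rfl⟩ := D.htrans y hy
  intro s hs
  have h1 : g⁻¹ * s * g ∈ stabilizer G D.α := by
    rw [mem_stabilizer_iff, mul_smul, mul_smul, mem_stabilizer_iff.1 hs, inv_smul_smul]
  have h2 := hN.conj_mem _ (h h1) g
  have e : g * (g⁻¹ * s * g) * g⁻¹ = s := by group
  rwa [e] at h2

theorem eq_top_of_le (h : stabilizer G D.α ≤ N) (hB : (D.B N).ncard = D.O.ncard) : N = ⊤ := by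
  have hBO : D.B N = D.O := Set.eq_of_subset_of_ncard_le (D.B_subset N) (le_of_eq hB.symm) D.hfin
  rw [eq_top_iff]
  intro g _
  have h1 : g • D.α ∈ D.B N := by rw [hBO]; exact D.hinv g _ D.hα
  obtain ⟨n, hn, hng⟩ := h1
  have h2 : n⁻¹ * g ∈ stabilizer G D.α := by
    rw [mem_stabilizer_iff, mul_smul, ← hng, inv_smul_smul]
  have h3 := N.mul_mem hn (h h2)
  rwa [mul_inv_cancel_left] at h3

include hN in
/-- in the semiregular case, conjugation invariant subsets of `N` have their sizes in `A` -/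
theorem ncard_pred_mem (hd : N ⊓ stabilizer G D.α = ⊥) (P : G → Prop) (h1 : P 1)
    (hP : ∀ h n : G, P n → P (h * n * h⁻¹)) : {n : G | n ∈ N ∧ P n}.ncard ∈ D.A := by
  have hinj : Set.InjOn (fun n : G => n • D.α) {n : G | n ∈ N ∧ P n} := by
    intro a ha b hb hab
    have h2 : b⁻¹ * a ∈ N ⊓ stabilizer G D.α := by
      refine Subgroup.mem_inf.2 ⟨N.mul_mem (N.inv_mem hb.1) ha.1, ?_⟩
      rw [mem_stabilizer_iff, mul_smul]
      have hab' : a • D.α = b • D.α := hab
      rw [hab', inv_smul_smul]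
    rw [hd, Subgroup.mem_bot] at h2
    exact (inv_mul_eq_one.1 h2).symm
  rw [← Set.ncard_image_of_injOn hinj]
  apply D.ncard_mem_A
  · rintro _ ⟨n, _, rfl⟩
    exact D.hinv n _ D.hα
  · exact ⟨1, ⟨N.one_mem, h1⟩, one_smul _ _⟩
  · rintro h hh _ ⟨n, hn, rfl⟩
    refine ⟨h * n * h⁻¹, ⟨hN.conj_mem n hn.1 h, hP h n hn.2⟩, ?_⟩
    show (h * n * h⁻¹) • D.α = h • n • D.α
    rw [mul_smul, mul_smul, inv_smul_eq_iff.2 hh.symm]

theorem ncard_pow_eq (d : ℕ) :
    {n : G | n ∈ N ∧ n ^ d = 1}.ncard = Nat.card {x : ↥N // x ^ d = 1} := by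
  have : {n : G | n ∈ N ∧ n ^ d = 1} = Subtype.val '' {x : ↥N | x ^ d = 1} := by
    ext n
    constructor
    · rintro ⟨h1, h2⟩
      exact ⟨⟨n, h1⟩, Subtype.ext h2, rfl⟩
    · rintro ⟨x, hx, rfl⟩
      exact ⟨x.2, congrArg Subtype.val hx⟩
  rw [this, Set.ncard_image_of_injective _ Subtype.val_injective, ← Nat.card_coe_set_eq]
  rfl

theorem ncard_true_eq : {n : G | n ∈ N ∧ True}.ncard = Nat.card ↥N := by
  have : {n : G | n ∈ N ∧ True} = (N : Set G) := by
    ext n; simp
  rw [this, ← Nat.card_coe_set_eq]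
  rfl

include hN in
theorem B_ncard_eq_card (hd : N ⊓ stabilizer G D.α = ⊥) : (D.B N).ncard = Nat.card ↥N := by
  have hinj : Set.InjOn (fun n : G => n • D.α) (N : Set G) := by
    intro a ha b hb hab
    have h2 : b⁻¹ * a ∈ N ⊓ stabilizer G D.α := by
      refine Subgroup.mem_inf.2 ⟨N.mul_mem (N.inv_mem hb) ha, ?_⟩
      rw [mem_stabilizer_iff, mul_smul]
      have hab' : a • D.α = b • D.α := hab
      rw [hab', inv_smul_smul]
    rw [hd, Subgroup.mem_bot] at h2
    exact (inv_mul_eq_one.1 h2).symm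
  have : D.B N = (fun n : G => n • D.α) '' (N : Set G) := by
    ext z
    constructor
    · rintro ⟨n, hn, rfl⟩
      exact ⟨n, hn, rfl⟩
    · rintro ⟨n, hn, rfl⟩
      exact ⟨n, hn, rfl⟩
  rw [this, Set.ncard_image_of_injOn hinj, ← Nat.card_coe_set_eq]
  rfl

include hN in
/-- the numerical consequences of Frobenius' theorem in the semiregular case -/
theorem frobenius_pair [Finite G] (hd : N ⊓ stabilizer G D.α = ⊥) (d₁ d₂ : ℕ)
    (hcop : Nat.Coprime d₁ d₂) :
    ∃ a ∈ D.A, ∃ b ∈ D.A, Nat.gcd d₁ (Nat.card ↥N) ∣ a ∧ Nat.gcd d₂ (Nat.card ↥N) ∣ b ∧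
      a + b - 1 ∈ D.A ∧ a + b ≤ Nat.card ↥N + 1 := by
  have hconj : ∀ (d : ℕ) (h n : G), n ^ d = 1 → (h * n * h⁻¹) ^ d = 1 := by
    intro d h n hn
    rw [conj_pow, hn, mul_one, mul_inv_cancel]
  refine ⟨{n : G | n ∈ N ∧ n ^ d₁ = 1}.ncard, D.ncard_pred_mem N hd _ (one_pow _) (hconj d₁),
    {n : G | n ∈ N ∧ n ^ d₂ = 1}.ncard, D.ncard_pred_mem N hd _ (one_pow _) (hconj d₂), ?_, ?_, ?_⟩
  · rw [ncard_pow_eq]
    exact Cfsg.Agent.Lib.Helper70.gcd_dvd_card_pow_eq_one d₁
  · rw [ncard_pow_eq]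
    exact Cfsg.Agent.Lib.Helper70.gcd_dvd_card_pow_eq_one d₂
  · have hun := Set.ncard_union_add_ncard_inter {n : G | n ∈ N ∧ n ^ d₁ = 1}
      {n : G | n ∈ N ∧ n ^ d₂ = 1} (Set.toFinite _) (Set.toFinite _)
    have hint : {n : G | n ∈ N ∧ n ^ d₁ = 1} ∩ {n : G | n ∈ N ∧ n ^ d₂ = 1} = {1} := by
      ext n
      constructor
      · rintro ⟨⟨_, h1⟩, ⟨_, h2⟩⟩
        have h3 := Nat.dvd_gcd (orderOf_dvd_of_pow_eq_one h1) (orderOf_dvd_of_pow_eq_one h2)
        rw [hcop, Nat.dvd_one, orderOf_eq_one_iff] at h3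
        exact h3
      · rintro rfl
        exact ⟨⟨N.one_mem, one_pow _⟩, ⟨N.one_mem, one_pow _⟩⟩
    rw [hint, Set.ncard_singleton] at hun
    have hU : ({n : G | n ∈ N ∧ n ^ d₁ = 1} ∪ {n : G | n ∈ N ∧ n ^ d₂ = 1})
        = {n : G | n ∈ N ∧ (n ^ d₁ = 1 ∨ n ^ d₂ = 1)} := by
      ext n
      constructor
      · rintro (h | h)
        · exact ⟨h.1, Or.inl h.2⟩
        · exact ⟨h.1, Or.inr h.2⟩
      · rintro ⟨h, h1 | h1⟩
        · exact Or.inl ⟨h, h1⟩
        · exact Or.inr ⟨h, h1⟩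
    have hmem := D.ncard_pred_mem N hd (fun n => n ^ d₁ = 1 ∨ n ^ d₂ = 1) (Or.inl (one_pow _))
      (by
        rintro h n (h1 | h1)
        · exact Or.inl (hconj d₁ h n h1)
        · exact Or.inr (hconj d₂ h n h1))
    rw [← hU] at hmem
    have hle : ({n : G | n ∈ N ∧ n ^ d₁ = 1} ∪ {n : G | n ∈ N ∧ n ^ d₂ = 1}).ncard ≤ Nat.card ↥N := by
      rw [← ncard_true_eq N]
      apply Set.ncard_le_ncard _ (Set.toFinite _)
      rintro n (h | h) <;> exact ⟨h.1, trivial⟩
    constructor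
    · have e : {n : G | n ∈ N ∧ n ^ d₁ = 1}.ncard + {n : G | n ∈ N ∧ n ^ d₂ = 1}.ncard - 1
          = ({n : G | n ∈ N ∧ n ^ d₁ = 1} ∪ {n : G | n ∈ N ∧ n ^ d₂ = 1}).ncard := by omega
      rw [e]; exact hmem
    · omega

include hN in
theorem le_or_disjoint (hs : IsSimpleGroup ↥(stabilizer G D.α)) :
    stabilizer G D.α ≤ N ∨ N ⊓ stabilizer G D.α = ⊥ := by
  have hn : (N.subgroupOf (stabilizer G D.α)).Normal := inferInstance
  rcases hs.eq_bot_or_eq_top_of_normal _ hn with h | h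
  · right
    rw [Subgroup.subgroupOf_eq_bot] at h
    exact h.eq_bot
  · left
    exact Subgroup.subgroupOf_eq_top.1 h

end OrbSetup

end Cfsg.Agent.Lib.Helper54
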