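/-
Helper library (helper54): pointwise stabilisers in `Co0` of lists of lattice vectors; the step from the stabiliser of
`α :: bs` to the stabiliser of `bs` (order and simplicity).
-/
import Cfsg.Agent.Lib.Helper54.SimpleOrb
import Cfsg.Agent.Lib.Helper54.Co0Std
import Cfsg.Agent.Lib.Helper54.Co0Order

set_option autoImplicit false

namespace Cfsg.Agent.Lib.Helper54

open Cfsg MulAction

/-- pointwise stabiliser of a list of lattice vectors -/
def FixL (bs : List ↥leechLattice) : Subgroup ↥Co0 where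
  carrier := {g | ∀ b ∈ bs, g • b = b}
  one_mem' := fun b _ => one_smul _ b
  mul_mem' := fun {x y} ha hb b hbb => by rw [mul_smul, hb b hbb, ha b hbb]
  inv_mem' := fun {x} ha b hb => by rw [inv_smul_eq_iff, ha b hb]

theorem mem_fixL {bs : List ↥leechLattice} {g : ↥Co0} : g ∈ FixL bs ↔ ∀ b ∈ bs, g • b = b := Iff.rfl

theorem fixL_nil : FixL [] = ⊤ := by
  ext g
  simp [mem_fixL]

theorem fixL_cons (b : ↥leechLattice) (bs : List ↥leechLattice) :
    FixL (b :: bs) = stabilizer ↥Co0 b ⊓ FixL bs := by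
  ext g
  rw [Subgroup.mem_inf, mem_fixL, mem_fixL, mem_stabilizer_iff]
  simp

theorem fixL_one (b : ↥leechLattice) : FixL [b] = stabilizer ↥Co0 b := by
  rw [fixL_cons, fixL_nil, inf_top_eq]

theorem fixL_two (a b : ↥leechLattice) : FixL [a, b] = stabilizer ↥Co0 a ⊓ stabilizer ↥Co0 b := by
  rw [fixL_cons, fixL_one]

instance finite_Co0 : Finite ↥Co0 := Nat.finite_of_card_ne_zero (by rw [card_Co0]; norm_num)

/-- conjugate lists have isomorphic stabilisers -/
def fixLConj (a : ↥Co0) (bs : List ↥leechLattice) :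
    ↥(FixL bs) ≃* ↥(FixL (bs.map (fun b => a • b))) where
  toFun g := ⟨a * g.1 * a⁻¹, by
    intro b hb
    obtain ⟨b0, hb0, rfl⟩ := List.mem_map.1 hb
    rw [mul_smul, mul_smul, inv_smul_smul, g.2 b0 hb0]⟩
  invFun g := ⟨a⁻¹ * g.1 * a, by
    intro b hb
    rw [mul_smul, mul_smul, g.2 (a • b) (List.mem_map.2 ⟨b, hb, rfl⟩), inv_smul_smul]⟩
  left_inv g := by
    apply Subtype.ext
    show a⁻¹ * (a * g.1 * a⁻¹) * a = g.1
    group
  right_inv g := by
    apply Subtype.ext
    show a * (a⁻¹ * g.1 * a) * a⁻¹ = g.1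
    group
  map_mul' g h := by
    apply Subtype.ext
    show a * (g.1 * h.1) * a⁻¹ = (a * g.1 * a⁻¹) * (a * h.1 * a⁻¹)
    group

theorem ConjL.simple {bs bs' : List ↥leechLattice} (hc : ConjL bs bs')
    (h : IsSimpleGroup ↥(FixL bs)) : IsSimpleGroup ↥(FixL bs') := by
  obtain ⟨a, rfl⟩ := hc
  exact (fixLConj a bs).symm.isSimpleGroup

theorem ConjL.card {bs bs' : List ↥leechLattice} (hc : ConjL bs bs') :
    Nat.card ↥(FixL bs') = Nat.card ↥(FixL bs) := by
  obtain ⟨a, rfl⟩ := hc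
  exact (Nat.card_congr (fixLConj a bs).toEquiv).symm

theorem ConjL.tail {b b' : ↥leechLattice} {bs bs' : List ↥leechLattice}
    (hc : ConjL (b :: bs) (b' :: bs')) : ConjL bs bs' := by
  obtain ⟨a, ha⟩ := hc
  rw [List.map_cons, List.cons.injEq] at ha
  exact ⟨a, ha.2⟩

theorem ConjL.refl (bs : List ↥leechLattice) : ConjL bs bs := ⟨1, by simp⟩

/-- the stabiliser of `α` in the stabiliser of `bs` -/
def stabFixEquiv (α : ↥leechLattice) (bs : List ↥leechLattice) :
    ↥(stabilizer ↥(FixL bs) α) ≃* ↥(FixL (α :: bs)) where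
  toFun g := ⟨g.1.1, by
    intro b hb
    rcases List.mem_cons.1 hb with rfl | hb
    · exact g.2
    · exact g.1.2 b hb⟩
  invFun g := ⟨⟨g.1, fun b hb => g.2 b (List.mem_cons_of_mem _ hb)⟩, g.2 α List.mem_cons_self⟩
  left_inv _ := rfl
  right_inv _ := rfl
  map_mul' _ _ := rfl

theorem clsL_fix {bs : List ↥leechLattice} {n : ℤ} {c : List ℤ} {g : ↥Co0} (hg : g ∈ FixL bs)
    {z : ↥leechLattice} (hz : ClsL bs n c z) : ClsL bs n c (g • z) := by
  have h := (clsL_smul g bs n c z).2 hz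
  have e : bs.map (fun b => g • b) = bs := by
    conv_rhs => rw [← List.map_id bs]
    apply List.map_congr_left
    intro b hb
    exact hg b hb
  rwa [e] at h

theorem eq_of_dot_eq_norm {n : ℤ} {x y : ↥leechLattice} (hx : sqNorm (x : GolayPt → ℤ) = n)
    (hy : sqNorm (y : GolayPt → ℤ) = n) (h : dotInt (x : GolayPt → ℤ) (y : GolayPt → ℤ) = n) :
    y = x := by
  have h1 : sqNorm ((x : GolayPt → ℤ) - (y : GolayPt → ℤ)) = 0 := by
    rw [sqNorm_sub, hx, hy, h]; ring
  have h2 := sqNorm_eq_zero' h1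
  apply Subtype.ext
  exact (sub_eq_zero.1 h2).symm

/-- the data for one step -/
structure StepData (bs : List ↥leechLattice) (n : ℤ) (c : List ℤ) (M : ℕ) (α : ↥leechLattice)
    (L : List (ℤ × ℕ)) : Prop where
  hM : M ≠ 0
  hα : ClsL bs n c α
  hcount0 : CountL bs n c M
  htrans0 : TransL bs n c
  hvals : ∀ y, ClsL bs n c y → dotInt (α : GolayPt → ℤ) (y : GolayPt → ℤ) ∈ n :: L.map Prod.fst
  hn : n ∉ L.map Prod.fst
  hcount : ∀ e ∈ L, CountL (α :: bs) n (e.1 :: c) e.2
  htrans : ∀ e ∈ L, TransL (α :: bs) n (e.1 :: c)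

namespace StepData

variable {bs : List ↥leechLattice} {n : ℤ} {c : List ℤ} {M : ℕ} {α : ↥leechLattice}
  {L : List (ℤ × ℕ)}

theorem conj (S : StepData bs n c M α L) {bs' : List ↥leechLattice} {α' : ↥leechLattice}
    (hc : ConjL (α :: bs) (α' :: bs')) : StepData bs' n c M α' L := by
  have hc' := hc.tail
  obtain ⟨a, ha⟩ := hc
  rw [List.map_cons, List.cons.injEq] at ha
  obtain ⟨rfl, rfl⟩ := ha
  exact
  { hM := S.hM
    hα := (clsL_smul a bs n c α).2 S.hα
    hcount0 := S.hcount0.conj hc'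
    htrans0 := S.htrans0.conj hc'
    hvals := by
      intro y hy
      have h1 : ClsL bs n c (a⁻¹ • y) := by
        rw [← clsL_smul a, smul_inv_smul]; exact hy
      have h2 := S.hvals _ h1
      rw [← co0_dotInt a, smul_inv_smul] at h2
      exact h2
    hn := S.hn
    hcount := fun e he => (S.hcount e he).conj ⟨a, rfl⟩
    htrans := fun e he => (S.htrans e he).conj ⟨a, rfl⟩ }

/-- moving the base point -/
theorem move (S : StepData bs n c M α L) {y : ↥leechLattice} (hy : ClsL bs n c y) :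
    StepData bs n c M y L :=
  S.conj ((ConjL.refl bs).cons S.htrans0 S.hα hy)

/-- the associated abstract setup -/
def setup (S : StepData bs n c M α L) : OrbSetup ↥(FixL bs) ↥leechLattice ℤ where
  O := {x | ClsL bs n c x}
  α := α
  κ := fun z => dotInt (α : GolayPt → ℤ) (z : GolayPt → ℤ)
  L := L
  hα := S.hα
  hfin := Set.finite_of_ncard_ne_zero (by rw [S.hcount0]; exact S.hM)
  hinv := fun g z hz => clsL_fix g.2 hz
  htrans := fun z hz => by
    obtain ⟨g, hg, hgz⟩ := S.htrans0 α z S.hα hz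
    exact ⟨⟨g, hg⟩, hgz⟩
  hcover := fun z hz hne => by
    rcases List.mem_cons.1 (S.hvals z hz) with h | h
    · exact absurd (eq_of_dot_eq_norm S.hα.1 hz.1 h) hne
    · exact h
  hcount := fun e he => by
    rw [← S.hcount e he]
    congr 1
    ext z
    constructor
    · rintro ⟨h1, _, h3⟩
      exact clsL_cons.2 ⟨h3, h1⟩
    · intro h
      obtain ⟨h3, h1⟩ := clsL_cons.1 h
      refine ⟨h1, ?_, h3⟩
      rintro rfl
      apply S.hn
      have : dotInt (z : GolayPt → ℤ) (z : GolayPt → ℤ) = n := by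
        rw [← h1.1]; unfold dotInt sqNorm
        exact Finset.sum_congr rfl (fun i _ => by ring)
      rw [← this, h3]
      exact List.mem_map.2 ⟨e, he, rfl⟩
  htr := fun z hz z' hz' hne _ hk => by
    have h1 : dotInt (α : GolayPt → ℤ) (z : GolayPt → ℤ) ∈ L.map Prod.fst := by
      rcases List.mem_cons.1 (S.hvals z hz) with h | h
      · exact absurd (eq_of_dot_eq_norm S.hα.1 hz.1 h) hne
      · exact h
    obtain ⟨e, he, hek⟩ := List.mem_map.1 h1
    obtain ⟨g, hg, hgz⟩ := S.htrans e he z z' (clsL_cons.2 ⟨hek.symm, hz⟩)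
      (clsL_cons.2 ⟨by rw [hek]; exact hk.symm, hz'⟩)
    exact ⟨⟨g, fun b hb => hg b (List.mem_cons_of_mem _ hb)⟩, hg α List.mem_cons_self, hgz⟩

/-- the list of possible sizes -/
def AL (L : List (ℤ × ℕ)) : List ℕ := (subSums (L.map Prod.snd)).map (fun m => 1 + m)

theorem setup_A (S : StepData bs n c M α L) : S.setup.A = AL L := rfl

theorem setup_O_ncard (S : StepData bs n c M α L) : S.setup.O.ncard = M := S.hcount0

theorem card (S : StepData bs n c M α L) :
    Nat.card ↥(FixL bs) = M * Nat.card ↥(FixL (α :: bs)) := by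
  rw [S.setup.card_eq, S.setup_O_ncard]
  congr 1
  exact Nat.card_congr (stabFixEquiv α bs).toEquiv

theorem simple_stab (S : StepData bs n c M α L) (hs : IsSimpleGroup ↥(FixL (α :: bs))) :
    IsSimpleGroup ↥(stabilizer ↥(FixL bs) S.setup.α) :=
  (stabFixEquiv α bs).isSimpleGroup

/-- if the normal subgroup `N` contains the point stabilisers, its orbits are closed under the point stabilisers -/
theorem mem_B_of_dot (S : StepData bs n c M α L) (N : Subgroup ↥(FixL bs)) [hN : N.Normal]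
    (hle : stabilizer ↥(FixL bs) S.setup.α ≤ N) {y b z : ↥leechLattice} (hy : ClsL bs n c y)
    (hb : b ∈ S.setup.B N) (hz : ClsL bs n c z)
    (hd : dotInt (y : GolayPt → ℤ) (z : GolayPt → ℤ) = dotInt (y : GolayPt → ℤ) (b : GolayPt → ℤ))
    (hne : b ≠ y) : z ∈ S.setup.B N := by
  have Sy := S.move hy
  have hbO : ClsL bs n c b := S.setup.B_subset N hb
  have h1 : dotInt (y : GolayPt → ℤ) (b : GolayPt → ℤ) ∈ L.map Prod.fst := by
    rcases List.mem_cons.1 (Sy.hvals b hbO) with h | h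
    · exact absurd (eq_of_dot_eq_norm hy.1 hbO.1 h) hne
    · exact h
  obtain ⟨e, he, hek⟩ := List.mem_map.1 h1
  obtain ⟨g, hg, hgz⟩ := Sy.htrans e he b z (clsL_cons.2 ⟨hek.symm, hbO⟩)
    (clsL_cons.2 ⟨by rw [hek]; exact hd, hz⟩)
  have hgN : (⟨g, fun b hb => hg b (List.mem_cons_of_mem _ hb)⟩ : ↥(FixL bs)) ∈ N :=
    S.setup.stabilizer_le_of_le N hle y hy (hg y List.mem_cons_self)
  obtain ⟨m, hm, hmb⟩ := hb
  refine ⟨_, N.mul_mem hgN hm, ?_⟩
  rw [mul_smul, hmb]
  exact hgz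

theorem le_B_ncard (S : StepData bs n c M α L) (N : Subgroup ↥(FixL bs)) [hN : N.Normal]
    (hle : stabilizer ↥(FixL bs) S.setup.α ≤ N) (e : ℤ × ℕ) (he : e ∈ L) :
    e.2 ≤ (S.setup.B N).ncard := by
  by_cases h0 : e.2 = 0
  · omega
  have hne : {x | ClsL (α :: bs) n (e.1 :: c) x}.Nonempty :=
    Set.nonempty_of_ncard_ne_zero (by rw [S.hcount e he]; exact h0)
  obtain ⟨y, hy⟩ := hne
  obtain ⟨hy1, hy2⟩ := clsL_cons.1 hy
  have Sy := S.move hy2
  rw [← Sy.hcount e he]
  apply Set.ncard_le_ncard _ (S.setup.hfin.subset (S.setup.B_subset N))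
  intro z hz
  obtain ⟨hz1, hz2⟩ := clsL_cons.1 hz
  apply S.mem_B_of_dot N hle hy2 (S.setup.α_mem_B N) hz2
  · rw [hz1, ← hy1]; exact dotInt_comm' _ _
  · rintro rfl
    apply S.hn
    have : dotInt (S.setup.α : GolayPt → ℤ) (S.setup.α : GolayPt → ℤ) = n := by
      refine Eq.trans ?_ hy2.1
      unfold dotInt sqNorm
      exact Finset.sum_congr rfl (fun i _ => by ring)
    have h2 : e.1 = n := by rw [← hy1]; exact this
    rw [← h2]
    exact List.mem_map.2 ⟨e, he, rfl⟩

theorem B_ncard_dvd' (S : StepData bs n c M α L) (N : Subgroup ↥(FixL bs)) [hN : N.Normal] :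
    (S.setup.B N).ncard ∣ M := by
  have h := S.setup.B_ncard_dvd N
  rwa [S.setup_O_ncard] at h

/-- the primitive case -/
theorem simple_of_primitive (S : StepData bs n c M α L) (hs : IsSimpleGroup ↥(FixL (α :: bs)))
    (hblock : ∀ m ∈ AL L, m ∣ M → m = 1 ∨ m = M) (hbig : ∃ e ∈ L, 2 ≤ e.2) (d₁ d₂ : ℕ)
    (hcop : Nat.Coprime d₁ d₂) (hd : d₁ * d₂ = M)
    (hreg : ∀ a ∈ AL L, ∀ b ∈ AL L, d₁ ∣ a → d₂ ∣ b → a + b - 1 ∈ AL L → a + b ≤ M + 1 → False) :
    IsSimpleGroup ↥(FixL bs) := by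
  have hs' := S.simple_stab hs
  have hnt : Nontrivial ↥(FixL bs) := by
    have : Nontrivial ↥(stabilizer ↥(FixL bs) S.setup.α) := hs'.toNontrivial
    exact (Subtype.val_injective (p := fun g => g ∈ stabilizer ↥(FixL bs) S.setup.α)).nontrivial
  refine { exists_pair_ne := hnt.exists_pair_ne, eq_bot_or_eq_top_of_normal := ?_ }
  intro N hN
  rcases S.setup.le_or_disjoint N hs' with hle | hdis
  · right
    apply S.setup.eq_top_of_le N hle
    rw [S.setup_O_ncard]
    rcases hblock _ (S.setup.B_ncard_mem N) (S.B_ncard_dvd' N)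
      with h | h
    · obtain ⟨e, he, he2⟩ := hbig
      have := S.le_B_ncard N hle e he
      omega
    · exact h
  · left
    have hc := S.setup.B_ncard_eq_card N hdis
    rcases hblock _ (S.setup.B_ncard_mem N) (S.B_ncard_dvd' N)
      with h | h
    · rw [hc] at h
      exact (Subgroup.card_eq_one).1 h
    · exfalso
      rw [hc] at h
      obtain ⟨a, ha, b, hb, h1, h2, h3, h4⟩ := S.setup.frobenius_pair N hdis d₁ d₂ hcop
      rw [h] at h1 h2 h4
      rw [Nat.gcd_eq_left (Dvd.intro _ hd)] at h1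
      rw [Nat.gcd_eq_left (Dvd.intro_left _ hd)] at h2
      exact hreg a ha b hb h1 h2 h3 h4

end StepData

end Cfsg.Agent.Lib.Helper54
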