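/-
Helper library (helper54): stabilisers in `Co0` of configurations fixed exactly by the monomial group `M22`.
-/
import Cfsg.Agent.Lib.Helper54.Co0Fix
import Cfsg.Agent.S0378
import Cfsg.Agent.S0379

set_option autoImplicit false

namespace Cfsg.Agent.Lib.Helper54

open Cfsg MulAction Cfsg.Agent.Lib.Helper7

/-- the coordinate permutation attached to an element of `M24` -/
def permCo0 (σ : Equiv.Perm GolayPt) (hσ : σ ∈ M24) : ↥Co0 := monCo0 σ hσ ∅ GC_empty

theorem permCo0_smul (σ : Equiv.Perm GolayPt) (hσ : σ ∈ M24) (v : ↥leechLattice) :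
    ((permCo0 σ hσ • v : ↥leechLattice) : GolayPt → ℤ) = fun i => (v : GolayPt → ℤ) (σ.symm i) := by
  unfold permCo0
  rw [monCo0_smul]
  funext i
  simp [signedPerm]

theorem co0_ext {g h : ↥Co0} (H : ∀ v : ↥leechLattice,
    ((g • v : ↥leechLattice) : GolayPt → ℤ) = ((h • v : ↥leechLattice) : GolayPt → ℤ)) : g = h := by
  apply Subtype.ext
  apply Equiv.ext
  intro v
  exact Subtype.ext (H v)

theorem permCo0_mul (σ τ : Equiv.Perm GolayPt) (hσ : σ ∈ M24) (hτ : τ ∈ M24) :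
    permCo0 (σ * τ) (M24.mul_mem hσ hτ) = permCo0 σ hσ * permCo0 τ hτ := by
  apply co0_ext
  intro v
  rw [mul_smul, permCo0_smul, permCo0_smul, permCo0_smul]
  rfl

theorem permCo0_injective {σ τ : Equiv.Perm GolayPt} {hσ : σ ∈ M24} {hτ : τ ∈ M24}
    (h : permCo0 σ hσ = permCo0 τ hτ) : σ = τ := by
  apply Equiv.ext
  intro i
  by_contra hne
  have h1 : ((permCo0 σ hσ • E8 i : ↥leechLattice) : GolayPt → ℤ) (σ i)
      = ((permCo0 τ hτ • E8 i : ↥leechLattice) : GolayPt → ℤ) (σ i) := by rw [h]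
  rw [permCo0_smul, permCo0_smul] at h1
  have h2 : ((E8 i : ↥leechLattice) : GolayPt → ℤ) = Pi.single i 8 := rfl
  simp only [h2, Equiv.symm_apply_apply, Pi.single_eq_same] at h1
  have h3 : τ.symm (σ i) ≠ i := fun h4 => hne ((Equiv.symm_apply_eq τ).1 h4)
  rw [Pi.single_eq_of_ne h3] at h1
  norm_num at h1

theorem fix_perm {p q : GolayPt} (g : ↥Co0) (hp : g • E8 p = E8 p) (hq : g • E8 q = E8 q)
    (u : ↥leechLattice) (hu : ∀ j, j ≠ p → j ≠ q → (u : GolayPt → ℤ) j = 1) (hgu : g • u = u) :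
    ∃ (σ : Equiv.Perm GolayPt) (hσ : σ ∈ M24), σ p = p ∧ σ q = q ∧ g = permCo0 σ hσ := by
  have hpc : PresCross g := (presCross_iff g p).2 (by rw [hp]; exact ⟨p, 8, Or.inl rfl, rfl⟩)
  obtain ⟨σ, hσ, c, hc, hform⟩ := cross_monomial g hpc
  have key : ∀ r : GolayPt, g • E8 r = E8 r → σ r = r ∧ r ∉ c := by
    intro r hr
    have h1 := hform (E8 r)
    rw [hr] at h1
    have h2 : ((E8 r : ↥leechLattice) : GolayPt → ℤ) = Pi.single r 8 := rfl
    rw [h2, signedPerm_single] at h1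
    have h3 : σ r = r := by
      by_contra hne
      have h4 := congrFun h1 (σ r)
      rw [Pi.single_eq_same, Pi.single_eq_of_ne hne] at h4
      split_ifs at h4 <;> norm_num at h4
    refine ⟨h3, ?_⟩
    intro hrc
    have h4 := congrFun h1 r
    rw [h3, Pi.single_eq_same, Pi.single_eq_same, if_pos hrc] at h4
    norm_num at h4
  obtain ⟨hσp, hpc'⟩ := key p hp
  obtain ⟨hσq, hqc'⟩ := key q hq
  have hcempty : c = ∅ := by
    ext j
    simp only [Finset.notMem_empty, iff_false]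
    intro hj
    have hjp : j ≠ p := fun h => hpc' (h ▸ hj)
    have hjq : j ≠ q := fun h => hqc' (h ▸ hj)
    have h1 := congrFun (hform u) j
    rw [hgu] at h1
    unfold signedPerm at h1
    rw [if_pos hj, hu j hjp hjq] at h1
    have h2 : σ.symm j ≠ p := fun h => hjp (by rw [← hσp, ← h, Equiv.apply_symm_apply])
    have h3 : σ.symm j ≠ q := fun h => hjq (by rw [← hσq, ← h, Equiv.apply_symm_apply])
    rw [hu _ h2 h3] at h1
    norm_num at h1
  subst hcempty
  refine ⟨σ, hσ, hσp, hσq, ?_⟩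
  apply co0_ext
  intro v
  rw [hform v]
  rfl

/-- a configuration whose stabiliser is the monomial `M22` -/
theorem fixL_m22 {p q : GolayPt} (bs : List ↥leechLattice)
    (hfix : ∀ (σ : Equiv.Perm GolayPt) (hσ : σ ∈ M24), σ p = p → σ q = q → permCo0 σ hσ ∈ FixL bs)
    (hconv : ∀ g ∈ FixL bs, g • E8 p = E8 p ∧ g • E8 q = E8 q ∧
      ∃ u : ↥leechLattice, (∀ j, j ≠ p → j ≠ q → (u : GolayPt → ℤ) j = 1) ∧ g • u = u) :
    Nonempty (↥(stabilizer ↥M24 p ⊓ stabilizer ↥M24 q) ≃* ↥(FixL bs)) := by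
  let φ : ↥(stabilizer ↥M24 p ⊓ stabilizer ↥M24 q) →* ↥(FixL bs) :=
    { toFun := fun s => ⟨permCo0 s.1.1 s.1.2, hfix s.1.1 s.1.2 s.2.1 s.2.2⟩
      map_one' := by
        apply Subtype.ext
        apply co0_ext
        intro v
        show ((permCo0 1 M24.one_mem • v : ↥leechLattice) : GolayPt → ℤ)
          = (((1 : ↥Co0) • v : ↥leechLattice) : GolayPt → ℤ)
        rw [permCo0_smul, one_smul]
        rfl
      map_mul' := by
        intro s t
        apply Subtype.ext
        exact permCo0_mul s.1.1 t.1.1 s.1.2 t.1.2 }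
  refine ⟨MulEquiv.ofBijective φ ⟨?_, ?_⟩⟩
  · intro s t h
    have h1 : permCo0 s.1.1 s.1.2 = permCo0 t.1.1 t.1.2 := congrArg Subtype.val h
    exact Subtype.ext (Subtype.ext (permCo0_injective h1))
  · rintro ⟨g, hg⟩
    obtain ⟨hp, hq, u, hu, hgu⟩ := hconv g hg
    obtain ⟨σ, hσ, hσp, hσq, rfl⟩ := fix_perm g hp hq u hu hgu
    exact ⟨⟨⟨σ, hσ⟩, ⟨hσp, hσq⟩⟩, rfl⟩

theorem fixL_m22_simple {p q : GolayPt} (hpq : p ≠ q) {bs : List ↥leechLattice}
    (h : Nonempty (↥(stabilizer ↥M24 p ⊓ stabilizer ↥M24 q) ≃* ↥(FixL bs))) :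
    IsSimpleGroup ↥(FixL bs) := by
  obtain ⟨e⟩ := h
  have := Cfsg.Agent.S0379.result p q hpq
  exact e.symm.isSimpleGroup

theorem fixL_m22_card {p q : GolayPt} (hpq : p ≠ q) {bs : List ↥leechLattice}
    (h : Nonempty (↥(stabilizer ↥M24 p ⊓ stabilizer ↥M24 q) ≃* ↥(FixL bs))) :
    Nat.card ↥(FixL bs) = 443520 := by
  obtain ⟨e⟩ := h
  rw [← Nat.card_congr e.toEquiv]
  exact Cfsg.Agent.S0378.result p q hpq

/-! ### the nice vectors -/

/-- `4 e_∞ + 4 e_0` -/
def nX : ↥leechLattice := ⟨Pi.single none 4 + Pi.single (some 0) 4,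
  four_four_mem none (some 0) (by decide) 4 4 (Or.inl rfl) (Or.inl rfl)⟩

/-- `- 4 e_∞ + 4 e_0` -/
def nT : ↥leechLattice := ⟨Pi.single none (-4) + Pi.single (some 0) 4,
  four_four_mem none (some 0) (by decide) (-4) 4 (Or.inr rfl) (Or.inl rfl)⟩

/-- the vector with coordinates `a` at `∞`, `b` at `0` and `1` elsewhere -/
def vAB (a b : ℤ) : GolayPt → ℤ := fun j => if j = none then a else if j = some 0 then b else 1

theorem vAB_mem (a b : ℤ) (ha : a % 4 = 1) (hb : b % 4 = 1) (hab : (a + b) % 8 = 6) :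
    vAB a b ∈ leechLattice := by
  rw [mem_leechLattice_iff, mem_leechSet_iff]
  refine ⟨1, fun j => ?_, ?_, ?_⟩
  · unfold vAB
    split_ifs
    · show a % 2 = 1 % 2; omega
    · show b % 2 = 1 % 2; omega
    · rfl
  · have : ∑ i, vAB a b i = a + b + 22 := by
      rw [Fintype.sum_option]
      have h1 : vAB a b none = a := rfl
      rw [h1, ← Finset.add_sum_erase Finset.univ _ (Finset.mem_univ (0 : ZMod 23))]
      have h2 : vAB a b (some 0) = b := rfl
      rw [h2]
      have h3 : ∑ x ∈ Finset.univ.erase (0 : ZMod 23), vAB a b (some x) = 22 := by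
        rw [Finset.sum_congr rfl (g := fun _ => (1 : ℤ))]
        · rw [Finset.sum_const, Finset.card_erase_of_mem (Finset.mem_univ _)]
          simp
        · intro x hx
          have hx0 : x ≠ 0 := Finset.ne_of_mem_erase hx
          unfold vAB
          rw [if_neg (by simp), if_neg (by simpa using hx0)]
      rw [h3]; ring
    rw [this]
    show (a + b + 22) % 8 = (4 * 1) % 8
    omega
  · have : (Finset.univ.filter fun j => vAB a b j ≡ 1 + 2 [ZMOD 4]) = ∅ := by
      ext j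
      simp only [Finset.mem_filter, Finset.mem_univ, true_and, Finset.notMem_empty, iff_false]
      unfold vAB
      split_ifs
      · show ¬ (a % 4 = (1 + 2) % 4); omega
      · show ¬ (b % 4 = (1 + 2) % 4); omega
      · decide
    rw [this]; exact GC_empty

/-- `(5, 1, 1^22)` -/
def nU : ↥leechLattice := ⟨vAB 5 1, vAB_mem 5 1 (by norm_num) (by norm_num) (by norm_num)⟩

/-- `(1, -3, 1^22)` -/
def nW : ↥leechLattice := ⟨vAB 1 (-3), vAB_mem 1 (-3) (by norm_num) (by norm_num) (by norm_num)⟩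

theorem perm_fix_single2 (σ : Equiv.Perm GolayPt) (hσ : σ ∈ M24) (hp : σ none = none)
    (hq : σ (some 0) = some 0) (s t : ℤ) (h : (Pi.single none s + Pi.single (some 0) t : GolayPt → ℤ) ∈ leechLattice) :
    permCo0 σ hσ • (⟨_, h⟩ : ↥leechLattice) = ⟨_, h⟩ := by
  apply Subtype.ext
  rw [permCo0_smul]
  funext i
  show (Pi.single none s + Pi.single (some 0) t : GolayPt → ℤ) (σ.symm i) = (Pi.single none s + Pi.single (some 0) t : GolayPt → ℤ) i
  have h1 : σ.symm i = none ↔ i = none := by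
    rw [Equiv.symm_apply_eq, hp]
  have h2 : σ.symm i = some 0 ↔ i = some 0 := by
    rw [Equiv.symm_apply_eq, hq]
  simp only [Pi.add_apply, Pi.single_apply, h1, h2]

theorem perm_fix_vAB (σ : Equiv.Perm GolayPt) (hσ : σ ∈ M24) (hp : σ none = none)
    (hq : σ (some 0) = some 0) (a b : ℤ) (h : vAB a b ∈ leechLattice) :
    permCo0 σ hσ • (⟨_, h⟩ : ↥leechLattice) = ⟨_, h⟩ := by
  apply Subtype.ext
  rw [permCo0_smul]
  funext i
  show vAB a b (σ.symm i) = vAB a b i
  have h1 : σ.symm i = none ↔ i = none := by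
    rw [Equiv.symm_apply_eq, hp]
  have h2 : σ.symm i = some 0 ↔ i = some 0 := by
    rw [Equiv.symm_apply_eq, hq]
  simp only [vAB, h1, h2]

theorem nX_sub_nT : nX - nT = E8 none := by
  apply Subtype.ext
  funext i
  show (Pi.single none 4 + Pi.single (some 0) 4 : GolayPt → ℤ) i
    - (Pi.single none (-4) + Pi.single (some 0) 4 : GolayPt → ℤ) i = (Pi.single none 8 : GolayPt → ℤ) i
  simp only [Pi.add_apply, Pi.single_apply]
  split_ifs <;> norm_num

theorem nX_add_nT : nX + nT = E8 (some 0) := by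
  apply Subtype.ext
  funext i
  show (Pi.single none 4 + Pi.single (some 0) 4 : GolayPt → ℤ) i
    + (Pi.single none (-4) + Pi.single (some 0) 4 : GolayPt → ℤ) i = (Pi.single (some 0) 8 : GolayPt → ℤ) i
  simp only [Pi.add_apply, Pi.single_apply]
  split_ifs <;> norm_num

theorem fix_E8_of_fix {g : ↥Co0} (h1 : g • nX = nX) (h2 : g • nT = nT) :
    g • E8 none = E8 none ∧ g • E8 (some 0) = E8 (some 0) := by
  rw [← nX_sub_nT, ← nX_add_nT, co0_sub, co0_add, h1, h2]
  exact ⟨rfl, rfl⟩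

theorem m22_equiv_of (u : ↥leechLattice) (a b : ℤ) (hu : (u : GolayPt → ℤ) = vAB a b) :
    Nonempty (↥(stabilizer ↥M24 (none : GolayPt) ⊓ stabilizer ↥M24 (some 0 : GolayPt)) ≃*
      ↥(FixL [nX, nT, u])) := by
  apply fixL_m22
  · intro σ hσ hp hq b' hb'
    simp only [List.mem_cons, List.not_mem_nil, or_false] at hb'
    rcases hb' with rfl | rfl | rfl
    · exact perm_fix_single2 σ hσ hp hq 4 4 _
    · exact perm_fix_single2 σ hσ hp hq (-4) 4 _
    · have h1 : vAB a b ∈ leechLattice := hu ▸ b'.2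
      have h2 : b' = ⟨vAB a b, h1⟩ := Subtype.ext hu
      rw [h2]
      exact perm_fix_vAB σ hσ hp hq a b h1
  · intro g hg
    obtain ⟨h1, h2⟩ := fix_E8_of_fix (hg nX (by simp)) (hg nT (by simp))
    refine ⟨h1, h2, u, ?_, hg u (by simp)⟩
    intro j hj1 hj2
    rw [hu]
    unfold vAB
    rw [if_neg hj1, if_neg hj2]

end Cfsg.Agent.Lib.Helper54
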