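/-
Helper library (helper54): the pointwise stabiliser in `Co0` of the eight frame vectors of the standard octad is an
extraspecial group of order `2 ^ 9`; no element of `M24` induces a transposition on the standard octad.
-/
import Cfsg.Agent.Lib.Helper54.Co0M22
import Cfsg.Agent.Lib.Helper27.OctadPointwise
import Cfsg.Agent.Lib.Helper90.ESConverse

set_option autoImplicit false

namespace Cfsg.Agent.Lib.Helper54.C2

open Cfsg MulAction Cfsg.Agent.Lib.Helper7 Cfsg.Agent.Lib.Helper27 Cfsg.Agent.Lib.Helper54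
open scoped Pointwise

/-- the standard octad -/
def Om : ℕ := 8536111
/-- its complement -/
def Oc : ℕ := 8241104

/-- pointwise stabiliser of the frame vectors in the octad -/
def K0 : Subgroup ↥Co0 where
  carrier := {g | ∀ q ∈ unmask Om, g • E8 q = E8 q}
  one_mem' := fun q _ => one_smul _ _
  mul_mem' := fun {x y} hx hy q hq => by rw [mul_smul, hy q hq, hx q hq]
  inv_mem' := fun {x} hx q hq => by rw [inv_smul_eq_iff, hx q hq]

theorem mem_K0 {g : ↥Co0} : g ∈ K0 ↔ ∀ q ∈ unmask Om, g • E8 q = E8 q := Iff.rfl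

theorem signedPerm_comp (σ τ : Equiv.Perm GolayPt) (c d : Finset GolayPt) (x : GolayPt → ℤ) :
    signedPerm σ c (signedPerm τ d x) = signedPerm (σ * τ) (symmDiff c (σ • d)) x := by
  funext i
  have h2 : i ∈ σ • d ↔ σ.symm i ∈ d := by
    rw [← Finset.inv_smul_mem_iff]; rfl
  have h3 : (σ * τ).symm i = τ.symm (σ.symm i) := rfl
  simp only [signedPerm, h3, Finset.mem_symmDiff, h2]
  by_cases h4 : i ∈ c <;> by_cases h5 : σ.symm i ∈ d <;> simp [h4, h5]

theorem signedPerm_inj {σ σ' : Equiv.Perm GolayPt} {c c' : Finset GolayPt}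
    (h : ∀ v : ↥leechLattice, signedPerm σ c v = signedPerm σ' c' v) : σ = σ' ∧ c = c' := by
  have h2 : ∀ i, (Pi.single (σ i) (if σ i ∈ c then -8 else 8) : GolayPt → ℤ)
      = Pi.single (σ' i) (if σ' i ∈ c' then -8 else 8) := by
    intro i
    have h3 := h (E8 i)
    have h4 : ((E8 i : ↥leechLattice) : GolayPt → ℤ) = Pi.single i 8 := rfl
    rw [h4, signedPerm_single, signedPerm_single] at h3
    exact h3
  have hσσ : ∀ i, σ i = σ' i := by
    intro i
    by_contra hne
    have h3 := congrFun (h2 i) (σ i)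
    rw [Pi.single_eq_same, Pi.single_eq_of_ne hne] at h3
    split_ifs at h3 <;> norm_num at h3
  have hσe : σ = σ' := Equiv.ext hσσ
  subst hσe
  refine ⟨rfl, ?_⟩
  ext j
  have h3 := congrFun (h2 (σ.symm j)) j
  rw [Equiv.apply_symm_apply, Pi.single_eq_same, Pi.single_eq_same] at h3
  by_cases h5 : j ∈ c <;> by_cases h6 : j ∈ c' <;> simp [h5, h6] at h3 ⊢

/-- `g` acts as the signed permutation `(σ, c)` -/
def Rep (g : ↥Co0) (σ : Equiv.Perm GolayPt) (c : Finset GolayPt) : Prop :=
  ∀ v : ↥leechLattice, ((g • v : ↥leechLattice) : GolayPt → ℤ) = signedPerm σ c v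

theorem Rep.ext {g g' : ↥Co0} {σ : Equiv.Perm GolayPt} {c : Finset GolayPt} (h : Rep g σ c)
    (h' : Rep g' σ c) : g = g' := co0_ext (fun v => by rw [h v, h' v])

theorem Rep.inj {g : ↥Co0} {σ σ' : Equiv.Perm GolayPt} {c c' : Finset GolayPt} (h : Rep g σ c)
    (h' : Rep g σ' c') : σ = σ' ∧ c = c' := signedPerm_inj (fun v => by rw [← h v, ← h' v])

theorem Rep.mul {g g' : ↥Co0} {σ σ' : Equiv.Perm GolayPt} {c c' : Finset GolayPt} (h : Rep g σ c)
    (h' : Rep g' σ' c') : Rep (g * g') (σ * σ') (symmDiff c (σ • c')) := by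
  intro v
  rw [mul_smul, h, h', signedPerm_comp]

theorem Rep.one : Rep 1 1 ∅ := by
  intro v
  rw [one_smul]
  funext i
  simp only [signedPerm, Finset.notMem_empty, if_false]
  rfl

/-- monomial form of an element mapping a frame vector to a frame vector -/
theorem exists_rep (g : ↥Co0) (p : GolayPt)
    (hp : ((g • E8 p : ↥leechLattice) : GolayPt → ℤ) ∈ stdCross) :
    ∃ σ ∈ M24, ∃ c ∈ GC, Rep g σ c := by
  obtain ⟨σ, hσ, c, hc, hform⟩ := cross_monomial g ((presCross_iff g p).2 hp)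
  exact ⟨σ, hσ, c, hc, hform⟩

theorem Rep.apply_E8 {g : ↥Co0} {σ : Equiv.Perm GolayPt} {c : Finset GolayPt} (h : Rep g σ c)
    (r : GolayPt) : ((g • E8 r : ↥leechLattice) : GolayPt → ℤ)
      = Pi.single (σ r) (if σ r ∈ c then -8 else 8) := by
  rw [h (E8 r)]
  exact signedPerm_single σ c r 8

theorem Rep.of_single {g : ↥Co0} {σ : Equiv.Perm GolayPt} {c : Finset GolayPt} (h : Rep g σ c)
    {r r' : GolayPt} {s : ℤ} (hs : s = 8 ∨ s = -8)
    (hr : ((g • E8 r : ↥leechLattice) : GolayPt → ℤ) = Pi.single r' s) : σ r = r' := by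
  rw [h.apply_E8 r] at hr
  by_contra hne
  have h4 := congrFun hr (σ r)
  rw [Pi.single_eq_same, Pi.single_eq_of_ne hne] at h4
  split_ifs at h4 <;> norm_num at h4

theorem Rep.fix {g : ↥Co0} {σ : Equiv.Perm GolayPt} {c : Finset GolayPt} (h : Rep g σ c)
    {r : GolayPt} (hr : g • E8 r = E8 r) : σ r = r ∧ r ∉ c := by
  have h0 : ((g • E8 r : ↥leechLattice) : GolayPt → ℤ) = Pi.single r 8 := by rw [hr]; rfl
  have h3 := h.of_single (Or.inl rfl) h0
  refine ⟨h3, ?_⟩
  intro hrc
  rw [h.apply_E8 r] at h0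
  have h4 := congrFun h0 r
  rw [h3, Pi.single_eq_same, Pi.single_eq_same, if_pos hrc] at h4
  norm_num at h4

theorem none_mem_Om : (none : GolayPt) ∈ unmask Om := by decide +kernel

theorem K0_rep {g : ↥Co0} (hg : g ∈ K0) :
    ∃ σ ∈ fixer PO, ∃ c ∈ GC, Disjoint c (unmask Om) ∧ Rep g σ c := by
  obtain ⟨σ, hσ, c, hc, hform⟩ := exists_rep g none
    (by rw [hg none none_mem_Om]; exact ⟨none, 8, Or.inl rfl, rfl⟩)
  refine ⟨σ, mem_fixer_PO.2 ⟨hσ, fun p hp => (hform.fix (hg p hp)).1⟩, c, hc, ?_, hform⟩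
  rw [Finset.disjoint_left]
  intro a ha ha'
  exact (hform.fix (hg a ha')).2 ha

/-! ### codes -/

def anyL' {α : Type} (f : α → Bool) (l : List α) : Bool := List.rec false (fun a _ ih => Bool.rec ih true (f a)) l

theorem anyL'_iff {α : Type} (f : α → Bool) (l : List α) : anyL' f l = true ↔ ∃ a ∈ l, f a = true := by
  induction l with
  | nil => simp [anyL']
  | cons a l ih =>
    have e : anyL' f (a :: l) = Bool.rec (anyL' f l) true (f a) := rfl
    rw [e]
    cases h : f a
    · simp [ih, h]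
    · simp [h]


/-- the sixteen permutations fixing the octad pointwise -/
def PC : List ℕ := [984818244535754528103549039458486304, 965128854020860192151391391390468128, 963721886883755259286232606933354528, 979121071158219704299181131031480352, 968708902336673183175954409307867168, 967812279691448225500382947153381408, 971592882964418941354553515258775584, 970499966350631336865513127433832480, 976448692869377735270425038196672544, 981818691054096003685363657089320992, 972512676110088067912772961567868960, 966182099583441531322624363496310816, 983548720921252936276249910206105632, 975346028712660580592452217730074656, 980224387687010295957922729495201824, 961365507626256404119956257276790816]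

/-- the thirty-two codewords disjoint from the octad -/
def MS : List ℕ := [0, 337856, 628112, 832080, 1161408, 1351424, 1584464, 1903248, 2141072, 2460752, 2702848, 2890176, 3216208, 3421328, 3704512, 4038912, 4202192, 4536592, 4819776, 5024896, 5350928, 5538256, 5780352, 6100032, 6337856, 6656640, 6889680, 7079696, 7409024, 7612992, 7903248, 8241104]

/-- the code of the identity -/
def idc : ℕ := 984818244535754528103549039458486304

theorem PC_fix : ∀ k ∈ PC, checkFix PO k = true := by decide +kernel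

theorem PC_img : ∀ q ∈ unmask Oc, ∃ k ∈ PC, pt (ent k 4) = q := by decide +kernel

theorem MS_code : ∀ m ∈ MS, isCode m = true := by decide +kernel

theorem MS_disj : ∀ m ∈ MS, m &&& Om = 0 := by decide +kernel

theorem MS_complete : ∀ k < 4096, Cfsg.Agent.Lib.Helper27.enc k &&& Om = 0 →
    Cfsg.Agent.Lib.Helper27.enc k ∈ MS := by
  have h : allBelow (fun k => Bool.rec true (anyL' (Nat.beq (Cfsg.Agent.Lib.Helper27.enc k)) MS)
      (Nat.beq (Cfsg.Agent.Lib.Helper27.enc k &&& Om) 0)) 4096 = true := by decide +kernel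
  intro k hk h0
  have h1 := (allBelow_iff _ _).1 h k hk
  rw [h0] at h1
  obtain ⟨a, ha, e⟩ := (anyL'_iff _ _).1 h1
  rw [Nat.eq_of_beq_eq_true e]
  exact ha

theorem PC_valid {k : ℕ} (hk : k ∈ PC) : validCode k = true := valid_of_checkFix (PC_fix k hk)

theorem PC_mem {k : ℕ} (hk : k ∈ PC) : permOf k ∈ fixer PO := permOf_mem_fixer (PC_fix k hk)

theorem MS_lt {m : ℕ} (hm : m ∈ MS) : m < 2 ^ 24 := isCode_lt (MS_code m hm)

theorem perm_code {σ : Equiv.Perm GolayPt} (hσ : σ ∈ fixer PO) : ∃ k ∈ PC, σ = permOf k := by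
  obtain ⟨k, hk, e⟩ := PC_img _ (PO_apply4 hσ)
  refine ⟨k, hk, PO_eq_of_apply4 hσ (PC_mem hk) ?_⟩
  rw [permOf_apply (PC_valid hk), idx_pt (by norm_num), e]

theorem mask_code {c : Finset GolayPt} (hc : c ∈ GC) (hd : Disjoint c (unmask Om)) :
    ∃ m ∈ MS, c = unmask m := by
  have h1 : isCode (mask c) = true := (mem_supports_iff c).1 hc
  obtain ⟨k, hk, e⟩ := (isCode_iff_exists _).1 h1
  rw [disjoint_iff_mask, mask_unmask (by decide), e] at hd
  refine ⟨mask c, ?_, (unmask_mask c).symm⟩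
  rw [e]
  exact MS_complete k hk hd

theorem K0_code {g : ↥Co0} (hg : g ∈ K0) : ∃ k ∈ PC, ∃ m ∈ MS, Rep g (permOf k) (unmask m) := by
  obtain ⟨σ, hσ, c, hc, hd, h⟩ := K0_rep hg
  obtain ⟨k, hk, rfl⟩ := perm_code hσ
  obtain ⟨m, hm, rfl⟩ := mask_code hc hd
  exact ⟨k, hk, m, hm, h⟩

theorem unmask_zero : unmask 0 = ∅ := by decide +kernel

theorem mem_K0_of_rep {g : ↥Co0} {k m : ℕ} (hk : k ∈ PC) (hm : m ∈ MS)
    (h : Rep g (permOf k) (unmask m)) : g ∈ K0 := by
  intro q hq
  apply Subtype.ext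
  rw [h.apply_E8 q, (mem_fixer_PO.1 (PC_mem hk)).2 q hq]
  have h1 : q ∉ unmask m := by
    intro h2
    have h3 : q ∈ unmask (m &&& Om) := by rw [unmask_and]; exact Finset.mem_inter.2 ⟨h2, hq⟩
    rw [MS_disj m hm, unmask_zero] at h3
    exact absurd h3 (Finset.notMem_empty q)
  rw [if_neg h1]
  rfl

/-- the element with given codes -/
theorem exists_of_code {k m : ℕ} (hk : k ∈ PC) (hm : m ∈ MS) :
    ∃ g ∈ K0, Rep g (permOf k) (unmask m) := by
  have h : Rep (monCo0 (permOf k) (fixer_le_M24 _ (PC_mem hk)) (unmask m)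
      (unmask_mem_GC (MS_code m hm))) (permOf k) (unmask m) := fun _ => rfl
  exact ⟨_, mem_K0_of_rep hk hm h, h⟩

theorem Rep.mul_code {g g' : ↥Co0} {k m m' : ℕ} {τ : Equiv.Perm GolayPt} (hk : k ∈ PC)
    (hm : m < 2 ^ 24) (hm' : m' < 2 ^ 24) (h : Rep g (permOf k) (unmask m))
    (h' : Rep g' τ (unmask m')) : Rep (g * g') (permOf k * τ) (unmask (m ^^^ permMask k m')) := by
  have h1 := h.mul h'
  rwa [smul_unmask_permOf (PC_valid hk) hm', ← unmask_xor hm (permMask_lt (PC_valid hk) hm')] at h1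

theorem perm_comm {σ τ : Equiv.Perm GolayPt} (hσ : σ ∈ fixer PO) (hτ : τ ∈ fixer PO) :
    σ * τ = τ * σ := by
  have h1 := PO_mul_self hσ
  have h2 := PO_mul_self hτ
  have h3 := PO_mul_self ((fixer PO).mul_mem hσ hτ)
  have e : σ * (σ * τ * (σ * τ)) * τ = (σ * σ) * τ * σ * (τ * τ) := by group
  rw [h3, h1, h2] at e
  simpa using e

/-! ### the central involution -/

theorem Oc_code : isCode Oc = true := by decide +kernel

/-- the sign change on the complement of the octad -/
def t0 : ↥Co0 := sgnCo0 Oc Oc_code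

theorem t0_rep : Rep t0 1 (unmask Oc) := fun _ => rfl

theorem idc_mem : idc ∈ PC := by decide +kernel

theorem permOf_idc : permOf idc = 1 := by
  apply Equiv.ext
  intro p
  rw [permOf_apply (PC_valid idc_mem)]
  revert p
  decide +kernel

theorem Oc_mem : Oc ∈ MS := by decide +kernel

theorem zero_mem : 0 ∈ MS := by decide +kernel

theorem t0_mem : t0 ∈ K0 := mem_K0_of_rep idc_mem Oc_mem (by rw [permOf_idc]; exact t0_rep)

theorem t0_mul_rep {g : ↥Co0} {τ : Equiv.Perm GolayPt} {m : ℕ} (hm : m < 2 ^ 24)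
    (h : Rep g τ (unmask m)) : Rep (t0 * g) τ (unmask (Oc ^^^ m)) := by
  have h1 := t0_rep.mul h
  rwa [one_smul, one_mul, ← unmask_xor (by decide) hm] at h1

theorem t0_sq : t0 * t0 = 1 := by
  have h := t0_mul_rep (by decide) t0_rep
  rw [Nat.xor_self, unmask_zero] at h
  exact h.ext Rep.one

theorem t0_ne : t0 ≠ 1 := by
  intro h
  have h1 := t0_rep
  rw [h] at h1
  have h2 := (h1.inj Rep.one).2
  have h3 : (pt 4) ∈ unmask Oc := by decide +kernel
  rw [h2] at h3
  exact absurd h3 (Finset.notMem_empty _)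

/-! ### the finite checks -/

theorem comm_chk : allList (fun k1 => allList (fun k2 => allList (fun m1 => allList (fun m2 =>
    Bool.rec (Nat.beq (m1 ^^^ permMask k1 m2) (Oc ^^^ (m2 ^^^ permMask k2 m1))) true
      (Nat.beq (m1 ^^^ permMask k1 m2) (m2 ^^^ permMask k2 m1))) MS) MS) PC) PC = true := by
  decide +kernel

theorem cen_chk : allList (fun k2 => allList (fun m2 =>
    Bool.rec (anyL' (fun k1 => anyL' (fun m1 =>
      Bool.rec true false (Nat.beq (m1 ^^^ permMask k1 m2) (m2 ^^^ permMask k2 m1))) MS) PC) true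
      (band (Nat.beq k2 idc) (Bool.rec (Nat.beq m2 Oc) true (Nat.beq m2 0)))) MS) PC = true := by
  decide +kernel

theorem comm_or {k1 k2 m1 m2 : ℕ} (h1 : k1 ∈ PC) (h2 : k2 ∈ PC) (h3 : m1 ∈ MS) (h4 : m2 ∈ MS) :
    m1 ^^^ permMask k1 m2 = m2 ^^^ permMask k2 m1 ∨
      m1 ^^^ permMask k1 m2 = Oc ^^^ (m2 ^^^ permMask k2 m1) := by
  have h := (allList_iff _ _).1 ((allList_iff _ _).1 ((allList_iff _ _).1
    ((allList_iff _ _).1 comm_chk k1 h1) k2 h2) m1 h3) m2 h4
  cases e : Nat.beq (m1 ^^^ permMask k1 m2) (m2 ^^^ permMask k2 m1)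
  · rw [e] at h
    exact Or.inr (Nat.eq_of_beq_eq_true h)
  · exact Or.inl (Nat.eq_of_beq_eq_true e)

theorem cen_or {k2 m2 : ℕ} (h2 : k2 ∈ PC) (h4 : m2 ∈ MS) :
    (k2 = idc ∧ (m2 = 0 ∨ m2 = Oc)) ∨
      ∃ k1 ∈ PC, ∃ m1 ∈ MS, m1 ^^^ permMask k1 m2 ≠ m2 ^^^ permMask k2 m1 := by
  have h := (allList_iff _ _).1 ((allList_iff _ _).1 cen_chk k2 h2) m2 h4
  cases e : band (Nat.beq k2 idc) (Bool.rec (Nat.beq m2 Oc) true (Nat.beq m2 0))
  · rw [e] at h
    right
    obtain ⟨k1, hk1, h5⟩ := (anyL'_iff _ _).1 h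
    obtain ⟨m1, hm1, h6⟩ := (anyL'_iff _ _).1 h5
    refine ⟨k1, hk1, m1, hm1, ?_⟩
    intro h7
    rw [h7, Nat.beq_refl] at h6
    exact absurd h6 (by decide)
  · left
    rw [band_eq, Bool.and_eq_true] at e
    refine ⟨Nat.eq_of_beq_eq_true e.1, ?_⟩
    cases e2 : Nat.beq m2 0
    · have e3 := e.2
      rw [e2] at e3
      exact Or.inr (Nat.eq_of_beq_eq_true e3)
    · exact Or.inl (Nat.eq_of_beq_eq_true e2)

theorem xor_lt {k m m' : ℕ} (hk : k ∈ PC) (hm : m ∈ MS) (hm' : m' ∈ MS) :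
    m ^^^ permMask k m' < 2 ^ 24 :=
  Nat.xor_lt_two_pow (MS_lt hm) (permMask_lt (PC_valid hk) (MS_lt hm'))

theorem K0_comm {x y : ↥Co0} (hx : x ∈ K0) (hy : y ∈ K0) : x * y = y * x ∨ x * y = t0 * (y * x) := by
  obtain ⟨k1, hk1, m1, hm1, r1⟩ := K0_code hx
  obtain ⟨k2, hk2, m2, hm2, r2⟩ := K0_code hy
  have a1 := r1.mul_code hk1 (MS_lt hm1) (MS_lt hm2) r2
  have a2 := r2.mul_code hk2 (MS_lt hm2) (MS_lt hm1) r1
  rw [perm_comm (PC_mem hk2) (PC_mem hk1)] at a2
  rcases comm_or hk1 hk2 hm1 hm2 with e | e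
  · left
    rw [e] at a1
    exact a1.ext a2
  · right
    rw [e] at a1
    exact a1.ext (t0_mul_rep (xor_lt hk2 hm2 hm1) a2)

theorem K0_center {y : ↥Co0} (hy : y ∈ K0) (hc : ∀ x ∈ K0, x * y = y * x) : y = 1 ∨ y = t0 := by
  obtain ⟨k2, hk2, m2, hm2, r2⟩ := K0_code hy
  rcases cen_or hk2 hm2 with ⟨rfl, rfl | rfl⟩ | ⟨k1, hk1, m1, hm1, hne⟩
  · left
    rw [permOf_idc, unmask_zero] at r2
    exact r2.ext Rep.one
  · right
    rw [permOf_idc] at r2
    exact r2.ext t0_rep
  · exfalso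
    obtain ⟨x, hx, r1⟩ := exists_of_code hk1 hm1
    have a1 := r1.mul_code hk1 (MS_lt hm1) (MS_lt hm2) r2
    have a2 := r2.mul_code hk2 (MS_lt hm2) (MS_lt hm1) r1
    rw [hc x hx] at a1
    exact hne (unmask_injOn (xor_lt hk1 hm1 hm2) (xor_lt hk2 hm2 hm1) (a1.inj a2).2)

theorem t0_central {x : ↥Co0} (hx : x ∈ K0) : x * t0 = t0 * x := by
  obtain ⟨k1, hk1, m1, hm1, r1⟩ := K0_code hx
  have a1 := r1.mul_code hk1 (MS_lt hm1) (MS_lt Oc_mem) t0_rep
  have a2 := t0_mul_rep (MS_lt hm1) r1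
  have e : permMask k1 Oc = Oc := by
    have : ∀ k ∈ PC, permMask k Oc = Oc := by decide +kernel
    exact this k1 hk1
  rw [e, mul_one, Nat.xor_comm] at a1
  exact a1.ext a2

/-! ### the order -/

theorem PC_nodup : (PC.map (fun k => ent k 4)).Nodup := by decide +kernel

theorem MS_nodup : MS.Nodup := by decide +kernel

theorem card_K0 : Nat.card ↥K0 = 2 ^ 9 := by
  have hP : ∀ i : Fin PC.length, PC.get i ∈ PC := fun i => List.get_mem _ _
  have hM : ∀ j : Fin MS.length, MS.get j ∈ MS := fun j => List.get_mem _ _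
  let f : Fin PC.length × Fin MS.length → ↥K0 := fun p =>
    ⟨(exists_of_code (hP p.1) (hM p.2)).choose, (exists_of_code (hP p.1) (hM p.2)).choose_spec.1⟩
  have hf : ∀ p, Rep (f p).1 (permOf (PC.get p.1)) (unmask (MS.get p.2)) := fun p =>
    (exists_of_code (hP p.1) (hM p.2)).choose_spec.2
  have hbij : Function.Bijective f := by
    constructor
    · intro p q h
      have h1 := hf p
      rw [h] at h1
      obtain ⟨e1, e2⟩ := h1.inj (hf q)
      apply Prod.ext
      · have e3 : ent (PC.get p.1) 4 = ent (PC.get q.1) 4 := by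
          rw [← idx_pt (show 4 < 24 by norm_num), ← idx_permOf_apply (PC_valid (hP p.1)),
            ← idx_permOf_apply (PC_valid (hP q.1)), e1]
        exact (List.nodup_iff_injective_get.1 (List.Nodup.of_map _ PC_nodup))
          (List.inj_on_of_nodup_map PC_nodup (hP p.1) (hP q.1) e3)
      · exact (List.nodup_iff_injective_get.1 MS_nodup)
          (unmask_injOn (MS_lt (hM p.2)) (MS_lt (hM q.2)) e2)
    · rintro ⟨g, hg⟩
      obtain ⟨k, hk, m, hm, r⟩ := K0_code hg
      obtain ⟨i, rfl⟩ := List.mem_iff_get.1 hk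
      obtain ⟨j, rfl⟩ := List.mem_iff_get.1 hm
      exact ⟨(i, j), Subtype.ext ((hf (i, j)).ext r)⟩
  rw [← Nat.card_congr (Equiv.ofBijective f hbij), Nat.card_prod, Nat.card_fin, Nat.card_fin]
  rfl

instance finite_K0 : Finite ↥K0 := Nat.finite_of_card_ne_zero (by rw [card_K0]; norm_num)

theorem K0_extraspecial : Cfsg.IsExtraspecial 2 ↥K0 := by
  have : Fact (Nat.Prime 2) := ⟨Nat.prime_two⟩
  refine Cfsg.Agent.Lib.Helper90.isExtraspecial_of (⟨t0, t0_mem⟩ : ↥K0) (IsPGroup.of_card card_K0)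
    ?_ ?_ ?_ ?_ ?_ ?_
  · intro h
    exact t0_ne (congrArg Subtype.val h)
  · exact Subtype.ext t0_sq
  · intro q
    exact Subtype.ext (t0_central q.2)
  · intro y hy
    rcases K0_center y.2 (fun x hx => congrArg Subtype.val (hy ⟨x, hx⟩)) with h | h
    · exact Or.inl (Subtype.ext h)
    · exact Or.inr (Subtype.ext h)
  · intro x y
    rcases K0_comm x.2 y.2 with h | h
    · exact Or.inl (Subtype.ext h)
    · exact Or.inr (Subtype.ext h)
  · by_contra hcon
    push Not at hcon
    have h1 : ∀ y : ↥K0, y = 1 ∨ y = ⟨t0, t0_mem⟩ := by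
      intro y
      rcases K0_center y.2 (fun x hx => congrArg Subtype.val (hcon ⟨x, hx⟩ y)) with h | h
      · exact Or.inl (Subtype.ext h)
      · exact Or.inr (Subtype.ext h)
    have h2 : Nat.card ↥K0 ≤ 2 := by
      classical
      have : Fintype ↥K0 := Fintype.ofFinite _
      rw [Nat.card_eq_fintype_card]
      calc Fintype.card ↥K0 = (Finset.univ : Finset ↥K0).card := rfl
        _ ≤ ({1, ⟨t0, t0_mem⟩} : Finset ↥K0).card := by
            apply Finset.card_le_card
            intro y _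
            rcases h1 y with h | h <;> simp [h]
        _ ≤ 2 := Finset.card_le_two
    rw [card_K0] at h2
    norm_num at h2

/-! ### no transposition on the octad -/

theorem no_transposition (σ : Equiv.Perm GolayPt) (hσ : σ ∈ M24)
    (h1 : σ (pt 1) = pt 1) (h2 : σ (pt 2) = pt 2) (h3 : σ (pt 3) = pt 3) (h5 : σ (pt 5) = pt 5)
    (h14 : σ (pt 14) = pt 14) (h17 : σ (pt 17) = pt 17) (h0 : σ (pt 0) = pt 23)
    (h23 : σ (pt 23) = pt 0) : False := by
  have hq : σ (pt 4) ∈ unmask Oc := by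
    by_contra hcon
    have key : ∀ q : GolayPt, q ∉ unmask Oc → q = pt 23 ∨ q = pt 0 ∨ q = pt 1 ∨ q = pt 2 ∨ q = pt 3 ∨
        q = pt 5 ∨ q = pt 14 ∨ q = pt 17 := by decide +kernel
    have hne : ∀ i, i < 24 → i ≠ 4 → pt 4 ≠ pt i := by decide +kernel
    rcases key _ hcon with e | e | e | e | e | e | e | e
    · exact hne 0 (by norm_num) (by norm_num) (σ.injective (e.trans h0.symm))
    · exact hne 23 (by norm_num) (by norm_num) (σ.injective (e.trans h23.symm))
    · exact hne 1 (by norm_num) (by norm_num) (σ.injective (e.trans h1.symm))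
    · exact hne 2 (by norm_num) (by norm_num) (σ.injective (e.trans h2.symm))
    · exact hne 3 (by norm_num) (by norm_num) (σ.injective (e.trans h3.symm))
    · exact hne 5 (by norm_num) (by norm_num) (σ.injective (e.trans h5.symm))
    · exact hne 14 (by norm_num) (by norm_num) (σ.injective (e.trans h14.symm))
    · exact hne 17 (by norm_num) (by norm_num) (σ.injective (e.trans h17.symm))
  obtain ⟨τ, hτ, e, hτ2⟩ := PO_invols _ hq
  have hτfix := (mem_fixer_PO.1 hτ).2
  have hone : τ * σ = 1 := by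
    apply checkRigid_sound [(6832158, 4415544), (13811730, 8536111), (13811730, 5652556), (10305542, 12222476), (10305542, 6053905), (9347075, 2605066), (9347075, 11952160), (9347075, 9347075), (1302533, 1302533), (11100169, 11100169), (15515712, 15515712), (14254209, 14254209), (4038912, 4038912), (8077824, 8077824), (7767041, 7767041), (14919680, 14919680), (13062145, 13062145)] 147518 (by decide +kernel) (τ * σ) (M24.mul_mem hτ.1 hσ)
    have hp : ∀ p : GolayPt, p ∈ unmask 147518 →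
        p = pt 1 ∨ p = pt 2 ∨ p = pt 3 ∨ p = pt 4 ∨ p = pt 5 ∨ p = pt 14 ∨ p = pt 17 := by
      decide +kernel
    intro p hpF
    rcases hp p hpF with rfl | rfl | rfl | rfl | rfl | rfl | rfl
    · rw [Equiv.Perm.mul_apply, h1]; exact hτfix _ (by decide +kernel)
    · rw [Equiv.Perm.mul_apply, h2]; exact hτfix _ (by decide +kernel)
    · rw [Equiv.Perm.mul_apply, h3]; exact hτfix _ (by decide +kernel)
    · rw [Equiv.Perm.mul_apply, ← e, ← Equiv.Perm.mul_apply, hτ2]; rfl
    · rw [Equiv.Perm.mul_apply, h5]; exact hτfix _ (by decide +kernel)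
    · rw [Equiv.Perm.mul_apply, h14]; exact hτfix _ (by decide +kernel)
    · rw [Equiv.Perm.mul_apply, h17]; exact hτfix _ (by decide +kernel)
  have h4 : (τ * σ) (pt 23) = pt 0 := by
    rw [Equiv.Perm.mul_apply, h23]; exact hτfix _ (by decide +kernel)
  rw [hone] at h4
  exact absurd h4 (by decide +kernel)

end Cfsg.Agent.Lib.Helper54.C2
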