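/-
Helper library (helper54): the relation between the centraliser of the sign change on the complement of the standard octad
(in the stabiliser of `(4, 4, 0^22)`) and `Sp(6, 2)`: totality, functionality, kernel.
-/
import Cfsg.Agent.Lib.Helper54.C2Gens

set_option autoImplicit false

namespace Cfsg.Agent.Lib.Helper54.C2

open Matrix Cfsg Cfsg.Agent.Lib.Helper7 Cfsg.Agent.Lib.Helper13 Cfsg.Agent.Lib.Helper27
  Cfsg.Agent.Lib.Helper54
open Cfsg.Agent.Lib.Helper54.U6 (forceN forceN_eq)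

/-- the vector `(4, 4, 0^22)` -/
abbrev uL : ↥leechLattice := Spor.leechU

theorem coe_uL : ((uL : ↥leechLattice) : GolayPt → ℤ) = V Xu := V_Xu.symm

/-- the root with a given entry -/
def rt (e : ℕ × ℕ) (he : e ∈ tab) : ↥leechLattice := ⟨V e.1, V_mem (tab_leech he)⟩

theorem coe_rt (e : ℕ × ℕ) (he : e ∈ tab) : ((rt e he : ↥leechLattice) : GolayPt → ℤ) = V e.1 := rfl

/-- membership in the centraliser -/
def InC (g : ↥Co0) : Prop := g • uL = uL ∧ g * t0 = t0 * g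

theorem InC.inv {g : ↥Co0} (h : InC g) : InC g⁻¹ := by
  refine ⟨by rw [inv_smul_eq_iff, h.1], ?_⟩
  have h2 := h.2
  calc g⁻¹ * t0 = g⁻¹ * (t0 * g) * g⁻¹ := by group
    _ = g⁻¹ * (g * t0) * g⁻¹ := by rw [h2]
    _ = t0 * g⁻¹ := by group

/-- compatibility of an element of `Co0` and a symplectic matrix -/
def Rel (g : ↥Co0) (u : U) : Prop :=
  ∀ e, ∀ he : e ∈ tab, ∃ e', ∃ he' : e' ∈ tab, g • rt e he = rt e' he' ∧ u.1 *ᵥ dec6 e.2 = dec6 e'.2

theorem Rel.one : Rel 1 1 := fun e he => ⟨e, he, one_smul _ _, U_one_mulVec _⟩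

theorem Rel.mul {g g' : ↥Co0} {u u' : U} (h : Rel g u) (h' : Rel g' u') : Rel (g * g') (u * u') := by
  intro e he
  obtain ⟨e1, he1, a1, b1⟩ := h' e he
  obtain ⟨e2, he2, a2, b2⟩ := h e1 he1
  exact ⟨e2, he2, by rw [mul_smul, a1, a2], by rw [U_mul_mulVec, b1, b2]⟩

theorem rt_dot {e e' : ℕ × ℕ} (he : e ∈ tab) (he' : e' ∈ tab) :
    dotInt ((rt e he : ↥leechLattice) : GolayPt → ℤ) ((rt e' he' : ↥leechLattice) : GolayPt → ℤ)
      = dotC e.1 e'.1 := dotInt_V _ _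

theorem rt_inj {e e' : ℕ × ℕ} (he : e ∈ tab) (he' : e' ∈ tab) (h : rt e he = rt e' he') : e = e' := by
  have h1 : V e.1 = V e'.1 := congrArg Subtype.val h
  have h2 : e.1 = e'.1 := by rw [← enc_V (tab_code he), ← enc_V (tab_code he'), h1]
  exact Prod.ext h2 (tab_fun e he e' he' h2)

theorem t0_rt (e : ℕ × ℕ) (he : e ∈ tab) : t0 • rt e he = rt e he := by
  apply Subtype.ext
  have h1 : ((t0 • rt e he : ↥leechLattice) : GolayPt → ℤ) = sgnV Oc (V e.1) := sgnCo0_smul _ _ _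
  rw [h1]
  funext p
  unfold sgnV
  split_ifs with hb
  · rw [coe_rt, tab_supp e he p ((mem_unmask _ _).2 hb)]; rfl
  · rfl

/-- the roots are permuted by the centraliser -/
theorem closure_rt {g : ↥Co0} (hg : InC g) (e : ℕ × ℕ) (he : e ∈ tab) :
    ∃ e', ∃ he' : e' ∈ tab, g • rt e he = rt e' he' := by
  have hfix : t0 • (g • rt e he) = g • rt e he := by
    rw [← mul_smul, ← hg.2, mul_smul, t0_rt]
  obtain ⟨e', he', h⟩ := root_enum ((g • rt e he : ↥leechLattice) : GolayPt → ℤ) (g • rt e he).2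
    (by rw [co0_sqNorm, coe_rt, sqNorm_V, tab_norm he])
    (by
      intro p hp
      have h1 : ((t0 • (g • rt e he) : ↥leechLattice) : GolayPt → ℤ)
          = sgnV Oc ((g • rt e he : ↥leechLattice) : GolayPt → ℤ) := sgnCo0_smul _ _ _
      rw [hfix] at h1
      have h2 := congrFun h1 p
      unfold sgnV at h2
      rw [if_pos ((mem_unmask _ _).1 hp)] at h2
      omega)
    (by
      rw [← coe_uL]
      conv_lhs => rw [← hg.1]
      rw [co0_dotInt, coe_uL, coe_rt, dotInt_V, tab_dotu e he])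
  exact ⟨e', he', Subtype.ext h⟩

/-! ### totality -/

/-- the code of the vector dual to a coordinate -/
def dk : Fin 3 ⊕ Fin 3 → ℕ
  | .inl i => 2 ^ (3 + i.val)
  | .inr i => 2 ^ i.val

theorem dk_spec : ∀ (k : Fin 3 ⊕ Fin 3) (x : V6), sf x (dec6 (dk k)) = x k := by decide +kernel

theorem dk_lt : ∀ k : Fin 3 ⊕ Fin 3, dk k < 64 ∧ dk k ≠ 0 := by decide +kernel

theorem exists_entry (x : V6) (hx : x ≠ 0) : ∃ e ∈ tab, dec6 e.2 = x := by
  obtain ⟨e, he, h⟩ := tab_complete (enc6 x) (enc6_lt x) (by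
    intro h
    apply hx
    rw [← dec6_enc6 x, h, dec6_zero])
  exact ⟨e, he, by rw [h, dec6_enc6]⟩

theorem exists_partner {g : ↥Co0} (hg : InC g) : ∃ u : U, Rel g u := by
  classical
  have hc : ∀ k : Fin 3 ⊕ Fin 3, ∃ e, ∃ _ : e ∈ tab, e.2 = dk k := fun k => by
    obtain ⟨e, he, h⟩ := tab_complete (dk k) (dk_lt k).1 (dk_lt k).2
    exact ⟨e, he, h⟩
  choose c hc1 hc2 using hc
  have hd : ∀ k, ∃ e', ∃ he' : e' ∈ tab, g⁻¹ • rt (c k) (hc1 k) = rt e' he' :=
    fun k => closure_rt hg.inv (c k) (hc1 k)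
  choose d hd1 hd2 using hd
  let M : Matrix (Fin 3 ⊕ Fin 3) (Fin 3 ⊕ Fin 3) (ZMod 2) :=
    fun k j => (Matrix.J (Fin 3) (ZMod 2) *ᵥ dec6 (d k).2) j
  have hM : ∀ (x : V6) k, (M *ᵥ x) k = sf x (dec6 (d k).2) := by
    intro x k
    show (fun j => M k j) ⬝ᵥ x = x ⬝ᵥ (Matrix.J (Fin 3) (ZMod 2) *ᵥ dec6 (d k).2)
    rw [dotProduct_comm]
  have key : ∀ e (he : e ∈ tab) e' (he' : e' ∈ tab), g • rt e he = rt e' he' →
      M *ᵥ dec6 e.2 = dec6 e'.2 := by
    intro e he e' he' h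
    funext k
    rw [hM, tab_sf he (hd1 k), ← dk_spec k (dec6 e'.2), ← hc2 k, tab_sf he' (hc1 k)]
    congr 2
    rw [← rt_dot he (hd1 k), ← rt_dot he' (hc1 k), ← hd2 k, ← h, ← co0_dotInt g, smul_inv_smul]
  have hsp : M ∈ Matrix.symplecticGroup (Fin 3) (ZMod 2) := by
    rw [mem_symplecticGroup_iff_preserves]
    intro x y
    by_cases hx : x = 0
    · rw [hx, mulVec_zero, sympForm_zero_left, sympForm_zero_left]
    by_cases hy : y = 0
    · rw [hy, mulVec_zero, sympForm_zero_right, sympForm_zero_right]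
    obtain ⟨e1, he1, rfl⟩ := exists_entry x hx
    obtain ⟨e2, he2, rfl⟩ := exists_entry y hy
    obtain ⟨f1, hf1, a1⟩ := closure_rt hg e1 he1
    obtain ⟨f2, hf2, a2⟩ := closure_rt hg e2 he2
    rw [key e1 he1 f1 hf1 a1, key e2 he2 f2 hf2 a2]
    show sf _ _ = sf _ _
    rw [tab_sf hf1 hf2, tab_sf he1 he2, ← rt_dot hf1 hf2, ← rt_dot he1 he2, ← a1, ← a2, co0_dotInt]
  refine ⟨⟨M, hsp⟩, ?_⟩
  intro e he
  obtain ⟨e', he', h⟩ := closure_rt hg e he
  exact ⟨e', he', h, key e he e' he' h⟩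

/-! ### functionality -/

theorem eq_one_of_rel {u : U} (h : Rel 1 u) : u = 1 := by
  apply U_ext_mulVec
  intro x
  rw [U_one_mulVec]
  by_cases hx : x = 0
  · rw [hx, mulVec_zero]
  obtain ⟨e, he, rfl⟩ := exists_entry x hx
  obtain ⟨e', he', a, b⟩ := h e he
  rw [one_smul] at a
  rw [b, ← rt_inj he he' a]

/-! ### the kernel -/

theorem Om_or_Oc : ∀ p : GolayPt, p ∈ unmask Oc ∨ p ∈ unmask Om := by decide +kernel

theorem K0_coord {g : ↥Co0} (hg : g ∈ K0) (z : ↥leechLattice) {q : GolayPt} (hq : q ∈ unmask Om) :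
    ((g • z : ↥leechLattice) : GolayPt → ℤ) q = (z : GolayPt → ℤ) q := by
  have h := co0_dotInt g z (E8 q)
  rw [hg q hq] at h
  have e : ((E8 q : ↥leechLattice) : GolayPt → ℤ) = Pi.single q 8 := rfl
  rw [e, dotInt_single, dotInt_single] at h
  omega

theorem K0_fix {g : ↥Co0} (hg : g ∈ K0) (w : ↥leechLattice)
    (hw : ∀ p ∈ unmask Oc, (w : GolayPt → ℤ) p = 0) : g • w = w := by
  apply eq_of_dot_eq_norm (n := sqNorm (w : GolayPt → ℤ)) rfl (co0_sqNorm g w)
  unfold dotInt sqNorm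
  apply Finset.sum_congr rfl
  intro p _
  rcases Om_or_Oc p with hp | hp
  · rw [hw p hp]; ring
  · rw [K0_coord hg w hp]; ring

theorem uL_supp : ∀ p ∈ unmask Oc, ((uL : ↥leechLattice) : GolayPt → ℤ) p = 0 := by
  intro p hp
  rw [coe_uL]
  revert p
  decide +kernel

theorem K0_inC {g : ↥Co0} (hg : g ∈ K0) : InC g := ⟨K0_fix hg uL uL_supp, t0_central hg⟩

theorem K0_rel {g : ↥Co0} (hg : g ∈ K0) : Rel g 1 := fun e he =>
  ⟨e, he, K0_fix hg _ (tab_supp e he), U_one_mulVec _⟩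

theorem dotInt_neg_right (x y : GolayPt → ℤ) : dotInt x (-y) = - dotInt x y := by
  unfold dotInt
  rw [← Finset.sum_neg_distrib]
  exact Finset.sum_congr rfl (fun i _ => by simp)

theorem dotInt_neg_left (x y : GolayPt → ℤ) : dotInt (-x) y = - dotInt x y := by
  unfold dotInt
  rw [← Finset.sum_neg_distrib]
  exact Finset.sum_congr rfl (fun i _ => by simp)

theorem pm_of_rel {g : ↥Co0} (h : Rel g 1) (e : ℕ × ℕ) (he : e ∈ tab) :
    g • rt e he = rt e he ∨ g • rt e he = - rt e he := by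
  obtain ⟨e', he', a, b⟩ := h e he
  rw [U_one_mulVec] at b
  have h2 := dec6_inj (tab_lab e he) (tab_lab e' he') b
  rcases tab_pm e he e' he' h2 with h3 | h3
  · left
    rw [a]
    exact Subtype.ext (by rw [coe_rt, coe_rt, h3])
  · right
    rw [a]
    apply Subtype.ext
    have h4 := V_add_of_check h3
    rw [V_Xz] at h4
    show V e'.1 = - V e.1
    exact (neg_eq_of_add_eq_zero_right h4.symm).symm

theorem sign_step {g : ↥Co0} {e e' : ℕ × ℕ} (he : e ∈ tab) (he' : e' ∈ tab)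
    (hpm : g • rt e' he' = rt e' he' ∨ g • rt e' he' = - rt e' he') (hd : dotC e.1 e'.1 ≠ 0) :
    (g • rt e he = rt e he → g • rt e' he' = rt e' he') ∧
      (g • rt e he = - rt e he → g • rt e' he' = - rt e' he') := by
  have h0 := co0_dotInt g (rt e he) (rt e' he')
  rw [rt_dot] at h0
  constructor
  · intro h
    rcases hpm with h' | h'
    · exact h'
    · exfalso
      rw [h, h'] at h0
      have e1 : ((- rt e' he' : ↥leechLattice) : GolayPt → ℤ) = - (rt e' he' : GolayPt → ℤ) := rfl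
      rw [e1, dotInt_neg_right, rt_dot] at h0
      omega
  · intro h
    rcases hpm with h' | h'
    · exfalso
      rw [h, h'] at h0
      have e1 : ((- rt e he : ↥leechLattice) : GolayPt → ℤ) = - (rt e he : GolayPt → ℤ) := rfl
      rw [e1, dotInt_neg_left, rt_dot] at h0
      omega
    · exact h'

theorem all_sign {g : ↥Co0} (h : Rel g 1) :
    (∀ e, ∀ he : e ∈ tab, g • rt e he = rt e he) ∨ (∀ e, ∀ he : e ∈ tab, g • rt e he = - rt e he) := by
  rcases pm_of_rel h e0 e0_mem with h0 | h0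
  · left
    intro e he
    obtain ⟨e1, he1, d1, d2⟩ := tab_conn e he
    exact (sign_step he1 he (pm_of_rel h e he) d2).1
      ((sign_step e0_mem he1 (pm_of_rel h e1 he1) d1).1 h0)
  · right
    intro e he
    obtain ⟨e1, he1, d1, d2⟩ := tab_conn e he
    exact (sign_step he1 he (pm_of_rel h e he) d2).2
      ((sign_step e0_mem he1 (pm_of_rel h e1 he1) d1).2 h0)

theorem E8_eq_add (q : GolayPt) (x y : ↥leechLattice)
    (h : ∀ p, (Pi.single q 8 : GolayPt → ℤ) p = (x : GolayPt → ℤ) p + (y : GolayPt → ℤ) p) :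
    E8 q = x + y := Subtype.ext (funext h)

theorem six_entry : ∀ i ∈ ([1, 2, 3, 5, 14, 17] : List ℕ), ∃ x ∈ e8tab, x.1 = i := by
  intro i hi
  rw [← e8tab_pts] at hi
  obtain ⟨x, hx, e⟩ := List.mem_map.1 hi
  exact ⟨x, hx, e⟩

theorem E8_six {i : ℕ} (hi : i ∈ ([1, 2, 3, 5, 14, 17] : List ℕ)) :
    ∃ e, ∃ he : e ∈ tab, ∃ e', ∃ he' : e' ∈ tab, E8 (pt i) = rt e he + rt e' he' := by
  obtain ⟨x, hx, rfl⟩ := six_entry i hi
  exact ⟨x.2.1, (e8tab_mem x hx).1, x.2.2, (e8tab_mem x hx).2, E8_eq_add _ _ _ (e8tab_sum x hx)⟩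

theorem E8_23 : E8 (pt 23) = uL + rt ea ea_mem :=
  E8_eq_add _ _ _ (fun p => by rw [coe_uL]; exact e8_23 p)

theorem E8_0 : E8 (pt 0) = uL + rt ena ena_mem :=
  E8_eq_add _ _ _ (fun p => by rw [coe_uL]; exact e8_0 p)

theorem ena_eq : rt ena ena_mem = - rt ea ea_mem := by
  apply Subtype.ext
  have h4 := V_add_of_check ea_ena
  rw [V_Xz] at h4
  show V ena.1 = - V ea.1
  exact (neg_eq_of_add_eq_zero_right h4.symm).symm

theorem pts_Om : ∀ q ∈ unmask Om, q = pt 0 ∨ q = pt 23 ∨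
    ∃ i ∈ ([1, 2, 3, 5, 14, 17] : List ℕ), q = pt i := by decide +kernel

theorem mem_K0_of_rel {g : ↥Co0} (hg : InC g) (h : Rel g 1) : g ∈ K0 := by
  rcases all_sign h with hs | hs
  · intro q hq
    rcases pts_Om q hq with rfl | rfl | ⟨i, hi, rfl⟩
    · rw [E8_0, co0_add, hg.1, hs]
    · rw [E8_23, co0_add, hg.1, hs]
    · obtain ⟨e, he, e', he', h1⟩ := E8_six hi
      rw [h1, co0_add, hs, hs]
  · exfalso
    have h23 : g • E8 (pt 23) = E8 (pt 0) := by
      rw [E8_23, co0_add, hg.1, hs, E8_0, ena_eq]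
    have h0 : g • E8 (pt 0) = E8 (pt 23) := by
      rw [E8_0, co0_add, hg.1, hs, E8_23, ena_eq, neg_neg]
    have h6 : ∀ i ∈ ([1, 2, 3, 5, 14, 17] : List ℕ),
        ((g • E8 (pt i) : ↥leechLattice) : GolayPt → ℤ) = Pi.single (pt i) (-8) := by
      intro i hi
      obtain ⟨e, he, e', he', h1⟩ := E8_six hi
      have h2 : g • E8 (pt i) = - E8 (pt i) := by
        rw [h1, co0_add, hs, hs]; abel
      rw [h2]
      show - (Pi.single (pt i) 8 : GolayPt → ℤ) = _
      rw [← Pi.single_neg]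
    obtain ⟨σ, hσ, c, _, r⟩ := exists_rep g (pt 23) (by rw [h23]; exact ⟨pt 0, 8, Or.inl rfl, rfl⟩)
    exact no_transposition σ hσ
      (r.of_single (Or.inr rfl) (h6 1 (by simp))) (r.of_single (Or.inr rfl) (h6 2 (by simp)))
      (r.of_single (Or.inr rfl) (h6 3 (by simp))) (r.of_single (Or.inr rfl) (h6 5 (by simp)))
      (r.of_single (Or.inr rfl) (h6 14 (by simp))) (r.of_single (Or.inr rfl) (h6 17 (by simp)))
      (r.of_single (Or.inl rfl) (by rw [h0]; rfl)) (r.of_single (Or.inl rfl) (by rw [h23]; rfl))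

end Cfsg.Agent.Lib.Helper54.C2
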