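/-
Helper library (helper54): the Higman-Sims and McLaughlin groups (stabilisers of triangles in the Leech lattice) are simple.
-/
import Cfsg.Agent.Lib.Helper54.Co0M22
import Cfsg.Agent.Lib.Helper54.HSMain
import Cfsg.Agent.Lib.Helper54.McLMain2
import Cfsg.Prelude.Def_Sporadic

set_option autoImplicit false

namespace Cfsg.Agent.Lib.Helper54

open Cfsg MulAction

theorem ConjL.symm {bs bs' : List ↥leechLattice} (hc : ConjL bs bs') : ConjL bs' bs := by
  obtain ⟨a, rfl⟩ := hc
  refine ⟨a⁻¹, ?_⟩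
  rw [List.map_map]
  conv_lhs => rw [← List.map_id bs]
  apply List.map_congr_left
  intro b _
  simp

theorem ConjL.trans {bs bs' bs'' : List ↥leechLattice} (h1 : ConjL bs bs') (h2 : ConjL bs' bs'') :
    ConjL bs bs'' := by
  obtain ⟨a, rfl⟩ := h1
  obtain ⟨b, rfl⟩ := h2
  refine ⟨b * a, ?_⟩
  rw [List.map_map]
  apply List.map_congr_left
  intro x _
  simp [mul_smul]

theorem fixL_congr {bs bs' : List ↥leechLattice} (h : ∀ b, b ∈ bs ↔ b ∈ bs') : FixL bs = FixL bs' := by
  ext g
  rw [mem_fixL, mem_fixL]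
  exact ⟨fun H b hb => H b ((h b).2 hb), fun H b hb => H b ((h b).1 hb)⟩

/-! ### norms and inner products of the nice vectors -/

theorem nU_norm : sqNorm (nU : GolayPt → ℤ) = 48 := by decide +kernel
theorem nX_norm : sqNorm (nX : GolayPt → ℤ) = 32 := by decide +kernel
theorem nT_norm : sqNorm (nT : GolayPt → ℤ) = 32 := by decide +kernel
theorem nU_nT : dotInt (nU : GolayPt → ℤ) (nT : GolayPt → ℤ) = -16 := by decide +kernel
theorem nU_nX : dotInt (nU : GolayPt → ℤ) (nX : GolayPt → ℤ) = 24 := by decide +kernel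
theorem nT_nX : dotInt (nT : GolayPt → ℤ) (nX : GolayPt → ℤ) = 0 := by decide +kernel

/-- `(-3, 1, 1^22)` -/
def nV : ↥leechLattice := ⟨vAB (-3) 1, vAB_mem (-3) 1 (by norm_num) (by norm_num) (by norm_num)⟩

theorem nV_norm : sqNorm (nV : GolayPt → ℤ) = 32 := by decide +kernel
theorem nV_nX : dotInt (nV : GolayPt → ℤ) (nX : GolayPt → ℤ) = -8 := by decide +kernel
theorem nX_nT : dotInt (nX : GolayPt → ℤ) (nT : GolayPt → ℤ) = 0 := by decide +kernel
theorem nV_nT : dotInt (nV : GolayPt → ℤ) (nT : GolayPt → ℤ) = 16 := by decide +kernel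

/-! ### the Higman-Sims group -/

theorem stepHS : StepData [tt0, u3] 32 [0, 24] 100 wB [(8, 22), (16, 77)] where
  hM := by norm_num
  hα := wB_cls100
  hcount0 := count100
  htrans0 := trans100
  hvals := by
    intro y hy
    have := vals100 y hy
    simp only [List.mem_cons, List.not_mem_nil, or_false, List.map_cons, List.map_nil] at this ⊢
    tauto
  hn := by decide
  hcount := by
    intro e he
    simp only [List.mem_cons, List.not_mem_nil, or_false] at he
    rcases he with rfl | rfl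
    · exact count22
    · exact count77
  htrans := by
    intro e he
    simp only [List.mem_cons, List.not_mem_nil, or_false] at he
    rcases he with rfl | rfl
    · exact trans22
    · exact trans77

theorem conj_hs_nice : ConjL [wB, tt0, u3] [nX, nT, nU] :=
  ((conj_u3 nU nU_norm).cons transY tt0_cls (clsL_cons.2 ⟨nU_nT, clsL_nil.2 nT_norm⟩)).cons
    trans100 wB_cls100 (clsL_cons.2 ⟨nT_nX, clsL_cons.2 ⟨nU_nX, clsL_nil.2 nX_norm⟩⟩)

theorem m22_hs_simple : IsSimpleGroup ↥(FixL [wB, tt0, u3]) :=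
  conj_hs_nice.symm.simple (fixL_m22_simple (by decide) (m22_equiv_of nU 5 1 rfl))

theorem m22_hs_card : Nat.card ↥(FixL [wB, tt0, u3]) = 443520 := by
  rw [conj_hs_nice.symm.card]
  exact fixL_m22_card (by decide) (m22_equiv_of nU 5 1 rfl)

theorem hs_simple0 : IsSimpleGroup ↥(FixL [tt0, u3]) :=
  stepHS.simple_of_primitive m22_hs_simple (by decide +kernel) ⟨(8, 22), by simp, by norm_num⟩ 4 25
    (by norm_num) (by norm_num) (by decide +kernel)

theorem hs_card0 : Nat.card ↥(FixL [tt0, u3]) = 44352000 := by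
  rw [stepHS.card, m22_hs_card]

theorem hs_main (v w : ↥leechLattice) (hv : sqNorm (v : GolayPt → ℤ) = 48)
    (hw : sqNorm (w : GolayPt → ℤ) = 48)
    (hvw : dotInt (v : GolayPt → ℤ) (w : GolayPt → ℤ) = -32) :
    IsHS ↥(stabilizer ↥Co0 v ⊓ stabilizer ↥Co0 w) := by
  have hc := conj_hs v w hv hw hvw
  have e : stabilizer ↥Co0 v ⊓ stabilizer ↥Co0 w = FixL [-v - w, v] := by
    ext g
    rw [Subgroup.mem_inf, mem_stabilizer_iff, mem_stabilizer_iff, mem_fixL]
    constructor
    · rintro ⟨h1, h2⟩ b hb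
      simp only [List.mem_cons, List.not_mem_nil, or_false] at hb
      rcases hb with rfl | rfl
      · rw [co0_sub, co0_neg, h1, h2]
      · exact h1
    · intro H
      have h1 := H (-v - w) (by simp)
      have h2 := H v (by simp)
      exact ⟨h2, fix_w_of_fix g v w h1 h2⟩
  rw [e]
  exact ⟨hc.simple hs_simple0, by rw [hc.card, hs_card0]⟩

/-! ### the McLaughlin group -/

theorem stepMcL : StepData [wB, v0] 32 [0, 16] 2025 xx1 [(0, 330), (8, 1232), (16, 462)] where
  hM := by norm_num
  hα := xx1_cls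
  hcount0 := count2025
  htrans0 := trans2025
  hvals := by
    intro y hy
    have := mmP_census.1 _ ((clsL_iff_clsQ (Xs := [XwB, Xv0]) rfl 32 [0, 16] y).1 hy)
    have e : (xx1 : GolayPt → ℤ) = V Xx1 := rfl
    rw [e]
    simp only [List.mem_cons, List.not_mem_nil, or_false, List.map_cons, List.map_nil] at this ⊢
    tauto
  hn := by decide
  hcount := by
    intro e he
    simp only [List.mem_cons, List.not_mem_nil, or_false] at he
    rcases he with rfl | rfl | rfl
    · exact count330
    · exact count1232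
    · exact count462
  htrans := by
    intro e he
    simp only [List.mem_cons, List.not_mem_nil, or_false] at he
    rcases he with rfl | rfl | rfl
    · exact trans330
    · exact trans1232
    · exact trans462

theorem conj_mcl_nice : ConjL [xx1, wB, v0] [nT, nX, nV] :=
  (conj_pair8 nV nX nV_norm nX_norm nV_nX).cons trans2025 xx1_cls
    (clsL_cons.2 ⟨nX_nT, clsL_cons.2 ⟨nV_nT, clsL_nil.2 nT_norm⟩⟩)

theorem fix_swap : FixL [nT, nX, nV] = FixL [nX, nT, nV] :=
  fixL_congr (fun b => by simp only [List.mem_cons, List.not_mem_nil, or_false]; tauto)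

theorem m22_mcl_simple : IsSimpleGroup ↥(FixL [xx1, wB, v0]) := by
  apply conj_mcl_nice.symm.simple
  rw [fix_swap]
  exact fixL_m22_simple (by decide) (m22_equiv_of nV (-3) 1 rfl)

theorem m22_mcl_card : Nat.card ↥(FixL [xx1, wB, v0]) = 443520 := by
  rw [conj_mcl_nice.symm.card, fix_swap]
  exact fixL_m22_card (by decide) (m22_equiv_of nV (-3) 1 rfl)

theorem mcl_simple0 : IsSimpleGroup ↥(FixL [wB, v0]) :=
  stepMcL.simple_of_primitive m22_mcl_simple (by decide +kernel) ⟨(0, 330), by simp, by norm_num⟩ 81 25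
    (by norm_num) (by norm_num) (by decide +kernel)

theorem mcl_card0 : Nat.card ↥(FixL [wB, v0]) = 898128000 := by
  rw [stepMcL.card, m22_mcl_card]

theorem mcl_main (v w : ↥leechLattice) (hv : sqNorm (v : GolayPt → ℤ) = 32)
    (hw : sqNorm (w : GolayPt → ℤ) = 32)
    (hvw : dotInt (v : GolayPt → ℤ) (w : GolayPt → ℤ) = -8) :
    IsMcL ↥(stabilizer ↥Co0 v ⊓ stabilizer ↥Co0 w) := by
  have hc : ConjL [wB, v0] [v, w] := conj_pair8 w v hw hv (by rw [dotInt_comm']; exact hvw)
  rw [← fixL_two]
  exact ⟨hc.simple mcl_simple0, by rw [hc.card, mcl_card0]⟩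

end Cfsg.Agent.Lib.Helper54
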