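/-
Helper library (helper54): the Conway group `Co2` (stabiliser of a minimal vector) is simple; it acts primitively on the
47104 minimal vectors having inner product -8 with the fixed one, with point stabiliser the McLaughlin group.
-/
import Cfsg.Agent.Lib.Helper54.HSSimple
import Cfsg.Agent.Lib.Helper54.McLRefine8

set_option autoImplicit false

namespace Cfsg.Agent.Lib.Helper54

open Cfsg MulAction Cfsg.Agent.Lib.Helper27

/-- transitivity on a class from the certificate of a refinement with a single root -/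
theorem trans_of_refineTree {S : ℕ} {Xs : List ℕ} {gens : List (ℕ × List ℕ)}
    (hb : baseOK S Xs = true) (hg : gensOK gens = true) (hf : fixOK gens Xs = true)
    {n : ℤ} (hn : n ≤ 64) {c : List ℤ}
    {e : ℤ × Tr × ℕ × List ℕ × List ℕ} {k : ℕ} (hroots : e.2.2.2.1 = [k])
    (hok : refineTreeOK1 S gens Xs n c e = true)
    (hcount : {x | ClsQ Xs n (e.1 :: c) x}.ncard = e.2.2.1) (hN0 : e.2.2.1 ≠ 0)
    {bs : List ↥leechLattice}
    (hbs : bs.map (fun b : ↥leechLattice => (b : GolayPt → ℤ)) = Xs.map V) :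
    TransL bs n (e.1 :: c) := by
  unfold refineTreeOK1 at hok
  rw [hroots] at hok
  have hok' := hok
  unfold orbTreeOK at hok'
  rw [band_eq, band_eq, Bool.and_eq_true, Bool.and_eq_true, allList_iff] at hok'
  obtain ⟨h1, h2, h3⟩ := hok'
  have h0 : clsOK Xs n (e.1 :: c) (look e.2.1 k) = true := h2 k (by simp)
  have hsp := clsOK_spec h0
  have hL0 : V (look e.2.1 k) ∈ leechLattice := hsp.1.1
  refine transL_of_codes hbs hcount hN0 h0 hL0 ?_
  have D := stab_orbitData hb hg hf ⟨V (look e.2.1 k), hL0⟩ (by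
    show sqNorm (V (look e.2.1 k)) ≤ 64
    rw [hsp.1.2.1]; exact hn)
  have hok2 : orbTreeOK (okMask S) gens (Nat.beq (look e.2.1 k)) e.2.1 e.2.2.1 [k] e.2.2.2.2 = true := by
    unfold orbTreeOK
    rw [band_eq, band_eq, Bool.and_eq_true, Bool.and_eq_true, allList_iff]
    refine ⟨h1, ?_, h3⟩
    intro j hj
    rw [List.mem_singleton.1 hj, Nat.beq_eq]
  refine orbit_lower_tree D (fun r hr => ?_) hok2
  rw [Nat.beq_eq] at hr
  exact ⟨V (look e.2.1 k), Orb.self _ ⟨V (look e.2.1 k), hL0⟩, by rw [← hr]; exact hsp.2⟩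

theorem trans_m8c0 : TransL [wB, v0] 32 [-16, -8] :=
  trans_of_refineTree (e := m8cData0) (k := 0) base_wB_v0 mclGens_ok mclGens_fix (by norm_num) rfl m8c_ok0
    m8c_count0 (by decide) rfl

theorem trans_m8c1 : TransL [wB, v0] 32 [-8, -8] :=
  trans_of_refineTree (e := m8cData1) (k := 0) base_wB_v0 mclGens_ok mclGens_fix (by norm_num) rfl m8c_ok1
    m8c_count1 (by decide) rfl

theorem trans_m8c2 : TransL [wB, v0] 32 [0, -8] :=
  trans_of_refineTree (e := m8cData2) (k := 0) base_wB_v0 mclGens_ok mclGens_fix (by norm_num) rfl m8c_ok2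
    m8c_count2 (by decide) rfl

theorem trans_m8c3 : TransL [wB, v0] 32 [8, -8] :=
  trans_of_refineTree (e := m8cData3) (k := 0) base_wB_v0 mclGens_ok mclGens_fix (by norm_num) rfl m8c_ok3
    m8c_count3 (by decide) rfl

theorem trans_m8c4 : TransL [wB, v0] 32 [16, -8] :=
  trans_of_refineTree (e := m8cData4) (k := 0) base_wB_v0 mclGens_ok mclGens_fix (by norm_num) rfl m8c_ok4
    m8c_count4 (by decide) rfl

theorem stepCo2 : StepData [v0] 32 [-8] 47104 wB
    [(-16, 275), (-8, 7128), (0, 22275), (8, 15400), (16, 2025)] where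
  hM := by norm_num
  hα := clsL_cons.2 ⟨v0_wB, clsL_nil.2 wB_norm⟩
  hcount0 := countL_of_codes rfl cls_v0_m8
  htrans0 := transL_one_32 v0 v0_norm (-8)
  hvals := by
    intro y hy
    have := m8c_census.1 _ ((clsL_iff_clsQ (Xs := [Xv0]) rfl 32 [-8] y).1 hy)
    have e : (wB : GolayPt → ℤ) = V XwB := rfl
    rw [e]
    simp only [List.mem_cons, List.not_mem_nil, or_false, List.map_cons, List.map_nil] at this ⊢
    tauto
  hn := by decide
  hcount := by
    intro e he
    simp only [List.mem_cons, List.not_mem_nil, or_false] at he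
    rcases he with rfl | rfl | rfl | rfl | rfl
    · exact countL_of_codes rfl m8c_count0
    · exact countL_of_codes rfl m8c_count1
    · exact countL_of_codes rfl m8c_count2
    · exact countL_of_codes rfl m8c_count3
    · exact countL_of_codes rfl m8c_count4
  htrans := by
    intro e he
    simp only [List.mem_cons, List.not_mem_nil, or_false] at he
    rcases he with rfl | rfl | rfl | rfl | rfl
    · exact trans_m8c0
    · exact trans_m8c1
    · exact trans_m8c2
    · exact trans_m8c3
    · exact trans_m8c4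

theorem co2_simple0 : IsSimpleGroup ↥(FixL [v0]) :=
  stepCo2.simple_of_primitive mcl_simple0 (by decide +kernel) ⟨(-16, 275), by simp, by norm_num⟩ 2048 23
    (by norm_num) (by norm_num) (by decide +kernel)

theorem co2_card0 : Nat.card ↥(FixL [v0]) = 42305421312000 := by
  rw [stepCo2.card, mcl_card0]

theorem co2_main (v : ↥leechLattice) (hv : sqNorm (v : GolayPt → ℤ) = 32) :
    IsCo2 ↥(stabilizer ↥Co0 v) := by
  have hc := conj_one v hv
  rw [← fixL_one]
  exact ⟨hc.simple co2_simple0, by rw [hc.card, co2_card0]⟩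

end Cfsg.Agent.Lib.Helper54
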