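/-
Helper library (helper54): the Conway group `Co1 = Co0 / {±1}` is simple.
-/
import Cfsg.Agent.Lib.Helper54.Co2Simple
import Cfsg.Agent.S0398

set_option autoImplicit false

namespace Cfsg.Agent.Lib.Helper54

open Cfsg MulAction

theorem count_one (d : ℤ) (hd : d ∈ csCo2) : CountL [v0] 32 [d] (mOf d) := by
  unfold CountL
  rw [← co0_count_pair v0 v0_norm d hd]
  congr 1
  ext x
  show ClsL [v0] 32 [d] x ↔ _
  rw [clsL_cons, clsL_nil]
  exact and_comm

theorem stepCo0 : StepData [] 32 [] 196560 v0
    [(-32, 1), (-16, 4600), (-8, 47104), (0, 93150), (8, 47104), (16, 4600)] where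
  hM := by norm_num
  hα := clsL_nil.2 v0_norm
  hcount0 := by
    unfold CountL
    rw [← ncard_min]
    congr 1
    ext x
    exact clsL_nil
  htrans0 := transL_nil_32
  hvals := by
    intro y hy
    have h1 := dot_mem_csCo2 v0 y v0_norm (clsL_nil.1 hy)
    simp only [csCo2, Finset.mem_insert, Finset.mem_singleton] at h1
    simp only [List.mem_cons, List.not_mem_nil, or_false, List.map_cons, List.map_nil]
    tauto
  hn := by decide
  hcount := by
    intro e he
    simp only [List.mem_cons, List.not_mem_nil, or_false] at he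
    rcases he with rfl | rfl | rfl | rfl | rfl | rfl
    · exact count_one (-32) (by decide)
    · exact count_one (-16) (by decide)
    · exact count_one (-8) (by decide)
    · exact count_one 0 (by decide)
    · exact count_one 8 (by decide)
    · exact count_one 16 (by decide)
  htrans := fun e _ => transL_one_32 v0 v0_norm e.1

theorem co0_normal (N : Subgroup ↥(FixL [])) [hN : N.Normal] : N = ⊤ ∨ Nat.card ↥N ≤ 2 := by
  have S := stepCo0
  have hs' := S.simple_stab co2_simple0
  have hmem := S.setup.B_ncard_mem N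
  have hdvd := S.B_ncard_dvd' N
  rw [S.setup_A] at hmem
  rcases S.setup.le_or_disjoint N hs' with hle | hdis
  · left
    apply S.setup.eq_top_of_le N hle
    rw [S.setup_O_ncard]
    have h1 := S.le_B_ncard N hle (0, 93150) (by simp)
    have hnum : ∀ m ∈ StepData.AL [((-32 : ℤ), 1), (-16, 4600), (-8, 47104), (0, 93150), (8, 47104),
        (16, 4600)], m ∣ 196560 → 93150 ≤ m → m = 196560 := by
      decide +kernel
    exact hnum _ hmem hdvd h1
  · right
    have hc := S.setup.B_ncard_eq_card N hdis
    rw [hc] at hmem hdvd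
    have hnum : ∀ m ∈ StepData.AL [((-32 : ℤ), 1), (-16, 4600), (-8, 47104), (0, 93150), (8, 47104),
        (16, 4600)], m ∣ 196560 → m ≤ 2 ∨ m = 196560 := by
      decide +kernel
    rcases hnum _ hmem hdvd with h | h
    · exact h
    · exfalso
      obtain ⟨a, ha, b, hb, h1, h2, h3, h4⟩ := S.setup.frobenius_pair N hdis 7 28080 (by norm_num)
      rw [h] at h1 h2 h4
      rw [S.setup_A] at ha hb h3
      have hnum2 : ∀ a ∈ StepData.AL [((-32 : ℤ), 1), (-16, 4600), (-8, 47104), (0, 93150), (8, 47104),
          (16, 4600)], ∀ b ∈ StepData.AL [((-32 : ℤ), 1), (-16, 4600), (-8, 47104), (0, 93150),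
          (8, 47104), (16, 4600)], Nat.gcd 7 196560 ∣ a → Nat.gcd 28080 196560 ∣ b →
          a + b - 1 ∈ StepData.AL [((-32 : ℤ), 1), (-16, 4600), (-8, 47104), (0, 93150), (8, 47104),
          (16, 4600)] → a + b ≤ 196560 + 1 → False := by
        decide +kernel
      exact hnum2 a ha b hb h1 h2 h3 h4

theorem co0_normal' (N : Subgroup ↥Co0) [hN : N.Normal] : N = ⊤ ∨ Nat.card ↥N ≤ 2 := by
  have hle : N ≤ FixL [] := by rw [fixL_nil]; exact le_top
  rcases co0_normal (N.subgroupOf (FixL [])) with h | h
  · left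
    rw [Subgroup.subgroupOf_eq_top, fixL_nil] at h
    exact top_le_iff.1 h
  · right
    rwa [Nat.card_congr (Subgroup.subgroupOfEquivOfLe hle).toEquiv] at h

theorem co1_main : IsCo1 (↥Co0 ⧸ Subgroup.center ↥Co0) := by
  have hZ : Nat.card (Subgroup.center ↥Co0) = 2 := Cfsg.Agent.S0398.result
  have hcard : Nat.card (↥Co0 ⧸ Subgroup.center ↥Co0) = 4157776806543360000 := by
    have h := Subgroup.card_eq_card_quotient_mul_card_subgroup (Subgroup.center ↥Co0)
    rw [hZ, card_Co0] at h
    omega
  refine ⟨?_, hcard⟩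
  have hnt : Nontrivial (↥Co0 ⧸ Subgroup.center ↥Co0) := by
    apply (Finite.one_lt_card_iff_nontrivial).1
    rw [hcard]; norm_num
  refine { exists_pair_ne := hnt.exists_pair_ne, eq_bot_or_eq_top_of_normal := ?_ }
  intro K hK
  have hsurj : Function.Surjective (QuotientGroup.mk' (Subgroup.center ↥Co0)) :=
    QuotientGroup.mk'_surjective _
  rcases co0_normal' (K.comap (QuotientGroup.mk' (Subgroup.center ↥Co0))) with h | h
  · right
    apply Subgroup.comap_injective hsurj
    rw [h, Subgroup.comap_top]
  · left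
    apply Subgroup.comap_injective hsurj
    have h1 : Subgroup.center ↥Co0 ≤ K.comap (QuotientGroup.mk' (Subgroup.center ↥Co0)) := by
      conv_lhs => rw [← QuotientGroup.ker_mk' (Subgroup.center ↥Co0)]
      exact MonoidHom.ker_le_comap _ _
    have h2 : Subgroup.center ↥Co0 = K.comap (QuotientGroup.mk' (Subgroup.center ↥Co0)) :=
      Subgroup.eq_of_le_of_card_ge h1 (by rw [hZ]; exact h)
    rw [← h2]
    exact (QuotientGroup.ker_mk' (Subgroup.center ↥Co0)).symm

end Cfsg.Agent.Lib.Helper54
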