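/-
Helper library (helper54): the Conway group `Co3` (stabiliser of a vector of type 3) is simple; it acts on the 552 minimal
vectors `x` with `u - x` minimal, with point stabiliser the McLaughlin group.
-/
import Cfsg.Agent.Lib.Helper54.HSSimple
import Cfsg.Agent.Lib.Helper54.Co3Main
import Cfsg.Agent.S1579

set_option autoImplicit false

namespace Cfsg.Agent.Lib.Helper54

open Cfsg MulAction Cfsg.Agent.Lib.Helper27

theorem dot_u3 (x : ↥leechLattice) : dotInt (u3 : GolayPt → ℤ) (x : GolayPt → ℤ)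
    = dotInt (v0 : GolayPt → ℤ) (x : GolayPt → ℤ) + dotInt (wB : GolayPt → ℤ) (x : GolayPt → ℤ) := by
  rw [u3_eq]
  exact dotInt_add_left' _ _ _

theorem cls_conv (d : ℤ) (x : ↥leechLattice) :
    ClsL [v0, u3] 32 [d, 24] x ↔ ClsL [wB, v0] 32 [24 - d, d] x := by
  simp only [clsL_cons, clsL_nil, dot_u3]
  constructor
  · rintro ⟨h1, h2, h3⟩
    exact ⟨by omega, h1, h3⟩
  · rintro ⟨h1, h2, h3⟩
    exact ⟨h2, by omega, h3⟩

theorem count_conv {d : ℤ} {N : ℕ} (h : CountL [wB, v0] 32 [24 - d, d] N) :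
    CountL [v0, u3] 32 [d, 24] N := by
  unfold CountL at *
  rw [← h]
  congr 1
  ext x
  exact cls_conv d x

theorem trans_conv {d : ℤ} (h : TransL [wB, v0] 32 [24 - d, d]) : TransL [v0, u3] 32 [d, 24] := by
  intro x y hx hy
  obtain ⟨g, hg, hgx⟩ := h x y ((cls_conv d x).1 hx) ((cls_conv d y).1 hy)
  refine ⟨g, ?_, hgx⟩
  intro b hb
  simp only [List.mem_cons, List.not_mem_nil, or_false] at hb
  rcases hb with rfl | rfl
  · exact hg v0 (by simp)
  · rw [u3_eq, co0_add, hg v0 (by simp), hg wB (by simp)]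

theorem TransL.swap {a b : ↥leechLattice} {n d e : ℤ} (h : TransL [a, b] n [d, e]) :
    TransL [b, a] n [e, d] := by
  intro x y hx hy
  obtain ⟨g, hg, hgx⟩ := h x y (clsL_swap.1 hx) (clsL_swap.1 hy)
  refine ⟨g, ?_, hgx⟩
  intro c hc
  apply hg
  simp only [List.mem_cons, List.not_mem_nil, or_false] at hc ⊢
  tauto

theorem trans_of_count_one {bs : List ↥leechLattice} {n : ℤ} {c : List ℤ} (h : CountL bs n c 1) :
    TransL bs n c := by
  intro x y hx hy
  obtain ⟨a, ha⟩ := Set.ncard_eq_one.1 h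
  have h1 : x = a := by
    have : x ∈ ({a} : Set ↥leechLattice) := ha ▸ hx
    exact this
  have h2 : y = a := by
    have : y ∈ ({a} : Set ↥leechLattice) := ha ▸ hy
    exact this
  exact ⟨1, fun b _ => one_smul _ b, by rw [one_smul, h1, h2]⟩

theorem trans552 : TransL [u3] 32 [24] := by
  intro x y hx hy
  obtain ⟨g, hg, hgx⟩ := Cfsg.Agent.S1579.result u3 x y u3_norm ((mem_552_iff u3 x u3_norm).2 hx)
    ((mem_552_iff u3 y u3_norm).2 hy)
  exact ⟨g, fun b hb => by rw [List.mem_singleton.1 hb]; exact hg, hgx⟩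

theorem v0_cls552 : ClsL [u3] 32 [24] v0 := by
  rw [clsL_cons, clsL_nil, dot_u3, ← sqNorm_eq_dotInt, v0_norm, wB_v0]
  exact ⟨by norm_num, rfl⟩

theorem conj_swap8 : ConjL [wB, v0] [v0, wB] := conj_pair8 wB v0 wB_norm v0_norm wB_v0

theorem stepCo3 : StepData [u3] 32 [24] 552 v0 [(-8, 1), (8, 275), (16, 275)] where
  hM := by norm_num
  hα := v0_cls552
  hcount0 := count552
  htrans0 := trans552
  hvals := by
    intro y hy
    rw [clsL_cons, clsL_nil, dot_u3] at hy
    have h1 := dot_mem_csCo2 v0 y v0_norm hy.2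
    have h2 := dot_mem_csCo2 wB y wB_norm hy.2
    simp only [csCo2, Finset.mem_insert, Finset.mem_singleton] at h1 h2
    simp only [List.mem_cons, List.not_mem_nil, or_false, List.map_cons, List.map_nil]
    omega
  hn := by decide
  hcount := by
    intro e he
    simp only [List.mem_cons, List.not_mem_nil, or_false] at he
    rcases he with rfl | rfl | rfl
    · exact count_conv (countL_of_codes rfl m8c_count5)
    · exact count_conv (count275.conj conj_swap8).swap
    · exact count_conv count275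
  htrans := by
    intro e he
    simp only [List.mem_cons, List.not_mem_nil, or_false] at he
    rcases he with rfl | rfl | rfl
    · exact trans_conv (trans_of_count_one (countL_of_codes rfl m8c_count5))
    · exact trans_conv (trans275.conj conj_swap8).swap
    · exact trans_conv trans275

theorem fix_v0_u3 : FixL [v0, u3] = FixL [wB, v0] := by
  ext g
  rw [mem_fixL, mem_fixL]
  constructor
  · intro H b hb
    simp only [List.mem_cons, List.not_mem_nil, or_false] at hb
    have h1 := H v0 (by simp)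
    have h2 := H u3 (by simp)
    rcases hb with rfl | rfl
    · rw [u3_eq, co0_add, h1] at h2
      exact add_left_cancel h2
    · exact h1
  · intro H b hb
    simp only [List.mem_cons, List.not_mem_nil, or_false] at hb
    rcases hb with rfl | rfl
    · exact H v0 (by simp)
    · rw [u3_eq, co0_add, H v0 (by simp), H wB (by simp)]

theorem mcl_simple1 : IsSimpleGroup ↥(FixL [v0, u3]) := by
  rw [fix_v0_u3]; exact mcl_simple0

theorem mcl_card1 : Nat.card ↥(FixL [v0, u3]) = 898128000 := by
  rw [fix_v0_u3]; exact mcl_card0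

theorem co3_card0 : Nat.card ↥(FixL [u3]) = 495766656000 := by
  rw [stepCo3.card, mcl_card1]

/-! ### the nice model -/

theorem nX_cls552 : ClsL [nU] 32 [24] nX := clsL_cons.2 ⟨nU_nX, clsL_nil.2 nX_norm⟩

theorem conj_co3_nice : ConjL [v0, u3] [nX, nU] :=
  (conj_u3 nU nU_norm).cons trans552 v0_cls552 nX_cls552

theorem stepCo3' : StepData [nU] 32 [24] 552 nX [(-8, 1), (8, 275), (16, 275)] :=
  stepCo3.conj conj_co3_nice

/-- `4 e_∞ + 4 e_k` -/
def F4 (k : ZMod 23) : ↥leechLattice := ⟨Pi.single none 4 + Pi.single (some k) 4,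
  four_four_mem none (some k) (by simp) 4 4 (Or.inl rfl) (Or.inl rfl)⟩

theorem F4_aux : ∀ k : ZMod 23, sqNorm (Pi.single none 4 + Pi.single (some k) 4 : GolayPt → ℤ) = 32 ∧
    dotInt (vAB 5 1) (Pi.single none 4 + Pi.single (some k) 4 : GolayPt → ℤ) = 24 := by
  decide +kernel

theorem F4_cls (k : ZMod 23) : ClsL [nU] 32 [24] (F4 k) :=
  clsL_cons.2 ⟨(F4_aux k).2, clsL_nil.2 (F4_aux k).1⟩

/-- twice an octad through `∞` -/
def zC : ↥leechLattice := ⟨vTwo (unmask 8391797), vTwo_mem (unmask_mem_GC (by decide +kernel))⟩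

theorem zC_cls : ClsL [nU] 32 [24] zC :=
  clsL_cons.2 ⟨by decide +kernel, clsL_nil.2 (by decide +kernel)⟩

theorem sub_cls552 {y : ↥leechLattice} (hy : ClsL [nU] 32 [24] y) : ClsL [nU] 32 [24] (nU - y) := by
  rw [clsL_cons, clsL_nil] at hy ⊢
  constructor
  · show dotInt (nU : GolayPt → ℤ) ((nU : GolayPt → ℤ) - (y : GolayPt → ℤ)) = 24
    rw [dotInt_sub_right', ← sqNorm_eq_dotInt, nU_norm, hy.1]; norm_num
  · show sqNorm ((nU : GolayPt → ℤ) - (y : GolayPt → ℤ)) = 32
    rw [sqNorm_sub, nU_norm, hy.1, hy.2]; norm_num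

theorem rel_co3 : ((E8 none : ↥leechLattice) : GolayPt → ℤ) + (E8 none : ↥leechLattice)
    + (E8 none : ↥leechLattice) + (zC : ↥leechLattice) + (zC : ↥leechLattice)
    = (F4 0 : ↥leechLattice) + (F4 2 : ↥leechLattice) + (F4 4 : ↥leechLattice) + (F4 5 : ↥leechLattice)
      + (F4 6 : ↥leechLattice) + (F4 10 : ↥leechLattice) + (F4 11 : ↥leechLattice) := by
  decide +kernel

theorem no_central_swap (n : ↥Co0)
    (hswap : ∀ y, ClsL [nU] 32 [24] y → n • y = nU - y) : False := by
  have key : ∀ y : ↥leechLattice, ClsL [nU] 32 [24] y →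
      dotInt ((n • E8 none : ↥leechLattice) : GolayPt → ℤ) (y : GolayPt → ℤ)
        + dotInt ((E8 none : ↥leechLattice) : GolayPt → ℤ) (y : GolayPt → ℤ) = 40 := by
    intro y hy
    have h1 := hswap _ (sub_cls552 hy)
    rw [sub_sub_cancel] at h1
    have h2 := co0_dotInt n (E8 none) (nU - y)
    rw [h1] at h2
    rw [h2]
    show dotInt ((E8 none : ↥leechLattice) : GolayPt → ℤ) ((nU : GolayPt → ℤ) - (y : GolayPt → ℤ)) + _ = 40
    rw [dotInt_sub_right']
    have h3 : dotInt ((E8 none : ↥leechLattice) : GolayPt → ℤ) (nU : GolayPt → ℤ) = 40 := by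
      decide +kernel
    rw [h3]; ring
  have e1 := congrArg (dotInt ((n • E8 none : ↥leechLattice) : GolayPt → ℤ)) rel_co3
  have e2 := congrArg (dotInt ((E8 none : ↥leechLattice) : GolayPt → ℤ)) rel_co3
  simp only [dotInt_add_right'] at e1 e2
  have k0 := key _ (F4_cls 0)
  have k2 := key _ (F4_cls 2)
  have k4 := key _ (F4_cls 4)
  have k5 := key _ (F4_cls 5)
  have k6 := key _ (F4_cls 6)
  have k10 := key _ (F4_cls 10)
  have k11 := key _ (F4_cls 11)
  have kz := key _ zC_cls
  omega

theorem co3_simple_nice : IsSimpleGroup ↥(FixL [nU]) := by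
  have S := stepCo3'
  have hs : IsSimpleGroup ↥(FixL [nX, nU]) := conj_co3_nice.simple mcl_simple1
  have hs' := S.simple_stab hs
  have hnt : Nontrivial ↥(FixL [nU]) := by
    have : Nontrivial ↥(stabilizer ↥(FixL [nU]) S.setup.α) := hs'.toNontrivial
    exact (Subtype.val_injective (p := fun g => g ∈ stabilizer ↥(FixL [nU]) S.setup.α)).nontrivial
  refine { exists_pair_ne := hnt.exists_pair_ne, eq_bot_or_eq_top_of_normal := ?_ }
  intro N hN
  have hmem := S.setup.B_ncard_mem N
  have hdvd := S.B_ncard_dvd' N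
  rw [S.setup_A] at hmem
  rcases S.setup.le_or_disjoint N hs' with hle | hdis
  · right
    apply S.setup.eq_top_of_le N hle
    rw [S.setup_O_ncard]
    have hα : nX ∈ S.setup.B N := S.setup.α_mem_B N
    have h1 : {z | ClsL (F4 1 :: [nU]) 32 (16 :: [24]) z} ⊆ S.setup.B N := by
      intro z hz
      obtain ⟨hz1, hz2⟩ := clsL_cons.1 hz
      refine S.mem_B_of_dot N hle (F4_cls 1) hα hz2 ?_ ?_
      · rw [hz1]; decide +kernel
      · intro h
        have := congrArg (fun v : ↥leechLattice => (v : GolayPt → ℤ) (some 0)) h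
        revert this
        decide +kernel
    have h2 : F4 1 ∈ S.setup.B N := by
      refine S.mem_B_of_dot N hle (F4_cls 2) hα (F4_cls 1) (by decide +kernel) ?_
      intro h
      have := congrArg (fun v : ↥leechLattice => (v : GolayPt → ℤ) (some 0)) h
      revert this
      decide +kernel
    have h3 : zC ∈ S.setup.B N := by
      refine S.mem_B_of_dot N hle (F4_cls 2) hα zC_cls (by decide +kernel) ?_
      intro h
      have := congrArg (fun v : ↥leechLattice => (v : GolayPt → ℤ) (some 0)) h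
      revert this
      decide +kernel
    have hcnt : {z | ClsL (F4 1 :: [nU]) 32 (16 :: [24]) z}.ncard = 275 :=
      (S.move (F4_cls 1)).hcount (16, 275) (by simp)
    have hfin : {z | ClsL (F4 1 :: [nU]) 32 (16 :: [24]) z}.Finite :=
      Set.finite_of_ncard_ne_zero (by rw [hcnt]; norm_num)
    have h4 : zC ∉ {z | ClsL (F4 1 :: [nU]) 32 (16 :: [24]) z} := by
      intro h
      have := (clsL_cons.1 h).1
      revert this
      decide +kernel
    have h5 : F4 1 ∉ insert zC {z | ClsL (F4 1 :: [nU]) 32 (16 :: [24]) z} := by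
      intro h
      rcases h with h | h
      · have := congrArg (fun v : ↥leechLattice => (v : GolayPt → ℤ) (some 0)) h
        revert this
        decide +kernel
      · have := (clsL_cons.1 h).1
        revert this
        decide +kernel
    have h6 : (insert (F4 1) (insert zC {z | ClsL (F4 1 :: [nU]) 32 (16 :: [24]) z})).ncard = 277 := by
      rw [Set.ncard_insert_of_notMem h5 (hfin.insert _), Set.ncard_insert_of_notMem h4 hfin, hcnt]
    have h7 : 277 ≤ (S.setup.B N).ncard := by
      rw [← h6]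
      apply Set.ncard_le_ncard _ (S.setup.hfin.subset (S.setup.B_subset N))
      intro z hz
      rcases hz with rfl | rfl | hz
      · exact h2
      · exact h3
      · exact h1 hz
    have hnum : ∀ m ∈ StepData.AL [((-8 : ℤ), 1), (8, 275), (16, 275)], m ∣ 552 → 277 ≤ m → m = 552 := by
      decide +kernel
    exact hnum _ hmem hdvd h7
  · left
    have hc := S.setup.B_ncard_eq_card N hdis
    rw [hc] at hmem hdvd
    have hnum : ∀ m ∈ StepData.AL [((-8 : ℤ), 1), (8, 275), (16, 275)], m ∣ 552 →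
        m = 1 ∨ m = 2 ∨ m = 276 ∨ m = 552 := by
      decide +kernel
    rcases hnum _ hmem hdvd with h | h | h | h
    · exact (Subgroup.card_eq_one).1 h
    · exfalso
      obtain ⟨n, hn1, huniq⟩ := (Nat.card_eq_two_iff' (1 : ↥N)).1 h
      have hcen : ∀ g : ↥(FixL [nU]), g * n.1 * g⁻¹ = n.1 := by
        intro g
        have h1 : (⟨g * n.1 * g⁻¹, hN.conj_mem n.1 n.2 g⟩ : ↥N) = n := by
          apply huniq
          intro h2
          apply hn1
          have h3 : g * n.1 * g⁻¹ = 1 := congrArg Subtype.val h2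
          apply Subtype.ext
          show n.1 = 1
          have h4 : n.1 = g⁻¹ * (g * n.1 * g⁻¹) * g := by group
          rw [h4, h3]; group
        exact congrArg Subtype.val h1
      have hcomm : ∀ (g : ↥(FixL [nU])) (x : ↥leechLattice), n.1 • g • x = g • n.1 • x := by
        intro g x
        have h1 : n.1 * g = g * n.1 := by
          have := hcen g
          rw [mul_inv_eq_iff_eq_mul] at this
          exact this.symm
        rw [← mul_smul, ← mul_smul, h1]
      have hw : ClsL [nU] 32 [24] (n.1 • nX) := clsL_fix n.1.2 S.hα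
      have hsing : ∀ e ∈ [((-8 : ℤ), 1), (8, 275), (16, 275)],
          dotInt (nX : GolayPt → ℤ) ((n.1 • nX : ↥leechLattice) : GolayPt → ℤ) = e.1 → e.2 ≤ 1 := by
        intro e he hd
        rw [← S.hcount e he]
        have hsub : {x | ClsL (nX :: [nU]) 32 (e.1 :: [24]) x} ⊆ {n.1 • nX} := by
          intro z hz
          obtain ⟨g, hg, hgz⟩ := S.htrans e he (n.1 • nX) z (clsL_cons.2 ⟨hd, hw⟩) hz
          have h1 := hcomm ⟨g, fun b hb => hg b (List.mem_cons_of_mem _ hb)⟩ nX
          have h2 : (⟨g, fun b hb => hg b (List.mem_cons_of_mem _ hb)⟩ : ↥(FixL [nU])) • nX = nX :=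
            hg nX List.mem_cons_self
          rw [h2] at h1
          have h3 : (⟨g, fun b hb => hg b (List.mem_cons_of_mem _ hb)⟩ : ↥(FixL [nU])) • (n.1 • nX)
              = z := hgz
          rw [← h1] at h3
          exact h3.symm
        calc _ ≤ ({n.1 • nX} : Set ↥leechLattice).ncard := Set.ncard_le_ncard hsub (Set.finite_singleton _)
          _ = 1 := Set.ncard_singleton _
      have hd : dotInt (nX : GolayPt → ℤ) ((n.1 • nX : ↥leechLattice) : GolayPt → ℤ) = -8 := by
        have hv := S.hvals _ hw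
        simp only [List.mem_cons, List.not_mem_nil, or_false, List.map_cons, List.map_nil] at hv
        rcases hv with hv | hv | hv | hv
        · exfalso
          have h1 := eq_of_dot_eq_norm S.hα.1 hw.1 hv
          have h2 : n.1 ∈ N ⊓ stabilizer ↥(FixL [nU]) S.setup.α := Subgroup.mem_inf.2 ⟨n.2, h1⟩
          rw [hdis, Subgroup.mem_bot] at h2
          exact hn1 (Subtype.ext h2)
        · exact hv
        · have := hsing (8, 275) (by simp) hv
          norm_num at this
        · have := hsing (16, 275) (by simp) hv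
          norm_num at this
      have hwe : n.1 • nX = nU - nX := by
        have h1 : sqNorm ((nU : GolayPt → ℤ) - (nX : GolayPt → ℤ)
            - ((n.1 • nX : ↥leechLattice) : GolayPt → ℤ)) = 0 := by
          rw [sqNorm_sub, sqNorm_sub, dotInt_sub_left', nU_norm, nX_norm, nU_nX, hd, hw.1]
          have := (clsL_cons.1 hw).1
          rw [this]; norm_num
        have h2 := sqNorm_eq_zero' h1
        apply Subtype.ext
        exact (sub_eq_zero.1 h2).symm
      apply no_central_swap n.1.1
      intro y hy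
      obtain ⟨g, hg, hgy⟩ := S.htrans0 nX y S.hα hy
      have h1 := hcomm ⟨g, hg⟩ nX
      have h2 : (⟨g, hg⟩ : ↥(FixL [nU])) • nX = y := hgy
      rw [h2, hwe] at h1
      have h3 : (⟨g, hg⟩ : ↥(FixL [nU])) • (nU - nX) = g • (nU - nX) := rfl
      rw [h3, co0_sub, hgy, hg nU (by simp)] at h1
      exact h1
    · exfalso
      obtain ⟨a, ha, b, hb, h1, h2, h3, h4⟩ := S.setup.frobenius_pair N hdis 4 69 (by norm_num)
      rw [h] at h1 h2 h4
      rw [S.setup_A] at ha hb h3
      have hnum2 : ∀ a ∈ StepData.AL [((-8 : ℤ), 1), (8, 275), (16, 275)],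
          ∀ b ∈ StepData.AL [((-8 : ℤ), 1), (8, 275), (16, 275)], Nat.gcd 4 276 ∣ a → Nat.gcd 69 276 ∣ b →
          a + b - 1 ∈ StepData.AL [((-8 : ℤ), 1), (8, 275), (16, 275)] → a + b ≤ 276 + 1 → False := by
        decide +kernel
      exact hnum2 a ha b hb h1 h2 h3 h4
    · exfalso
      obtain ⟨a, ha, b, hb, h1, h2, h3, h4⟩ := S.setup.frobenius_pair N hdis 8 69 (by norm_num)
      rw [h] at h1 h2 h4
      rw [S.setup_A] at ha hb h3
      have hnum2 : ∀ a ∈ StepData.AL [((-8 : ℤ), 1), (8, 275), (16, 275)],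
          ∀ b ∈ StepData.AL [((-8 : ℤ), 1), (8, 275), (16, 275)], Nat.gcd 8 552 ∣ a → Nat.gcd 69 552 ∣ b →
          a + b - 1 ∈ StepData.AL [((-8 : ℤ), 1), (8, 275), (16, 275)] → a + b ≤ 552 + 1 → False := by
        decide +kernel
      exact hnum2 a ha b hb h1 h2 h3 h4

theorem co3_main (v : ↥leechLattice) (hv : sqNorm (v : GolayPt → ℤ) = 48) :
    IsCo3 ↥(stabilizer ↥Co0 v) := by
  have hc := conj_u3 v hv
  have hc' : ConjL [nU] [v] := (conj_u3 nU nU_norm).symm.trans hc
  rw [← fixL_one]
  exact ⟨hc'.simple co3_simple_nice, by rw [hc.card, co3_card0]⟩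

end Cfsg.Agent.Lib.Helper54
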