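/-
Helper library (helper54): the stabilizer of the standard cross is a maximal subgroup of `Co0`.
-/
import Cfsg.Agent.Lib.Helper54.NOrbA
import Cfsg.Agent.Lib.Helper54.NOrbB
import Cfsg.Agent.Lib.Helper54.NOrbC
import Cfsg.Agent.Lib.Helper54.NOrbP
import Cfsg.Agent.Lib.Helper54.NOrbQ
import Cfsg.Agent.Lib.Helper54.NOrbR
import Cfsg.Agent.Lib.Helper54.NOrbS
import Cfsg.Agent.Lib.Helper54.NOrbT
import Cfsg.Agent.Lib.Helper54.Co0Order
import Cfsg.Agent.Lib.Helper54.SimpleOrb
import Cfsg.Agent.Lib.Helper54.Co0Fix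

set_option autoImplicit false

namespace Cfsg.Agent.Lib.Helper54

open Cfsg Cfsg.Agent.Lib.Helper27 MulAction

/-! ### general counting lemmas -/

theorem one_step_card {G X : Type*} [Group G] [MulAction G X] (K : Subgroup G) (a : X) :
    Nat.card ↥K = {x : X | ∃ k ∈ K, k • a = x}.ncard * Nat.card ↥(K ⊓ stabilizer G a) := by
  have h := card_smul_mem' (G := ↥K) a {x : X | ∃ k ∈ K, k • a = x} (by
    rintro y ⟨k, hk, rfl⟩
    exact ⟨⟨k, hk⟩, rfl⟩)
  have e1 : Nat.card {g : ↥K // g • a ∈ {x : X | ∃ k ∈ K, k • a = x}} = Nat.card ↥K := by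
    apply Nat.card_congr
    apply Equiv.subtypeUnivEquiv
    intro g
    exact ⟨g.1, g.2, rfl⟩
  have e2 : Nat.card ↥(stabilizer ↥K a) = Nat.card ↥(K ⊓ stabilizer G a) := by
    apply Nat.card_congr
    exact
      { toFun := fun g => ⟨g.1.1, Subgroup.mem_inf.2 ⟨g.1.2, g.2⟩⟩
        invFun := fun g => ⟨⟨g.1, (Subgroup.mem_inf.1 g.2).1⟩, (Subgroup.mem_inf.1 g.2).2⟩
        left_inv := fun g => rfl
        right_inv := fun g => rfl }
  rw [← e1, h, e2]

theorem two_step_card (K : Subgroup ↥Co0) (a b : ↥leechLattice) (hF : FixL [a, b] ≤ K) :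
    Nat.card ↥K = {x : ↥leechLattice | ∃ k ∈ K, k • a = x}.ncard *
      ({y : ↥leechLattice | ∃ k ∈ K ⊓ stabilizer ↥Co0 a, k • b = y}.ncard * Nat.card ↥(FixL [a, b])) := by
  rw [one_step_card K a, one_step_card (K ⊓ stabilizer ↥Co0 a) b]
  have : K ⊓ stabilizer ↥Co0 a ⊓ stabilizer ↥Co0 b = FixL [a, b] := by
    rw [fixL_two, inf_assoc]
    rw [fixL_two] at hF
    exact inf_eq_right.2 hF
  rw [this]

/-- an orbit of a group containing `N` is a union of classes on which `N` is transitive -/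
theorem orbit_ncard_mem {ι : Type*} (N K : Subgroup ↥Co0) (hNK : N ≤ K) (a : ↥leechLattice)
    (S : Set ↥leechLattice) (hfin : S.Finite) (hS : ∀ k ∈ K, k • a ∈ S)
    (κ : ↥leechLattice → ι) (L : List (ι × ℕ))
    (hcov : ∀ z ∈ S, κ z ∈ L.map Prod.fst)
    (htr : ∀ z ∈ S, ∀ z' ∈ S, κ z = κ z' → ∃ g ∈ N, g • z = z')
    (hcnt : ∀ e ∈ L, {z | z ∈ S ∧ κ z = e.1}.ncard = e.2) :
    {x : ↥leechLattice | ∃ k ∈ K, k • a = x}.ncard ∈ subSums (L.map Prod.snd) := by
  have hTS : {x : ↥leechLattice | ∃ k ∈ K, k • a = x} ⊆ S := by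
    rintro _ ⟨k, hk, rfl⟩
    exact hS k hk
  apply ncard_mem_subSums κ L _ (hfin.subset hTS) (fun z hz => hcov z (hTS hz))
  intro e he
  by_cases h : ∀ z ∈ {x : ↥leechLattice | ∃ k ∈ K, k • a = x}, κ z ≠ e.1
  · exact Or.inl h
  · right
    push Not at h
    obtain ⟨z, ⟨k, hk, rfl⟩, hz⟩ := h
    rw [← hcnt e he]
    congr 1
    ext x
    constructor
    · rintro ⟨h1, h2⟩
      exact ⟨hTS h1, h2⟩
    · rintro ⟨h1, h2⟩
      refine ⟨?_, h2⟩
      obtain ⟨g, hg, hgx⟩ := htr (k • a) (hS k hk) x h1 (hz.trans h2.symm)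
      exact ⟨g * k, K.mul_mem (hNK hg) hk, by rw [mul_smul, hgx]⟩

/-- lower bound for an orbit of an arbitrary subgroup -/
theorem sub_orbit_lower (H : Subgroup ↥Co0) {ok : ℕ → Bool} {gens : List (ℕ × List ℕ)}
    (hG : gensOK gens = true)
    (hgen : ∀ g ∈ gens, ∀ h : certOK g.2 = true, genCo0 g.2 h ∈ H)
    (hok : ∀ m, ok m = true → ∃ h : isCode m = true, sgnCo0 m h ∈ H)
    {X0 : ℕ} (hX0 : codeOK X0 = true)
    (hL : V X0 ∈ leechLattice) (hn : dotC X0 X0 ≤ 64) (gs : List (RepGroup (List (ℕ × ℕ))))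
    (h : groupsOK ok (fun w => runWord ok gens w X0) gs 0 = true) :
    ∃ F : Finset (GolayPt → ℤ), F.card = totalCount gs ∧ ∀ x ∈ F, Orb H ⟨V X0, hL⟩ x := by
  have D := orbitData_of_subgroup H ⟨V X0, hL⟩ (by show sqNorm (V X0) ≤ 64; rw [sqNorm_V]; exact hn)
    hG hgen hok
  obtain ⟨F, hF, hFx⟩ := orbit_lower_bound D.toSignData (fun w => runWord ok gens w X0)
    (fun w => by
      have := runWord_sound D w (V X0) (Orb.self _ ⟨V X0, hL⟩)
      rwa [enc_V hX0] at this) gs 0 h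
  exact ⟨F, hF, fun x hx => (hFx x hx).1⟩

/-! ### the invariant -/

/-- sum of the absolute values of the coordinates -/
def absSum (x : GolayPt → ℤ) : ℤ := ∑ p, |x p|

theorem absSum_signedPerm (σ : Equiv.Perm GolayPt) (c : Finset GolayPt) (x : GolayPt → ℤ) :
    absSum (signedPerm σ c x) = absSum x := by
  unfold absSum signedPerm
  rw [← Equiv.sum_comp σ]
  apply Finset.sum_congr rfl
  intro p _
  simp only [Equiv.symm_apply_apply]
  split_ifs
  · rw [abs_neg]
  · rfl

theorem absSum_smul (g : ↥Co0) (hg : PresCross g) (v : ↥leechLattice) :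
    absSum ((g • v : ↥leechLattice) : GolayPt → ℤ) = absSum (v : GolayPt → ℤ) := by
  obtain ⟨σ, -, c, -, h⟩ := cross_monomial g hg
  rw [h, absSum_signedPerm]

/-! ### membership of the generators -/

/-- code of `8 e_0` -/
def XE0 : ℕ := 8149138673242392879360814103015322131770787000811304976296551122505721698284094394850148368

/-- code of `-8 e_0` -/
def XE0m : ℕ := 8149138673242392879360814103015322131770787000811304976296551122505721698284094394850148352

theorem V_XE : V XE = Pi.single none 8 := by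
  funext p; revert p; decide +kernel

theorem V_XE0 : V XE0 = Pi.single (some 0) 8 := by
  funext p; revert p; decide +kernel

theorem V_XE0m : V XE0m = Pi.single (some 0) (-8) := by
  funext p; revert p; decide +kernel

theorem XE0_code : codeOK XE0 = true := by decide +kernel

theorem XE0m_code : codeOK XE0m = true := by decide +kernel

/-- the generators map `8 e_∞` into the standard cross -/
def crossOK (gens : List (ℕ × List ℕ)) : Bool :=
  allList (fun g => Nat.beq (appFast g.1 g.2 XE) XE ||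
    (Nat.beq (appFast g.1 g.2 XE) XE0 || Nat.beq (appFast g.1 g.2 XE) XE0m)) gens

theorem presCross_of_crossOK {gens : List (ℕ × List ℕ)} (hG : gensOK gens = true)
    (hc : crossOK gens = true) :
    ∀ g ∈ gens, ∀ h : certOK g.2 = true, PresCross (genCo0 g.2 h) := by
  intro g hg h
  rw [presCross_iff _ none]
  have hE : E8 none = ⟨V XE, V_mem XE_leech⟩ := Subtype.ext V_XE.symm
  rw [hE]
  unfold gensOK at hG
  rw [allList_iff] at hG
  have h4 := hG g hg
  rw [band_eq, Bool.and_eq_true] at h4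
  unfold crossOK at hc
  rw [allList_iff] at hc
  have h5 := hc g hg
  rw [Bool.or_eq_true, Bool.or_eq_true] at h5
  have hn : dotC XE XE ≤ 64 := by rw [XE_norm]
  rcases h5 with h5 | h5 | h5
  · rw [genCo0_smul_of_appFast h h4.2 XE_code XE_code hn _ (Nat.eq_of_beq_eq_true h5), V_XE]
    exact ⟨none, 8, Or.inl rfl, rfl⟩
  · rw [genCo0_smul_of_appFast h h4.2 XE_code XE0_code hn _ (Nat.eq_of_beq_eq_true h5), V_XE0]
    exact ⟨some 0, 8, Or.inl rfl, rfl⟩
  · rw [genCo0_smul_of_appFast h h4.2 XE_code XE0m_code hn _ (Nat.eq_of_beq_eq_true h5), V_XE0m]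
    exact ⟨some 0, -8, Or.inr rfl, rfl⟩

set_option maxRecDepth 100000 in
theorem nGens_cross : crossOK nGens = true := by decide +kernel

set_option maxRecDepth 100000 in
theorem nvGens_cross : crossOK nvGens = true := by decide +kernel

theorem sgnCo0_mem_StabC {S : ℕ} {Xs : List ℕ} (hb : baseOK S Xs = true) {m : ℕ}
    (hm : okMask S m = true) (h : isCode m = true) : sgnCo0 m h ∈ StabC Xs := by
  intro X hX hL
  apply Subtype.ext
  rw [sgnCo0_smul]
  exact sgnV_V_of_okMask hb hX hm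

theorem sgnCo0_presCross (m : ℕ) (h : isCode m = true) : PresCross (sgnCo0 m h) :=
  monCo0_presCross _ _ _ _

/-! ### the base points -/

def nA : ↥leechLattice := LV XnA XnA_leech
def nB : ↥leechLattice := LV XnB XnB_leech
def nC : ↥leechLattice := LV XnC XnC_leech
def nP : ↥leechLattice := LV XnP XnP_leech
def nQ : ↥leechLattice := LV XnQ XnQ_leech
def nR : ↥leechLattice := LV XnR XnR_leech
def nS : ↥leechLattice := LV XnS XnS_leech
def nT' : ↥leechLattice := LV XnT XnT_leech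

theorem absSum_nA : absSum (V XnA) = 8 := by decide +kernel
theorem absSum_nB : absSum (V XnB) = 16 := by decide +kernel
theorem absSum_nC : absSum (V XnC) = 26 := by decide +kernel
theorem absSum_nP : absSum (V XnP) = 8 := by decide +kernel
theorem absSum_nQ : absSum (V XnQ) = 8 := by decide +kernel
theorem absSum_nR : absSum (V XnR) = 16 := by decide +kernel
theorem absSum_nS : absSum (V XnS) = 16 := by decide +kernel
theorem absSum_nT : absSum (V XnT) = 26 := by decide +kernel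

theorem dotP_nP : |dotC XnP XnP| = 32 := by decide +kernel
theorem dotP_nQ : |dotC XnP XnQ| = 0 := by decide +kernel
theorem dotP_nR : |dotC XnP XnR| = 16 := by decide +kernel
theorem dotP_nS : |dotC XnP XnS| = 0 := by decide +kernel
theorem dotP_nT : |dotC XnP XnT| = 8 := by decide +kernel

theorem E8_eq : E8 none = v0 + nP := by
  apply Subtype.ext
  show (Pi.single none 8 : GolayPt → ℤ) = V Xv0 + V XnP
  funext p; revert p; decide +kernel

theorem cross_sub_check : ∀ j : GolayPt,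
    (sqNorm ((Pi.single j 8 : GolayPt → ℤ) - V Xv0) = 32 →
      ((Pi.single j 8 : GolayPt → ℤ) - V Xv0 = V XnP ∨ (Pi.single j 8 : GolayPt → ℤ) - V Xv0 = - V XnP)) ∧
    (sqNorm ((Pi.single j (-8) : GolayPt → ℤ) - V Xv0) = 32 →
      ((Pi.single j (-8) : GolayPt → ℤ) - V Xv0 = V XnP ∨
        (Pi.single j (-8) : GolayPt → ℤ) - V Xv0 = - V XnP)) := by
  decide +kernel

theorem smul_nP (g : ↥Co0) (hg : PresCross g) (hv : g • v0 = v0) : g • nP = nP ∨ g • nP = -nP := by
  obtain ⟨j, s, hs, hj⟩ := (presCross_iff g none).1 hg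
  rw [E8_eq, co0_add, hv] at hj
  have h1 : ((g • nP : ↥leechLattice) : GolayPt → ℤ) = Pi.single j s - V Xv0 := by
    rw [← hj]
    show _ = (V Xv0 + ((g • nP : ↥leechLattice) : GolayPt → ℤ)) - V Xv0
    rw [add_sub_cancel_left]
  have h2 : sqNorm ((g • nP : ↥leechLattice) : GolayPt → ℤ) = 32 := by
    rw [co0_sqNorm]
    show sqNorm (V XnP) = 32
    rw [sqNorm_V, XnP_norm]
  rw [h1] at h2
  rcases hs with rfl | rfl
  · rcases (cross_sub_check j).1 h2 with h3 | h3
    · exact Or.inl (Subtype.ext (h1.trans h3))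
    · exact Or.inr (Subtype.ext (h1.trans h3))
  · rcases (cross_sub_check j).2 h2 with h3 | h3
    · exact Or.inl (Subtype.ext (h1.trans h3))
    · exact Or.inr (Subtype.ext (h1.trans h3))

theorem abs_dot_nP (g : ↥Co0) (hg : PresCross g) (hv : g • v0 = v0) (r : ↥leechLattice) :
    |dotInt (V XnP) ((g • r : ↥leechLattice) : GolayPt → ℤ)| = |dotInt (V XnP) (r : GolayPt → ℤ)| := by
  have h1 := co0_dotInt g nP r
  rcases smul_nP g hg hv with h | h
  · rw [h] at h1
    exact congrArg _ h1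
  · rw [h] at h1
    have h2 : dotInt ((-nP : ↥leechLattice) : GolayPt → ℤ) ((g • r : ↥leechLattice) : GolayPt → ℤ)
        = - dotInt (V XnP) ((g • r : ↥leechLattice) : GolayPt → ℤ) := by
      show dotInt (-(V XnP)) _ = _
      unfold dotInt
      simp
    rw [h2] at h1
    have h3 : dotInt (V XnP) ((g • r : ↥leechLattice) : GolayPt → ℤ) = - dotInt (V XnP) (r : GolayPt → ℤ) := by
      have : dotInt ((nP : ↥leechLattice) : GolayPt → ℤ) (r : GolayPt → ℤ) = dotInt (V XnP) (r : GolayPt → ℤ) := rfl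
      rw [this] at h1
      omega
    rw [h3, abs_neg]

/-! ### the two censuses -/

def csA : Finset ℤ := {8, 16, 26}
def repA (c : ℤ) : ↥leechLattice := if c = 8 then nA else if c = 16 then nB else nC
def mA (c : ℤ) : ℕ := if c = 8 then 1104 else if c = 16 then 97152 else 98304

theorem forall_csA {p : ℤ → Prop} (h1 : p 8) (h2 : p 16) (h3 : p 26) : ∀ c ∈ csA, p c := by
  intro c hc
  simp only [csA, Finset.mem_insert, Finset.mem_singleton] at hc
  rcases hc with rfl | rfl | rfl <;> assumption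

theorem repA_spec : ∀ c ∈ csA, sqNorm ((repA c : ↥leechLattice) : GolayPt → ℤ) = 32 ∧
    absSum ((repA c : ↥leechLattice) : GolayPt → ℤ) = c :=
  forall_csA ⟨by show sqNorm (V XnA) = 32; rw [sqNorm_V, XnA_norm], absSum_nA⟩
    ⟨by show sqNorm (V XnB) = 32; rw [sqNorm_V, XnB_norm], absSum_nB⟩
    ⟨by show sqNorm (V XnC) = 32; rw [sqNorm_V, XnC_norm], absSum_nC⟩

def csB : Finset (ℤ × ℤ) := {(8, 32), (8, 0), (16, 16), (16, 0), (26, 8)}
def repB (c : ℤ × ℤ) : ↥leechLattice :=
  if c = (8, 32) then nP else if c = (8, 0) then nQ else if c = (16, 16) then nR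
  else if c = (16, 0) then nS else nT'
def mB (c : ℤ × ℤ) : ℕ :=
  if c = (8, 32) then 2 else if c = (8, 0) then 924 else if c = (16, 16) then 4928
  else if c = (16, 0) then 42240 else 45056

/-- the invariant of the second census -/
def kB (x : GolayPt → ℤ) : ℤ × ℤ := (absSum x, |dotInt (V XnP) x|)

theorem forall_csB {p : ℤ × ℤ → Prop} (h1 : p (8, 32)) (h2 : p (8, 0)) (h3 : p (16, 16)) (h4 : p (16, 0))
    (h5 : p (26, 8)) : ∀ c ∈ csB, p c := by
  intro c hc
  simp only [csB, Finset.mem_insert, Finset.mem_singleton] at hc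
  rcases hc with rfl | rfl | rfl | rfl | rfl <;> assumption

theorem repB_spec : ∀ c ∈ csB, (sqNorm ((repB c : ↥leechLattice) : GolayPt → ℤ) = 32 ∧
    dotInt (V Xv0) ((repB c : ↥leechLattice) : GolayPt → ℤ) = 0) ∧
    kB ((repB c : ↥leechLattice) : GolayPt → ℤ) = c :=
  forall_csB
    ⟨⟨by show sqNorm (V XnP) = 32; rw [sqNorm_V, XnP_norm],
      by show dotInt (V Xv0) (V XnP) = 0; rw [dotInt_V, XnP_dot]⟩,
      by show (absSum (V XnP), |dotInt (V XnP) (V XnP)|) = _; rw [dotInt_V, absSum_nP, dotP_nP]⟩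
    ⟨⟨by show sqNorm (V XnQ) = 32; rw [sqNorm_V, XnQ_norm],
      by show dotInt (V Xv0) (V XnQ) = 0; rw [dotInt_V, XnQ_dot]⟩,
      by show (absSum (V XnQ), |dotInt (V XnP) (V XnQ)|) = _; rw [dotInt_V, absSum_nQ, dotP_nQ]⟩
    ⟨⟨by show sqNorm (V XnR) = 32; rw [sqNorm_V, XnR_norm],
      by show dotInt (V Xv0) (V XnR) = 0; rw [dotInt_V, XnR_dot]⟩,
      by show (absSum (V XnR), |dotInt (V XnP) (V XnR)|) = _; rw [dotInt_V, absSum_nR, dotP_nR]⟩
    ⟨⟨by show sqNorm (V XnS) = 32; rw [sqNorm_V, XnS_norm],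
      by show dotInt (V Xv0) (V XnS) = 0; rw [dotInt_V, XnS_dot]⟩,
      by show (absSum (V XnS), |dotInt (V XnP) (V XnS)|) = _; rw [dotInt_V, absSum_nS, dotP_nS]⟩
    ⟨⟨by show sqNorm (V XnT) = 32; rw [sqNorm_V, XnT_norm],
      by show dotInt (V Xv0) (V XnT) = 0; rw [dotInt_V, XnT_dot]⟩,
      by show (absSum (V XnT), |dotInt (V XnP) (V XnT)|) = _; rw [dotInt_V, absSum_nT, dotP_nT]⟩

section

variable {H : Subgroup ↥Co0} (hH : ∀ g, g ∈ H ↔ PresCross g)

include hH

theorem nlbA {X0 : ℕ} (hX0 : codeOK X0 = true) (hL : leechOK X0 = true) (hn : dotC X0 X0 = 32)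
    (gs : List (RepGroup (List (ℕ × ℕ))))
    (h : groupsOK isCode (fun w => runWord isCode nGens w X0) gs 0 = true) :
    ∃ F : Finset (GolayPt → ℤ), F.card = totalCount gs ∧ ∀ x ∈ F, Orb H (LV X0 hL) x :=
  sub_orbit_lower H nGens_ok
    (fun g hg h => (hH _).2 (presCross_of_crossOK nGens_ok nGens_cross g hg h))
    (fun m hm => ⟨hm, (hH _).2 (sgnCo0_presCross m hm)⟩) hX0 (V_mem hL) (by rw [hn]; norm_num) gs h

theorem nlbB {X0 : ℕ} (hX0 : codeOK X0 = true) (hL : leechOK X0 = true) (hn : dotC X0 X0 = 32)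
    (gs : List (RepGroup (List (ℕ × ℕ))))
    (h : groupsOK (okMask 8388609) (fun w => runWord (okMask 8388609) nvGens w X0) gs 0 = true) :
    ∃ F : Finset (GolayPt → ℤ), F.card = totalCount gs ∧ ∀ x ∈ F, Orb (H ⊓ H0) (LV X0 hL) x :=
  sub_orbit_lower (H ⊓ H0) nvGens_ok
    (fun g hg h => Subgroup.mem_inf.2 ⟨(hH _).2 (presCross_of_crossOK nvGens_ok nvGens_cross g hg h),
      genCo0_mem_StabC co2_base nvGens_ok nvGens_fix g hg h⟩)
    (fun m hm => by
      have hm' := hm
      unfold okMask at hm'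
      rw [band_eq, Bool.and_eq_true] at hm'
      exact ⟨hm'.1, Subgroup.mem_inf.2 ⟨(hH _).2 (sgnCo0_presCross m hm'.1),
        sgnCo0_mem_StabC co2_base hm hm'.1⟩⟩) hX0 (V_mem hL) (by rw [hn]; norm_num) gs h

theorem censusA :
    (∀ x ∈ {x : GolayPt → ℤ | x ∈ leechLattice ∧ sqNorm x = 32},
      absSum x ∈ csA ∧ Orb H (repA (absSum x)) x) ∧
    ∀ c ∈ csA, {x | x ∈ {x : GolayPt → ℤ | x ∈ leechLattice ∧ sqNorm x = 32} ∧
      absSum x = c}.ncard = mA c := by
  apply census {x : GolayPt → ℤ | x ∈ leechLattice ∧ sqNorm x = 32}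
    (Set.finite_of_ncard_ne_zero (by rw [Cfsg.Agent.S0394.result]; norm_num))
    absSum csA mA (fun c x => Orb H (repA c) x)
  · exact forall_csA
      (by have := nlbA hH XnA_code XnA_leech XnA_norm nGroupsA nGroupsA_ok
          rwa [nGroupsA_count] at this)
      (by have := nlbA hH XnB_code XnB_leech XnB_norm nGroupsB nGroupsB_ok
          rwa [nGroupsB_count] at this)
      (by have := nlbA hH XnC_code XnC_leech XnC_norm nGroupsC nGroupsC_ok
          rwa [nGroupsC_count] at this)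
  · intro c hc x hx
    obtain ⟨h1, h2⟩ := repA_spec c hc
    refine ⟨⟨hx.mem, by rw [hx.sqNorm, h1]⟩, ?_⟩
    obtain ⟨g, hg, rfl⟩ := hx
    rw [absSum_smul g ((hH g).1 hg), h2]
  · rw [Cfsg.Agent.S0394.result]
    decide

theorem censusB :
    (∀ x ∈ {x | x ∈ {x : GolayPt → ℤ | x ∈ leechLattice ∧ sqNorm x = 32} ∧ dotInt (V Xv0) x = 0},
      kB x ∈ csB ∧ Orb (H ⊓ H0) (repB (kB x)) x) ∧
    ∀ c ∈ csB, {x | x ∈ {x | x ∈ {x : GolayPt → ℤ | x ∈ leechLattice ∧ sqNorm x = 32} ∧
      dotInt (V Xv0) x = 0} ∧ kB x = c}.ncard = mB c := by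
  have hc0 : {x | x ∈ {x : GolayPt → ℤ | x ∈ leechLattice ∧ sqNorm x = 32} ∧
      dotInt (V Xv0) x = 0}.ncard = 93150 := co2_census.2 0 (by decide)
  apply census {x | x ∈ {x : GolayPt → ℤ | x ∈ leechLattice ∧ sqNorm x = 32} ∧ dotInt (V Xv0) x = 0}
    (Set.finite_of_ncard_ne_zero (by rw [hc0]; norm_num))
    kB csB mB (fun c x => Orb (H ⊓ H0) (repB c) x)
  · exact forall_csB
      (by have := nlbB hH XnP_code XnP_leech XnP_norm nGroupsP nGroupsP_ok
          rwa [nGroupsP_count] at this)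
      (by have := nlbB hH XnQ_code XnQ_leech XnQ_norm nGroupsQ nGroupsQ_ok
          rwa [nGroupsQ_count] at this)
      (by have := nlbB hH XnR_code XnR_leech XnR_norm nGroupsR nGroupsR_ok
          rwa [nGroupsR_count] at this)
      (by have := nlbB hH XnS_code XnS_leech XnS_norm nGroupsS nGroupsS_ok
          rwa [nGroupsS_count] at this)
      (by have := nlbB hH XnT_code XnT_leech XnT_norm nGroupsT nGroupsT_ok
          rwa [nGroupsT_count] at this)
  · intro c hc x hx
    obtain ⟨⟨h1, h2⟩, h3⟩ := repB_spec c hc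
    obtain ⟨g, hg, rfl⟩ := hx
    obtain ⟨hg1, hg2⟩ := Subgroup.mem_inf.1 hg
    have hv : g • v0 = v0 := mem_H0.1 hg2
    refine ⟨⟨⟨(g • repB c).2, by rw [co0_sqNorm, h1]⟩, ?_⟩, ?_⟩
    · have := co0_dotInt g v0 (repB c)
      rw [hv] at this
      exact this.trans h2
    · show (absSum _, |dotInt (V XnP) _|) = c
      rw [absSum_smul g ((hH g).1 hg1), abs_dot_nP g ((hH g).1 hg1) hv]
      exact h3
  · rw [hc0]
    decide

end

/-! ### maximality -/

theorem cross_num_check : ∀ n ∈ subSums [1104, 97152, 98304],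
    ∀ m ∈ subSums [2, 924, 4928, 42240, 45056],
    1002795171840 ∣ n * (m * 454164480) → n * (m * 454164480) ∣ 8315553613086720000 →
    n * (m * 454164480) = 1002795171840 ∨ n * (m * 454164480) = 8315553613086720000 := by
  decide +kernel

theorem v0_norm' : sqNorm ((v0 : ↥leechLattice) : GolayPt → ℤ) = 32 := by
  show sqNorm (V Xv0) = 32
  rw [sqNorm_V, Xv0_norm]

theorem nP_norm' : sqNorm ((nP : ↥leechLattice) : GolayPt → ℤ) = 32 := by
  show sqNorm (V XnP) = 32
  rw [sqNorm_V, XnP_norm]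

theorem v0_dot_nP : dotInt ((v0 : ↥leechLattice) : GolayPt → ℤ) ((nP : ↥leechLattice) : GolayPt → ℤ) = 0 := by
  show dotInt (V Xv0) (V XnP) = 0
  rw [dotInt_V, XnP_dot]

theorem card_fix_v0_nP : Nat.card ↥(FixL [v0, nP]) = 454164480 := by
  have h := two_step_card ⊤ v0 nP le_top
  have e1 : {x : ↥leechLattice | ∃ k ∈ (⊤ : Subgroup ↥Co0), k • v0 = x}
      = {x : ↥leechLattice | sqNorm (x : GolayPt → ℤ) = 32} := by
    ext x
    constructor
    · rintro ⟨k, -, rfl⟩
      show sqNorm _ = 32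
      rw [co0_sqNorm, v0_norm']
    · intro hx
      obtain ⟨g, hg⟩ := exists_smul_v0 x hx
      exact ⟨g, Subgroup.mem_top _, hg⟩
  have e2 : {y : ↥leechLattice | ∃ k ∈ (⊤ : Subgroup ↥Co0) ⊓ stabilizer ↥Co0 v0, k • nP = y}
      = {w : ↥leechLattice | sqNorm (w : GolayPt → ℤ) = 32 ∧
          dotInt (v0 : GolayPt → ℤ) (w : GolayPt → ℤ) = 0} := by
    ext y
    constructor
    · rintro ⟨k, hk, rfl⟩
      have hk' : k • v0 = v0 := (Subgroup.mem_inf.1 hk).2
      refine ⟨by rw [co0_sqNorm, nP_norm'], ?_⟩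
      have := co0_dotInt k v0 nP
      rw [hk'] at this
      rw [this, v0_dot_nP]
    · rintro ⟨h1, h2⟩
      obtain ⟨g, hg1, hg2⟩ := co0_trans_pair v0 nP y v0_norm' nP_norm' h1 (by rw [v0_dot_nP, h2])
      exact ⟨g, Subgroup.mem_inf.2 ⟨Subgroup.mem_top _, hg1⟩, hg2⟩
  rw [e1, e2, ncard_min, co0_count_pair v0 v0_norm' 0 (by decide), Subgroup.card_top, card_Co0] at h
  have h3 : mOf 0 = 93150 := rfl
  rw [h3] at h
  omega

theorem cross_isCoatom (H : Subgroup ↥Co0) (hH : ∀ g, g ∈ H ↔ PresCross g) : IsCoatom H := by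
  have hcardH : Nat.card ↥H = 1002795171840 := by
    rw [← show 4096 * 244823040 = 1002795171840 by norm_num, ← card_presCross]
    exact Nat.card_congr (Equiv.subtypeEquivRight hH)
  have hF : FixL [v0, nP] ≤ H := by
    intro g hg
    rw [hH, presCross_iff g none, E8_eq, co0_add, hg v0 (by simp), hg nP (by simp), ← E8_eq]
    exact ⟨none, 8, Or.inl rfl, rfl⟩
  have hfinA : {z : ↥leechLattice | sqNorm (z : GolayPt → ℤ) = 32}.Finite :=
    Set.finite_of_ncard_ne_zero (by rw [ncard_min]; norm_num)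
  have hcB : {w : ↥leechLattice | sqNorm (w : GolayPt → ℤ) = 32 ∧
      dotInt (v0 : GolayPt → ℤ) (w : GolayPt → ℤ) = 0}.ncard = 93150 :=
    co0_count_pair v0 v0_norm' 0 (by decide)
  have hfinB : {w : ↥leechLattice | sqNorm (w : GolayPt → ℤ) = 32 ∧
      dotInt (v0 : GolayPt → ℤ) (w : GolayPt → ℤ) = 0}.Finite :=
    Set.finite_of_ncard_ne_zero (by rw [hcB]; norm_num)
  have cntA : ∀ c ∈ csA, {z : ↥leechLattice | z ∈ {z : ↥leechLattice | sqNorm (z : GolayPt → ℤ) = 32} ∧
      absSum (z : GolayPt → ℤ) = c}.ncard = mA c := by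
    intro c hc
    rw [← (censusA hH).2 c hc]
    have e1 : {x | x ∈ {x : GolayPt → ℤ | x ∈ leechLattice ∧ sqNorm x = 32} ∧ absSum x = c}
        = {x : GolayPt → ℤ | x ∈ leechLattice ∧ (sqNorm x = 32 ∧ absSum x = c)} := by
      ext x
      simp only [Set.mem_ofPred_eq, and_assoc]
    rw [e1, ncard_coe_set (fun x => sqNorm x = 32 ∧ absSum x = c)]
    rfl
  have cntB : ∀ c ∈ csB, {z : ↥leechLattice | z ∈ {w : ↥leechLattice | sqNorm (w : GolayPt → ℤ) = 32 ∧
      dotInt (v0 : GolayPt → ℤ) (w : GolayPt → ℤ) = 0} ∧ kB (z : GolayPt → ℤ) = c}.ncard = mB c := by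
    intro c hc
    rw [← (censusB hH).2 c hc]
    have e1 : {x | x ∈ {x | x ∈ {x : GolayPt → ℤ | x ∈ leechLattice ∧ sqNorm x = 32} ∧
        dotInt (V Xv0) x = 0} ∧ kB x = c}
        = {x : GolayPt → ℤ | x ∈ leechLattice ∧ ((sqNorm x = 32 ∧ dotInt (V Xv0) x = 0) ∧ kB x = c)} := by
      ext x
      simp only [Set.mem_ofPred_eq, and_assoc]
    rw [e1, ncard_coe_set (fun x => (sqNorm x = 32 ∧ dotInt (V Xv0) x = 0) ∧ kB x = c)]
    rfl
  have key : ∀ K : Subgroup ↥Co0, H ≤ K → ∃ n ∈ subSums [1104, 97152, 98304],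
      ∃ m ∈ subSums [2, 924, 4928, 42240, 45056], Nat.card ↥K = n * (m * 454164480) := by
    intro K hHK
    refine ⟨_, ?_, _, ?_, by rw [← card_fix_v0_nP]; exact two_step_card K v0 nP (hF.trans hHK)⟩
    · apply orbit_ncard_mem H K hHK v0 {z : ↥leechLattice | sqNorm (z : GolayPt → ℤ) = 32} hfinA
        (fun k _ => by show sqNorm _ = 32; rw [co0_sqNorm, v0_norm'])
        (fun z => absSum (z : GolayPt → ℤ)) [(8, 1104), (16, 97152), (26, 98304)]
      · intro z hz
        have := ((censusA hH).1 (z : GolayPt → ℤ) ⟨z.2, hz⟩).1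
        simpa [csA] using this
      · intro z hz z' hz' h
        obtain ⟨-, h1⟩ := (censusA hH).1 (z : GolayPt → ℤ) ⟨z.2, hz⟩
        obtain ⟨-, h2⟩ := (censusA hH).1 (z' : GolayPt → ℤ) ⟨z'.2, hz'⟩
        have h' : absSum (z : GolayPt → ℤ) = absSum (z' : GolayPt → ℤ) := h
        rw [← h'] at h2
        exact Orb.conj h1 h2
      · intro e he
        simp only [List.mem_cons, List.not_mem_nil, or_false] at he
        rcases he with rfl | rfl | rfl
        · exact cntA 8 (by decide)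
        · exact cntA 16 (by decide)
        · exact cntA 26 (by decide)
    · apply orbit_ncard_mem (H ⊓ H0) (K ⊓ stabilizer ↥Co0 v0)
        (inf_le_inf hHK (fun g hg => mem_stabilizer_iff.2 (mem_H0.1 hg))) nP
        {w : ↥leechLattice | sqNorm (w : GolayPt → ℤ) = 32 ∧
          dotInt (v0 : GolayPt → ℤ) (w : GolayPt → ℤ) = 0} hfinB
        (fun k hk => by
          have hk' : k • v0 = v0 := (Subgroup.mem_inf.1 hk).2
          refine ⟨by rw [co0_sqNorm, nP_norm'], ?_⟩
          have := co0_dotInt k v0 nP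
          rw [hk'] at this
          rw [this, v0_dot_nP])
        (fun z => kB (z : GolayPt → ℤ))
        [((8, 32), 2), ((8, 0), 924), ((16, 16), 4928), ((16, 0), 42240), ((26, 8), 45056)]
      · intro z hz
        have := ((censusB hH).1 (z : GolayPt → ℤ) ⟨⟨z.2, hz.1⟩, hz.2⟩).1
        simpa [csB] using this
      · intro z hz z' hz' h
        obtain ⟨-, h1⟩ := (censusB hH).1 (z : GolayPt → ℤ) ⟨⟨z.2, hz.1⟩, hz.2⟩
        obtain ⟨-, h2⟩ := (censusB hH).1 (z' : GolayPt → ℤ) ⟨⟨z'.2, hz'.1⟩, hz'.2⟩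
        have h' : kB (z : GolayPt → ℤ) = kB (z' : GolayPt → ℤ) := h
        rw [← h'] at h2
        exact Orb.conj h1 h2
      · intro e he
        simp only [List.mem_cons, List.not_mem_nil, or_false] at he
        rcases he with rfl | rfl | rfl | rfl | rfl
        · exact cntB (8, 32) (by decide)
        · exact cntB (8, 0) (by decide)
        · exact cntB (16, 16) (by decide)
        · exact cntB (16, 0) (by decide)
        · exact cntB (26, 8) (by decide)
  constructor
  · intro h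
    have := hcardH
    rw [h, Subgroup.card_top, card_Co0] at this
    norm_num at this
  · intro K hK
    obtain ⟨n, hn, m, hm, hc⟩ := key K hK.le
    have d1 : 1002795171840 ∣ n * (m * 454164480) := by
      rw [← hc, ← hcardH]
      exact Subgroup.card_dvd_of_le hK.le
    have d2 : n * (m * 454164480) ∣ 8315553613086720000 := by
      rw [← hc, ← card_Co0]
      exact Subgroup.card_subgroup_dvd_card K
    rcases cross_num_check n hn m hm d1 d2 with h | h
    · exfalso
      have : H = K := Subgroup.eq_of_le_of_card_ge hK.le (by rw [hc, h, hcardH])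
      exact hK.ne this
    · exact Subgroup.eq_top_of_card_eq K (by rw [hc, h, card_Co0])

end Cfsg.Agent.Lib.Helper54
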