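/-
Helper library (helper54): one step of the chain of pointwise stabilisers in Co0.
-/
import Cfsg.Agent.Lib.Helper54.Co0Fix

set_option autoImplicit false

namespace Cfsg.Agent.Lib.Helper54

open Cfsg MulAction

/-- one step of the chain of stabilisers -/
theorem card_fixL_step {bs : List ↥leechLattice} {n : ℤ} {c : List ℤ} {M : ℕ} {α : ↥leechLattice}
    (hα : ClsL bs n c α) (hc : CountL bs n c M) (ht : TransL bs n c) :
    Nat.card ↥(FixL bs) = M * Nat.card ↥(FixL (α :: bs)) := by
  have h := card_smul_mem' (G := ↥(FixL bs)) α {x | ClsL bs n c x} (by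
    intro y hy
    obtain ⟨g, hg, hgy⟩ := ht α y hα hy
    exact ⟨⟨g, hg⟩, hgy⟩)
  have e : Nat.card {g : ↥(FixL bs) // g • α ∈ {x | ClsL bs n c x}} = Nat.card ↥(FixL bs) :=
    Nat.card_congr (Equiv.subtypeUnivEquiv (fun g => clsL_fix g.2 hα))
  rw [e] at h
  rw [h, hc]
  congr 1
  exact Nat.card_congr (stabFixEquiv α bs).toEquiv

end Cfsg.Agent.Lib.Helper54
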