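/-
Helper library (helper54): a total and functional relation subgroup is the graph of a homomorphism; the 2-core of a group
mapping onto a group without normal 2-subgroups with a 2-group as kernel.
-/
import Mathlib
import Cfsg.Prelude.Def_Solvable

set_option autoImplicit false

namespace Cfsg.Agent.Lib.Helper54

theorem hom_of_relation {C U : Type*} [Group C] [Group U] (R : Subgroup (C × U))
    (htot : ∀ c, ∃ u, (c, u) ∈ R) (hfun : ∀ u, ((1 : C), u) ∈ R → u = 1) :
    ∃ ψ : C →* U, ∀ c u, (c, u) ∈ R ↔ ψ c = u := by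
  classical
  choose f hf using htot
  have huniq : ∀ c u u', (c, u) ∈ R → (c, u') ∈ R → u = u' := by
    intro c u u' h h'
    have h1 := R.mul_mem (R.inv_mem h) h'
    rw [Prod.inv_mk, Prod.mk_mul_mk, inv_mul_cancel] at h1
    exact inv_mul_eq_one.1 (hfun _ h1)
  refine ⟨{ toFun := f
            map_one' := huniq 1 _ _ (hf 1) R.one_mem
            map_mul' := fun a b => huniq _ _ _ (hf (a * b)) (by
              have h1 := R.mul_mem (hf a) (hf b)
              rwa [Prod.mk_mul_mk] at h1) }, ?_⟩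
  intro c u
  exact ⟨fun h => huniq _ _ _ (hf c) h, fun h => h ▸ hf c⟩

theorem pCore_eq_ker {C U : Type*} [Group C] [Group U] (ψ : C →* U) (hs : Function.Surjective ψ)
    (hK : IsPGroup 2 ψ.ker) (hU : ∀ N : Subgroup U, N.Normal → IsPGroup 2 N → N = ⊥) :
    Cfsg.pCore 2 C = ψ.ker := by
  apply le_antisymm
  · apply sSup_le
    rintro N ⟨hN, h2⟩
    have h5 := hU _ (hN.map ψ hs) (h2.map ψ)
    intro x hx
    rw [MonoidHom.mem_ker]
    have h6 : ψ x ∈ N.map ψ := ⟨x, hx, rfl⟩
    rwa [h5, Subgroup.mem_bot] at h6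
  · exact le_sSup ⟨inferInstance, hK⟩

/-- partners for a generating set give partners for all elements -/
theorem partners_of_closure {C U : Type*} [Group C] [Group U] (R : Subgroup (C × U)) (T : Set U)
    (hT : Subgroup.closure T = ⊤) (h1 : ∀ u ∈ T, ∃ c, (c, u) ∈ R) : ∀ u, ∃ c, (c, u) ∈ R := by
  intro u
  have hu : u ∈ Subgroup.closure T := by rw [hT]; trivial
  induction hu using Subgroup.closure_induction with
  | mem x hx => exact h1 x hx
  | one => exact ⟨1, R.one_mem⟩
  | mul x y _ _ hx hy =>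
    obtain ⟨a, ha⟩ := hx
    obtain ⟨b, hb⟩ := hy
    refine ⟨a * b, ?_⟩
    have h2 := R.mul_mem ha hb
    rwa [Prod.mk_mul_mk] at h2
  | inv x _ hx =>
    obtain ⟨a, ha⟩ := hx
    refine ⟨a⁻¹, ?_⟩
    have h2 := R.inv_mem ha
    rwa [Prod.inv_mk] at h2

end Cfsg.Agent.Lib.Helper54
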