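/-
Helper library (helper54): a subgroup of `PSU(3, 3)` isomorphic to `PSL(2, 7)`.  The 42 matrices of trace 0 and
determinant 1 over the field with 7 elements are matched with 42 vectors of the hermitian space.
-/
import Cfsg.Agent.Lib.Helper54.K9
import Cfsg.Agent.Lib.Helper54.U6Code
import Cfsg.Agent.Lib.Helper54.RelIso
import Cfsg.Agent.Lib.Helper54.RelHom
import Cfsg.Agent.Lib.Helper54.PSUCongr
import Cfsg.Agent.Lib.Helper5.SUSimple
import Cfsg.Agent.Lib.Helper5.SLGen

set_option autoImplicit false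

namespace Cfsg.Agent.Lib.Helper54.L27

open Matrix Cfsg.Agent.Lib.Helper5 Cfsg.Agent.Lib.Helper27 Cfsg.Agent.Lib.Helper54
  Cfsg.Agent.Lib.Helper54.K9
open Cfsg.Agent.Lib.Helper54.U6 (forceN forceN_eq anyL anyL_iff)

instance fact7 : Fact (Nat.Prime 7) := ⟨by norm_num⟩

/-- the vectors -/
abbrev VV : Type := Fin 3 → K9

/-- the hermitian form -/
abbrev hf (x y : VV) : K9 := Cfsg.hermForm 3 K9 3 x y

/-- decoding of vectors -/
def dec (m : ℕ) : VV := fun i => ofN ((m / 9 ^ i.val) % 9)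

/-- coding of vectors -/
def enc (v : VV) : ℕ := toN (v 0) + 9 * (toN (v 1) + 9 * (toN (v 2)))

theorem dec_enc (v : VV) : dec (enc v) = v := by
  have h0 := toN_lt (v 0)
  have h1 := toN_lt (v 1)
  have h2 := toN_lt (v 2)
  funext i
  rw [← ofN_toN (v i)]
  unfold dec enc
  congr 1
  fin_cases i <;> simp <;> omega

/-- the parameter of the transvections -/
def c0 : K9 := ofN 3

theorem hc0 : c0 + c0 ^ 3 = 0 := by decide +kernel

/-- the transvection with a coded centre -/
def tvc (a : ℕ) : Cfsg.SU 3 K9 3 :=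
  if h : hf (dec a) (dec a) = 0 then tSU card_eq' (dec a) c0 h hc0 else 1

/-- the map `x ↦ x + c0 h(x, v) v` -/
def tf (a : ℕ) (x : VV) : VV := x + (c0 * hf x (dec a)) • dec a

theorem tvc_mulVec {a : ℕ} (h : hf (dec a) (dec a) = 0) (x : VV) : (tvc a).1.1 *ᵥ x = tf a x := by
  rw [tvc, dif_pos h, tSU_mulVec, tf]

/-- products of transvections -/
def tl (l : List ℕ) : Cfsg.SU 3 K9 3 := (l.map tvc).prod

theorem tl_mulVec (l : List ℕ) (h : ∀ a ∈ l, hf (dec a) (dec a) = 0) (x : VV) :
    (tl l).1.1 *ᵥ x = l.foldr tf x := by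
  induction l with
  | nil =>
    have e : tl [] = 1 := by simp [tl]
    rw [e, SU_one_mulVec]; rfl
  | cons a l ih =>
    have e : tl (a :: l) = tvc a * tl l := by simp [tl]
    rw [e, SU_mul_mulVec, ih (fun m hm => h m (List.mem_cons_of_mem _ hm)),
      tvc_mulVec (h a List.mem_cons_self), List.foldr_cons]

/-- transvections on codes -/
def tfc (a m : ℕ) : ℕ := forceN m fun m' => enc (tf a (dec m'))

theorem dec_tfc (a m : ℕ) : dec (tfc a m) = tf a (dec m) := by
  rw [tfc, forceN_eq, dec_enc]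

theorem dec_foldr (l : List ℕ) (m : ℕ) : dec (l.foldr tfc m) = l.foldr tf (dec m) := by
  induction l with
  | nil => rfl
  | cons n l ih => rw [List.foldr_cons, List.foldr_cons, dec_tfc, ih]

/-- the special linear group -/
abbrev S : Type := Matrix.SpecialLinearGroup (Fin 2) (ZMod 7)

/-- the special unitary group -/
abbrev U : Type := ↥(Cfsg.SU 3 K9 3)

/-- decoding of the matrices of trace 0 -/
def decX (m : ℕ) : Matrix (Fin 2) (Fin 2) (ZMod 7) :=
  !![(m : ZMod 7), ((m / 7 : ℕ) : ZMod 7); ((m / 49 : ℕ) : ZMod 7), -(m : ZMod 7)]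

/-- the matching of matrices and vectors -/
def tab : List (ℕ × ℕ) := [(65, 578), (68, 76), (80, 127), (81, 9), (85, 226), (90, 97), (91, 360), (107, 209), (110, 328), (115, 106), (116, 2), (119, 80), (141, 95), (146, 587), (161, 332), (170, 684), (173, 104), (176, 146), (181, 577), (192, 81), (193, 416), (206, 586), (207, 162), (218, 425), (223, 208), (226, 178), (229, 396), (231, 652), (253, 415), (258, 187), (273, 40), (283, 1), (284, 176), (289, 656), (292, 145), (301, 720), (309, 185), (314, 128), (318, 18), (319, 227), (331, 44), (334, 424)]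

/-- the words for the transvections -/
def wtab : List (List ℕ) := [[], [374, 38, 13], [342, 117, 17], [138, 88, 39], [365, 333, 17], [93, 86, 14], [86, 42, 16], [], [400, 114, 16], [126, 96, 16], [394, 38, 17], [144, 16, 14], [395, 326, 38], [376, 367, 13]]

/-- the word of a transvection -/
def wd (i : Fin 2) (c : ZMod 7) : List ℕ := wtab.getD (7 * i.val + c.val) []

/-- compatible pairs -/
def Rel (s : S) (u : U) : Prop :=
  ∀ e ∈ tab, ∃ e' ∈ tab, s.1 * decX e.1 = decX e'.1 * s.1 ∧ u.1.1 *ᵥ dec e.2 = dec e'.2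

theorem Rel.one : Rel 1 1 := fun e he => ⟨e, he, by simp, SU_one_mulVec _⟩

theorem Rel.mul {s s' : S} {u u' : U} (h : Rel s u) (h' : Rel s' u') : Rel (s * s') (u * u') := by
  intro e he
  obtain ⟨e1, he1, a1, b1⟩ := h' e he
  obtain ⟨e2, he2, a2, b2⟩ := h e1 he1
  refine ⟨e2, he2, ?_, ?_⟩
  · rw [Matrix.SpecialLinearGroup.coe_mul, Matrix.mul_assoc, a1, ← Matrix.mul_assoc, a2, Matrix.mul_assoc]
  · rw [SU_mul_mulVec, b1, b2]

/-- the compatible pairs -/
def relMonoid : Submonoid (S × U) where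
  carrier := {p | Rel p.1 p.2}
  one_mem' := Rel.one
  mul_mem' := fun ha hb => Rel.mul ha hb

/-- the compatible pairs -/
def R : Subgroup (S × U) := subgroupOfSubmonoid relMonoid

theorem mem_R {s : S} {u : U} : (s, u) ∈ R ↔ Rel s u := Iff.rfl

/-- the check of a transvection -/
def chk (i j : Fin 2) (c : ZMod 7) : Bool :=
  allList (fun e : ℕ × ℕ => forceN ((wd i c).foldr tfc e.2) fun w =>
    anyL (fun e' : ℕ × ℕ => band (Nat.beq w e'.2)
      (decide (Matrix.transvection i j c * decX e.1 = decX e'.1 * Matrix.transvection i j c))) tab) tab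

set_option maxRecDepth 100000 in
theorem key : ∀ i j : Fin 2, i ≠ j → ∀ c : ZMod 7, chk i j c = true := by decide +kernel

set_option maxRecDepth 100000 in
theorem wd_iso : ∀ (i : Fin 2) (c : ZMod 7), ∀ a ∈ wd i c, hf (dec a) (dec a) = 0 := by decide +kernel

theorem partner (i j : Fin 2) (h : i ≠ j) (c : ZMod 7) :
    ∃ u : U, (Matrix.SpecialLinearGroup.transvection h c, u) ∈ R := by
  refine ⟨tl (wd i c), ?_⟩
  rw [mem_R]
  intro e he
  have h4 := (allList_iff _ _).1 (key i j h c) e he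
  rw [forceN_eq, anyL_iff] at h4
  obtain ⟨e', he', h5⟩ := h4
  rw [band_eq, Bool.and_eq_true] at h5
  refine ⟨e', he', ?_, ?_⟩
  · rw [Matrix.SpecialLinearGroup.transvection_coe]
    exact of_decide_eq_true h5.2
  · rw [tl_mulVec _ (wd_iso i c), ← dec_foldr, Nat.eq_of_beq_eq_true h5.1]

theorem total (s : S) : ∃ u : U, (s, u) ∈ R := by
  refine SL_transvection_induction (fun s => ∃ u : U, (s, u) ∈ R) partner ?_ s
  rintro A B ⟨a, ha⟩ ⟨b, hb⟩
  refine ⟨a * b, ?_⟩
  have h := R.mul_mem ha hb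
  rwa [Prod.mk_mul_mk] at h

set_option maxRecDepth 100000 in
theorem tab_injX : ∀ e ∈ tab, ∀ e' ∈ tab, decX e.1 = decX e'.1 → e'.2 = e.2 := by decide +kernel

set_option maxRecDepth 100000 in
theorem tab_injV : ∀ e ∈ tab, ∀ e' ∈ tab, dec e.2 = dec e'.2 → e'.1 = e.1 := by decide +kernel

set_option maxRecDepth 100000 in
theorem tab_det : ∀ e ∈ tab, (decX e.1).det = 1 := by
  intro e he
  rw [decX, Matrix.det_fin_two_of]
  revert e
  decide +kernel

theorem dec_single : ∀ j : Fin 3, ∃ e ∈ tab, dec e.2 = Pi.single j 1 := by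
  intro j
  fin_cases j
  · exact ⟨(283, 1), by decide, by decide +kernel⟩
  · exact ⟨(81, 9), by decide, by decide +kernel⟩
  · exact ⟨(192, 81), by decide, by decide +kernel⟩

theorem functional (u : U) (h : ((1 : S), u) ∈ R) : u = 1 := by
  rw [mem_R] at h
  have h1 : ∀ j : Fin 3, u.1.1 *ᵥ Pi.single j 1 = Pi.single j 1 := by
    intro j
    obtain ⟨e, he, e1⟩ := dec_single j
    obtain ⟨e', he', a1, b1⟩ := h e he
    rw [Matrix.SpecialLinearGroup.coe_one, Matrix.one_mul, Matrix.mul_one] at a1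
    rw [tab_injX e he e' he' a1, e1] at b1
    exact b1
  apply Subtype.ext
  apply Subtype.ext
  ext i j
  have h2 := congrFun (h1 j) i
  rw [Matrix.mulVec_single_one] at h2
  show u.1.1 i j = (1 : Matrix (Fin 3) (Fin 3) K9) i j
  rw [Matrix.one_apply, ← Matrix.col_apply u.1.1 j i, h2, Pi.single_apply]

/-- scalar matrices -/
def IsSc (s : S) : Prop := s.1 0 1 = 0 ∧ s.1 1 0 = 0 ∧ s.1 0 0 = s.1 1 1

theorem IsSc.eq_smul {s : S} (h : IsSc s) : s.1 = s.1 0 0 • (1 : Matrix (Fin 2) (Fin 2) (ZMod 7)) := by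
  obtain ⟨h1, h2, h3⟩ := h
  ext i j
  fin_cases i <;> fin_cases j <;> simp [h1, h2, h3]

theorem IsSc.mem_center {s : S} (h : IsSc s) : s ∈ Subgroup.center S := by
  rw [Subgroup.mem_center_iff]
  intro g
  apply Subtype.ext
  rw [Matrix.SpecialLinearGroup.coe_mul, Matrix.SpecialLinearGroup.coe_mul, h.eq_smul, Matrix.mul_smul,
    Matrix.smul_mul, Matrix.mul_one, Matrix.one_mul]

set_option maxRecDepth 100000 in
theorem sc_key : ∀ a b c d : ZMod 7, !![a, b; c, d] * decX 301 = decX 301 * !![a, b; c, d] →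
    !![a, b; c, d] * decX 161 = decX 161 * !![a, b; c, d] → b = 0 ∧ c = 0 ∧ a = d := by decide +kernel

theorem sc_of_rel {s : S} (h : (s, (1 : U)) ∈ R) : IsSc s := by
  rw [mem_R] at h
  have h1 : ∀ e ∈ tab, s.1 * decX e.1 = decX e.1 * s.1 := by
    intro e he
    obtain ⟨e', he', a1, b1⟩ := h e he
    rw [SU_one_mulVec] at b1
    rw [tab_injV e he e' he' b1] at a1
    exact a1
  have h2 := h1 (301, 720) (by decide)
  have h3 := h1 (161, 332) (by decide)
  rw [Matrix.eta_fin_two s.1] at h2 h3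
  exact sc_key _ _ _ _ h2 h3

theorem rel_of_center {s : S} (h : s ∈ Subgroup.center S) : (s, (1 : U)) ∈ R := by
  rw [mem_R]
  intro e he
  refine ⟨e, he, ?_, SU_one_mulVec _⟩
  have h1 := Subgroup.mem_center_iff.1 h ⟨decX e.1, tab_det e he⟩
  exact (congrArg Subtype.val h1).symm

/-- the upper transvection -/
def t12 : S := ⟨!![1, 1; 0, 1], by rw [Matrix.det_fin_two_of]; decide⟩

/-- the lower transvection -/
def t21 : S := ⟨!![1, 0; 1, 1], by rw [Matrix.det_fin_two_of]; decide⟩

set_option maxRecDepth 100000 in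
theorem comm_key1 : ∀ a b c d l : ZMod 7, a * d - b * c = 1 →
    !![1, 1; 0, 1] * !![a, b; c, d] = (!![a, b; c, d] * !![1, 1; 0, 1]) * (l • 1) → c = 0 ∧ a = d := by
  decide +kernel

set_option maxRecDepth 100000 in
theorem comm_key2 : ∀ a b c d l : ZMod 7, a * d - b * c = 1 →
    !![1, 0; 1, 1] * !![a, b; c, d] = (!![a, b; c, d] * !![1, 0; 1, 1]) * (l • 1) → b = 0 := by
  decide +kernel

theorem main0 : ∃ H : Subgroup (Cfsg.PSU 3 K9 3),
    Nonempty (H ≃* Matrix.ProjectiveSpecialLinearGroup (Fin 2) (ZMod 7)) := by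
  obtain ⟨ψ, hψ⟩ := hom_of_relation R total functional
  let φ : S →* Cfsg.PSU 3 K9 3 := (QuotientGroup.mk' (Subgroup.center U)).comp ψ
  have hker : φ.ker = Subgroup.center S := by
    ext s
    rw [MonoidHom.mem_ker]
    constructor
    · intro h
      have h1 : ψ s ∈ Subgroup.center U := (QuotientGroup.eq_one_iff _).1 h
      have h2 : ∀ t : S, ∃ l : ZMod 7, t.1 * s.1 = (s.1 * t.1) * (l • 1) := by
        intro t
        have h3 := Subgroup.mem_center_iff.1 h1 (ψ t)
        rw [← map_mul, ← map_mul] at h3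
        have h4 : ψ ((s * t)⁻¹ * (t * s)) = 1 := by rw [map_mul, map_inv, h3, inv_mul_cancel]
        have h5 := sc_of_rel ((hψ _ _).2 h4)
        refine ⟨((s * t)⁻¹ * (t * s)).1 0 0, ?_⟩
        rw [← h5.eq_smul, ← Matrix.SpecialLinearGroup.coe_mul, ← Matrix.SpecialLinearGroup.coe_mul,
          ← Matrix.SpecialLinearGroup.coe_mul, mul_inv_cancel_left]
      obtain ⟨l1, e1⟩ := h2 t12
      obtain ⟨l2, e2⟩ := h2 t21
      have hd : s.1 0 0 * s.1 1 1 - s.1 0 1 * s.1 1 0 = 1 := by
        rw [← Matrix.det_fin_two]; exact s.2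
      rw [Matrix.eta_fin_two s.1] at e1 e2
      have k1 := comm_key1 _ _ _ _ l1 hd e1
      have k2 := comm_key2 _ _ _ _ l2 hd e2
      exact IsSc.mem_center ⟨k2, k1.1, k1.2⟩
    · intro h
      have h1 : ψ s = 1 := (hψ _ _).1 (rel_of_center h)
      show QuotientGroup.mk' (Subgroup.center U) (ψ s) = 1
      rw [h1, map_one]
  exact ⟨φ.range, ⟨((QuotientGroup.quotientMulEquivOfEq hker).symm.trans
    (QuotientGroup.quotientKerEquivRange φ)).symm⟩⟩

/-- the isomorphism of special linear groups induced by an isomorphism of rings -/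
def slEquiv {F K : Type*} [CommRing F] [CommRing K] (f : F ≃+* K) (n : ℕ) :
    Matrix.SpecialLinearGroup (Fin n) F ≃* Matrix.SpecialLinearGroup (Fin n) K where
  toFun A := Matrix.SpecialLinearGroup.map (f : F →+* K) A
  invFun A := Matrix.SpecialLinearGroup.map (f.symm : K →+* F) A
  left_inv A := by
    apply Subtype.ext
    ext i j
    exact f.symm_apply_apply _
  right_inv A := by
    apply Subtype.ext
    ext i j
    exact f.apply_symm_apply _
  map_mul' A B := map_mul _ A B

theorem main {F : Type*} [Field F] [Fintype F] (hF : Fintype.card F = 9)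
    {K : Type*} [Field K] [Fintype K] (hK : Fintype.card K = 7) :
    ∃ H : Subgroup (Cfsg.PSU 3 F 3), Nonempty (H ≃* Matrix.ProjectiveSpecialLinearGroup (Fin 2) K) := by
  obtain ⟨H, ⟨e⟩⟩ := main0
  obtain ⟨f⟩ := psu_congr_of_card (F := K9) (K := F) (by rw [hF]; exact K9.card_eq) 3 3
  have g : ZMod 7 ≃+* K := FiniteField.ringEquivOfCardEq (by rw [hK, ZMod.card])
  exact ⟨H.map f.toMonoidHom, ⟨((H.equivMapOfInjective f.toMonoidHom f.injective).symm.trans e).trans
    (centerQuotCongr (slEquiv g 2))⟩⟩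

end Cfsg.Agent.Lib.Helper54.L27
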