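/-
Helper library (helper54): odd-order subgroups normalised by a Sylow 2-subgroup, when involution
centralisers `C` satisfy `C_C(O_2(C)) ≤ O_2(C)`.
-/
import Cfsg.Agent.Lib.Helper54.PConstrained2
import Cfsg.Agent.Lib.Helper24.PGroup2

set_option autoImplicit false

namespace Cfsg.Agent.Lib.Helper54

open Cfsg Subgroup Cfsg.Agent.Lib.Lead
open scoped commutatorElement

variable {G : Type*} [Group G]

theorem inv_mul_mem_of_relIndex_le_two {H K : Subgroup G} (h : H.relIndex K ≤ 2)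
    (h0 : H.relIndex K ≠ 0) {a b : G} (ha : a ∈ K) (hb : b ∈ K) (haH : a ∉ H) (hbH : b ∉ H) :
    a⁻¹ * b ∈ H := by
  have h12 : H.relIndex K = 1 ∨ H.relIndex K = 2 := by omega
  rcases h12 with h1 | h2
  · exact absurd (relIndex_eq_one.1 h1 ha) haH
  · have h3 : (H.subgroupOf K).index = 2 := h2
    have h4 := mul_mem_iff_of_index_two h3 (a := ⟨a⁻¹, inv_mem ha⟩) (b := ⟨b, hb⟩)
    have h5 : (⟨a⁻¹, inv_mem ha⟩ : K) ∈ H.subgroupOf K ↔ (⟨b, hb⟩ : K) ∈ H.subgroupOf K := by
      rw [mem_subgroupOf, mem_subgroupOf]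
      simp only [inv_mem_iff]
      exact ⟨fun h => absurd h haH, fun h => absurd h hbH⟩
    have h6 := h4.2 h5
    rw [mem_subgroupOf] at h6
    exact h6

/-- A fixed-point-free involutory conjugation inverts. -/
theorem conj_eq_inv_of_fixedPointFree (X : Subgroup G) [Finite X] (t : G) (ht : t * t = 1)
    (hn : ∀ x ∈ X, t * x * t⁻¹ ∈ X) (hf : ∀ x ∈ X, t * x * t⁻¹ = x → x = 1) :
    ∀ x ∈ X, t * x * t⁻¹ = x⁻¹ := by
  let φ : X →* X :=
    { toFun := fun x => ⟨t * x * t⁻¹, hn x x.2⟩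
      map_one' := by ext; simp
      map_mul' := fun a b => by ext; simp }
  have hφ : MonoidHom.FixedPointFree φ := by
    intro x hx
    apply Subtype.ext
    exact hf x x.2 (congrArg Subtype.val hx)
  have h2 : Function.Involutive φ := by
    intro x
    apply Subtype.ext
    change t * (t * x * t⁻¹) * t⁻¹ = x
    have : t⁻¹ = t := inv_eq_of_mul_eq_one_left ht
    rw [this]
    calc t * (t * x * t) * t = (t * t) * x * (t * t) := by group
      _ = x := by rw [ht]; simp
  intro x hx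
  have := congrFun (hφ.coe_eq_inv_of_involutive h2) ⟨x, hx⟩
  exact congrArg Subtype.val this

theorem selfCentPCore_centralizer_of_le {p : ℕ} [Finite G] [Fact p.Prime] (M : Subgroup G)
    (hM : SelfCentPCore p ↥M) (T : Subgroup G) (hT : IsPGroup p T) (hTM : T ≤ M)
    (hCM : centralizer (T : Set G) ≤ M) : SelfCentPCore p ↥(centralizer (T : Set G)) := by
  have h1 := hM.centralizer (T.subgroupOf M)
    (hT.comap_of_injective M.subtype M.subtype_injective)
  rw [centralizer_subgroupOf_eq hTM] at h1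
  exact h1.of_mulEquiv (subgroupOfEquivOfLe hCM)

/-- Key lemma: if `|S : C_S(t)| ≤ 2` and `C = C_G(t)` satisfies `C_C(O_2(C)) ≤ O_2(C)`, then `t` has no
nontrivial fixed point on an `S`-invariant subgroup of odd order. -/
theorem eq_one_of_mem_of_commute [Finite G] (S : Sylow 2 G) (t : G)
    (hC : SelfCentPCore 2 ↥(centralizer ({t} : Set G)))
    (hidx : ((S : Subgroup G) ⊓ centralizer ({t} : Set G)).relIndex S ∣ 2)
    (X : Subgroup G) (hX : Odd (Nat.card X)) (hSX : (S : Subgroup G) ≤ normalizer (X : Set G))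
    (y : G) (hy : y ∈ X) (hyt : y * t = t * y) : y = 1 := by
  have : Fact (Nat.Prime 2) := ⟨Nat.prime_two⟩
  set C := centralizer ({t} : Set G) with hCdef
  have hyC : y ∈ C := mem_centralizer_singleton_iff.2 hyt
  set S₁ := (S : Subgroup G) ⊓ C with hS₁
  have hS₁2 : IsPGroup 2 (S₁.subgroupOf C) :=
    (S.2.to_le inf_le_left).comap_of_injective C.subtype C.subtype_injective
  obtain ⟨P', hP'⟩ := hS₁2.exists_le_sylow
  set P := (P' : Subgroup C).map C.subtype with hP
  have hS₁P : S₁ ≤ P := by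
    intro s hs
    exact ⟨⟨s, hs.2⟩, hP' (mem_subgroupOf.2 hs), rfl⟩
  have hP2 : IsPGroup 2 P := P'.2.map _
  have hPcard : Nat.card P ≤ Nat.card S := by
    obtain ⟨P₂, hP₂⟩ := hP2.exists_le_sylow
    have h1 : Nat.card P ≤ Nat.card P₂ := Nat.le_of_dvd Nat.card_pos (card_dvd_of_le hP₂)
    have h2 : Nat.card P₂ = Nat.card S := by
      rw [Sylow.card_eq_multiplicity, Sylow.card_eq_multiplicity]
    omega
  have hc1 : Nat.card S₁ * S₁.relIndex P = Nat.card P := by
    have := relIndex_mul_relIndex ⊥ S₁ P bot_le hS₁P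
    simpa [relIndex_bot_left] using this
  have hc2 : Nat.card S₁ * S₁.relIndex S = Nat.card S := by
    have := relIndex_mul_relIndex ⊥ S₁ S bot_le inf_le_left
    simpa [relIndex_bot_left] using this
  have hS₁pos : 0 < Nat.card S₁ := Nat.card_pos
  have hidx2 : S₁.relIndex S ≤ 2 := Nat.le_of_dvd (by norm_num) hidx
  have hidxP : S₁.relIndex P ≤ 2 := by
    have h3 : Nat.card S₁ * S₁.relIndex P ≤ Nat.card S₁ * S₁.relIndex S := by
      rw [hc1, hc2]; exact hPcard
    exact (Nat.le_of_mul_le_mul_left h3 hS₁pos).trans hidx2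
  have hidxP0 : S₁.relIndex P ≠ 0 := by
    intro h0
    rw [h0, mul_zero] at hc1
    exact absurd hc1.symm Nat.card_pos.ne'
  set y' : C := ⟨y, hyC⟩ with hy'
  have hyo : (orderOf y').Coprime 2 := by
    rw [hy', ← Subgroup.orderOf_coe]
    have h1 : orderOf y ∣ Nat.card X := by
      have := orderOf_dvd_natCard (⟨y, hy⟩ : X)
      rwa [← Subgroup.orderOf_coe] at this
    exact Nat.Coprime.of_dvd_left h1 (Nat.coprime_two_right.2 hX)
  -- step 1
  have step1 : ∀ q ∈ pCore 2 ↥C, (q : G) ∈ (S : Subgroup G) → y' * q * y'⁻¹ = q := by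
    intro q hq hqS
    have hw1 : y' * q * y'⁻¹ * q⁻¹ ∈ pCore 2 ↥C :=
      mul_mem ((pCore_normal 2 ↥C).conj_mem q hq y') (inv_mem hq)
    obtain ⟨k, hk⟩ := (pCore_isPGroup 2 ↥C) ⟨_, hw1⟩
    have hk' : (y' * q * y'⁻¹ * q⁻¹) ^ 2 ^ k = 1 := by
      have := congrArg Subtype.val hk
      simpa using this
    have hw2 : y * ((q : G) * y⁻¹ * (q : G)⁻¹) ∈ X := by
      apply mul_mem hy
      have := (mem_normalizer_iff.1 (hSX hqS) y⁻¹).1 (inv_mem hy)
      exact this
    have hw3 : (y' * q * y'⁻¹ * q⁻¹) ^ Nat.card X = 1 := by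
      apply Subtype.ext
      have h4 : ((y' * q * y'⁻¹ * q⁻¹ : C) : G) = y * ((q : G) * y⁻¹ * (q : G)⁻¹) := by
        simp [hy', mul_assoc]
      rw [Subgroup.coe_pow, h4]
      have := pow_card_eq_one' (x := (⟨_, hw2⟩ : X))
      exact congrArg Subtype.val this
    have := eq_one_of_pow_of_coprime hk' hw3 (Nat.coprime_two_right.2 hX)
    exact mul_inv_eq_one.1 this
  have key : ∀ q ∈ pCore 2 ↥C, y' * q * y'⁻¹ = q := by
    intro q hq
    by_cases hqS : (q : G) ∈ (S : Subgroup G)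
    · exact step1 q hq hqS
    · have hq2 : y' * q * y'⁻¹ ∈ pCore 2 ↥C := (pCore_normal 2 ↥C).conj_mem q hq y'
      have hq2S : ((y' * q * y'⁻¹ : C) : G) ∉ (S : Subgroup G) := by
        intro hmem
        have h5 := step1 _ hq2 hmem
        have h6 : y' * q * y'⁻¹ = q := by
          have : y' * (y' * q * y'⁻¹) * y'⁻¹ = y' * q * y'⁻¹ := h5
          have h7 := congrArg (fun z => y'⁻¹ * z * y') this
          simpa [mul_assoc] using h7
        rw [h6] at hmem
        exact hqS hmem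
      have hqP : (q : G) ∈ P := ⟨q, pCore_le_sylow P' hq, rfl⟩
      have hq2P : ((y' * q * y'⁻¹ : C) : G) ∈ P := ⟨_, pCore_le_sylow P' hq2, rfl⟩
      have he := inv_mul_mem_of_relIndex_le_two hidxP hidxP0 hqP hq2P
        (fun h => hqS h.1) (fun h => hq2S h.1)
      have heQ : q⁻¹ * (y' * q * y'⁻¹) ∈ pCore 2 ↥C := mul_mem (inv_mem hq) hq2
      have hefix := step1 _ heQ he.1
      obtain ⟨k, hk⟩ := (pCore_isPGroup 2 ↥C) ⟨_, heQ⟩
      have hk' : (q⁻¹ * (y' * q * y'⁻¹)) ^ 2 ^ k = 1 := by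
        have := congrArg Subtype.val hk
        simpa using this
      exact commute_of_conj_eq_mul (e := q⁻¹ * (y' * q * y'⁻¹)) (by group) hefix hyo hk'
  have := hC.eq_one hyo key
  exact congrArg Subtype.val this

end Cfsg.Agent.Lib.Helper54
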