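/-
Helper library (helper54): a Sylow 2-subgroup with a self-centralising normal subgroup of rank ≥ 2
normalises no nontrivial odd-order subgroup, when all involution centralisers `C` satisfy
`C_C(O_2(C)) ≤ O_2(C)`.
-/
import Cfsg.Agent.Lib.Helper54.OddInvariant
import Cfsg.Prelude.Def_OddOrderLocal
import Cfsg.Prelude.Def_CaseTheorems

set_option autoImplicit false

namespace Cfsg.Agent.Lib.Helper54

open Cfsg Subgroup Cfsg.Agent.Lib.Lead
open scoped commutatorElement

variable {G : Type*} [Group G]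

/-- `Ω₁` of an abelian subgroup for the prime 2. -/
def omegaTwo (A : Subgroup G) (hA : ∀ a ∈ A, ∀ b ∈ A, a * b = b * a) : Subgroup G where
  carrier := {a | a ∈ A ∧ a * a = 1}
  one_mem' := ⟨one_mem _, by simp⟩
  mul_mem' := by
    rintro a b ⟨ha, ha2⟩ ⟨hb, hb2⟩
    refine ⟨mul_mem ha hb, ?_⟩
    calc a * b * (a * b) = a * (b * a) * b := by group
      _ = a * (a * b) * b := by rw [hA b hb a ha]
      _ = (a * a) * (b * b) := by group
      _ = 1 := by rw [ha2, hb2, one_mul]
  inv_mem' := by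
    rintro a ⟨ha, ha2⟩
    refine ⟨inv_mem ha, ?_⟩
    rw [← mul_inv_rev, ha2, inv_one]

theorem eq_bot_of_odd_of_sylow_le_normalizer [Finite G] (S : Sylow 2 G) (A : Subgroup G)
    (hA : IsSCN (S : Subgroup G) A) (hA3 : ¬ PRankLE 2 2 ↥A)
    (H : ∀ t : G, orderOf t = 2 → SelfCentPCore 2 ↥(centralizer ({t} : Set G)))
    (X : Subgroup G) (hX : Odd (Nat.card X)) (hSX : (S : Subgroup G) ≤ normalizer (X : Set G)) :
    X = ⊥ := by
  have : Fact (Nat.Prime 2) := ⟨Nat.prime_two⟩
  obtain ⟨hAS, hSA, hAC⟩ := hA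
  have hAcomm : ∀ a ∈ A, ∀ b ∈ A, a * b = b * a := by
    intro a ha b hb
    have h1 : b ∈ centralizer (A : Set G) := by
      have : b ∈ (S : Subgroup G) ⊓ centralizer (A : Set G) := by rw [hAC]; exact hb
      exact this.2
    exact mem_centralizer_iff.1 h1 a ha
  set N := omegaTwo A hAcomm with hN
  have hmemN : ∀ a, a ∈ N ↔ a ∈ A ∧ a * a = 1 := fun a => Iff.rfl
  have hNS : N ≤ S := fun a ha => hAS ha.1
  have hSN : (S : Subgroup G) ≤ normalizer (N : Set G) := by
    intro s hs
    apply mem_normalizer_of_conj_le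
    intro t ht
    refine ⟨(mem_normalizer_iff.1 (hSA hs) t).1 ht.1, ?_⟩
    calc s * t * s⁻¹ * (s * t * s⁻¹) = s * (t * t) * s⁻¹ := by group
      _ = 1 := by rw [ht.2]; simp
  have hNcard : 4 < Nat.card N := by
    unfold PRankLE at hA3
    push Not at hA3
    obtain ⟨E, -, hE2, hEc⟩ := hA3
    have h1 : E.map A.subtype ≤ N := by
      rintro _ ⟨a, ha, rfl⟩
      refine ⟨a.2, ?_⟩
      have := hE2 a ha
      have h2 := congrArg Subtype.val this
      simpa [pow_two] using h2
    have h2 : Nat.card (E.map A.subtype) = Nat.card E :=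
      card_map_of_injective A.subtype_injective
    have h3 := Nat.le_of_dvd Nat.card_pos (card_dvd_of_le h1)
    rw [h2] at h3
    omega
  have hnil : Group.IsNilpotent (S : Subgroup G) := S.2.isNilpotent
  have hNbot : ¬ N ≤ ⊥ := by
    intro h
    have := Nat.le_of_dvd Nat.card_pos (card_dvd_of_le h)
    rw [card_bot] at this
    omega
  obtain ⟨z, hzN, hz1, hzS⟩ := Cfsg.Agent.Lib.Helper24.exists_central_mod hnil hNS hSN hNbot
  have hz1' : z ≠ 1 := fun h => hz1 (mem_bot.2 h)
  have hzo : orderOf z = 2 := orderOf_eq_prime (by rw [pow_two]; exact hzN.2) hz1'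
  have hzcomm : ∀ g ∈ (S : Subgroup G), z * g = g * z := by
    intro g hg
    have := mem_bot.1 (hzS g hg)
    exact commutatorElement_eq_one_iff_mul_comm.1 this
  have hNz : ¬ N ≤ zpowers z := by
    intro h
    have := Nat.le_of_dvd Nat.card_pos (card_dvd_of_le h)
    rw [Nat.card_zpowers, hzo] at this
    omega
  obtain ⟨e, heN, hez, heS⟩ := Cfsg.Agent.Lib.Helper24.exists_central_mod hnil hNS hSN hNz
  have he1 : e ≠ 1 := fun h => hez (h ▸ one_mem _)
  have heo : orderOf e = 2 := orderOf_eq_prime (by rw [pow_two]; exact heN.2) he1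
  have hezN : e * z ∈ N := mul_mem heN hzN
  have hez1 : e * z ≠ 1 := by
    intro h
    apply hez
    have : e = z⁻¹ := eq_inv_of_mul_eq_one_left h
    rw [this]
    exact inv_mem (mem_zpowers z)
  have hezo : orderOf (e * z) = 2 := orderOf_eq_prime (by rw [pow_two]; exact hezN.2) hez1
  have hZc : zpowers z ≤ centralizer ((S : Subgroup G) : Set G) := by
    rw [zpowers_le]
    rw [mem_centralizer_iff]
    intro g hg
    exact (hzcomm g hg).symm
  have hcardZ : Nat.card (zpowers z) = 2 := by rw [Nat.card_zpowers, hzo]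
  -- a general statement for the three involutions
  have main : ∀ t ∈ N, orderOf t = 2 → (∀ g ∈ (S : Subgroup G), ⁅t, g⁆ ∈ zpowers z) →
      ∀ x ∈ X, t * x * t⁻¹ = x⁻¹ := by
    intro t htN hto htS
    have hidx := Cfsg.Agent.Lib.Helper24.relIndex_centralizer_dvd t S (zpowers z) htS hZc
    rw [hcardZ] at hidx
    apply conj_eq_inv_of_fixedPointFree X t htN.2
    · intro x hx
      exact (mem_normalizer_iff.1 (hSX (hNS htN)) x).1 hx
    · intro x hx hfix
      apply eq_one_of_mem_of_commute S t (H t hto) hidx X hX hSX x hx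
      exact (mul_inv_eq_iff_eq_mul.1 hfix).symm
  have hz_inv := main z hzN hzo (fun g hg => by
    rw [mem_bot.1 (hzS g hg)]; exact one_mem _)
  have he_inv := main e heN heo heS
  have hez_inv := main (e * z) hezN hezo (fun g hg => by
    have : ⁅e * z, g⁆ = ⁅e, g⁆ := by
      rw [commutatorElement_def, commutatorElement_def]
      have h1 : z * g = g * z := hzcomm g hg
      calc e * z * g * (e * z)⁻¹ * g⁻¹ = e * (z * g) * z⁻¹ * e⁻¹ * g⁻¹ := by group
        _ = e * (g * z) * z⁻¹ * e⁻¹ * g⁻¹ := by rw [h1]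
        _ = e * g * e⁻¹ * g⁻¹ := by group
    rw [this]; exact heS g hg)
  rw [eq_bot_iff]
  intro x hx
  rw [mem_bot]
  have h1 : e * z * x * (e * z)⁻¹ = x := by
    calc e * z * x * (e * z)⁻¹ = e * (z * x * z⁻¹) * e⁻¹ := by group
      _ = e * x⁻¹ * e⁻¹ := by rw [hz_inv x hx]
      _ = (x⁻¹)⁻¹ := he_inv x⁻¹ (inv_mem hx)
      _ = x := inv_inv x
  have h2 : x = x⁻¹ := by rw [← hez_inv x hx, h1]
  have h3 : x ^ 2 ^ 1 = 1 := by
    rw [pow_one, pow_two]
    nth_rewrite 1 [h2]
    exact inv_mul_cancel x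
  have h4 : x ^ Nat.card X = 1 := by
    have := pow_card_eq_one' (x := (⟨x, hx⟩ : X))
    exact congrArg Subtype.val this
  exact eq_one_of_pow_of_coprime h3 h4 (Nat.coprime_two_right.2 hX)

end Cfsg.Agent.Lib.Helper54
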