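/-
Helper library (helper54): the stabiliser of the vectors yy0, tt0, u3 of the Leech lattice is isomorphic to PSU(3, 5).
-/
import Cfsg.Agent.Lib.Helper54.U3Check
import Cfsg.Agent.Lib.Helper54.U3Words
import Cfsg.Agent.Lib.Helper54.RelIso
import Cfsg.Agent.Lib.Helper54.PSUCongr
import Cfsg.Agent.Lib.Helper54.FixCard
import Cfsg.Agent.Lib.Helper5.SUSimple
import Cfsg.Agent.S0280
import Cfsg.Agent.Lib.Helper54.HSSimple
import Cfsg.Agent.Lib.Helper54.HSMain2

set_option autoImplicit false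

namespace Cfsg.Agent.Lib.Helper54.U3

open Matrix Cfsg Cfsg.Agent.Lib.Helper5 Cfsg.Agent.Lib.Helper13 Cfsg.Agent.Lib.Helper27 Cfsg.Agent.Lib.Helper54
  Cfsg.Agent.Lib.Helper54.K25
open Cfsg.Agent.Lib.Helper54.U6 (forceN forceN_eq orL orL_eq anyL anyL_iff)

/-- the special unitary group -/
abbrev U : Type := ↥(Cfsg.SU 3 K25 5)

/-- the stabiliser of the vectors -/
abbrev G : Type := ↥(FixL [yy0, tt0, u3])

theorem card_G : Nat.card G = 126000 := by
  have h3 := card_fixL_step yy0_cls countYm8 transYm8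
  rw [hs_card0] at h3
  show Nat.card ↥(FixL [yy0, tt0, u3]) = 126000
  omega

theorem card_PSU : Nat.card (Cfsg.PSU 3 K25 5) = 126000 := by
  have h := Cfsg.Agent.S0280.result (F := K25) (q := 5) card_eq' 3 (by norm_num)
  have e : (5 : ℕ) ^ (3 * (3 - 1) / 2) * ∏ i ∈ Finset.range 3,
      (if Even i then 5 ^ (i + 1) + 1 else 5 ^ (i + 1) - 1) = 2268000 := by decide +kernel
  rw [e] at h
  have g : Nat.gcd 3 (5 + 1) = 3 := by decide
  rw [g] at h
  generalize Nat.card (Cfsg.PSU 3 K25 5) = c at h ⊢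
  omega

/-- compatibility of an element of `Co0` and a unitary matrix -/
def Rel (g : ↥Co0) (u : U) : Prop :=
  ∀ e ∈ tab, ∃ e' ∈ tab, (∀ h : V e.1 ∈ leechLattice,
    ((g • (⟨V e.1, h⟩ : ↥leechLattice) : ↥leechLattice) : GolayPt → ℤ) = V e'.1) ∧
    ∀ y ∈ Pl e.2, u.1.1 *ᵥ y ∈ Pl e'.2

theorem Rel.one : Rel 1 1 := fun e he =>
  ⟨e, he, fun h => by rw [one_smul], fun y hy => by rw [SU_one_mulVec]; exact hy⟩

theorem Rel.mul {g g' : ↥Co0} {u u' : U} (h : Rel g u) (h' : Rel g' u') : Rel (g * g') (u * u') := by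
  intro e he
  obtain ⟨e1, he1, a1, b1⟩ := h' e he
  obtain ⟨e2, he2, a2, b2⟩ := h e1 he1
  refine ⟨e2, he2, ?_, ?_⟩
  · intro hL
    have hL1 : V e1.1 ∈ leechLattice := by
      rw [← a1 hL]; exact (g' • (⟨V e.1, hL⟩ : ↥leechLattice)).2
    have e3 : g' • (⟨V e.1, hL⟩ : ↥leechLattice) = ⟨V e1.1, hL1⟩ := Subtype.ext (a1 hL)
    rw [mul_smul, e3]
    exact a2 hL1
  · intro y hy
    rw [SU_mul_mulVec]
    exact b2 _ (b1 y hy)

/-- the compatible pairs -/
def relMonoid : Submonoid (G × U) where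
  carrier := {p | Rel p.1.1 p.2}
  one_mem' := Rel.one
  mul_mem' := fun ha hb => Rel.mul ha hb

instance finite_U : Finite U := inferInstance

/-- the compatible pairs -/
def R : Subgroup (G × U) := subgroupOfSubmonoid relMonoid

theorem mem_R {x : G} {u : U} : (x, u) ∈ R ↔ Rel x.1 u := Iff.rfl

theorem gen_partner : ∀ g ∈ gens, ∃ x : G, (x, tvc g.2) ∈ R := by
  intro g hg
  have hg' : g.1 ∈ gens.map Prod.fst := List.mem_map_of_mem hg
  have h1 := (allList_iff _ _).1 gens_ok g.1 hg'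
  rw [band_eq, Bool.and_eq_true] at h1
  have hfix : genCo0 g.1.2 h1.1 ∈ FixL [yy0, tt0, u3] :=
    mem_StabC_iff (Xs := [XhsYm8, Xt0, Xu3]) rfl (genCo0_mem_StabC base_y_t0_u3 gens_ok gens_fix g.1 hg' h1.1)
  refine ⟨⟨genCo0 g.1.2 h1.1, hfix⟩, ?_⟩
  rw [mem_R]
  intro e he
  have h3 := (allList_iff _ _).1 ((allList_iff _ _).1 chk_all g hg) e he
  rw [forceN_eq, anyL_iff] at h3
  obtain ⟨e', he', h4⟩ := h3
  rw [band_eq, Bool.and_eq_true] at h4
  have t1 := (allList_iff _ _).1 tab_ok e he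
  have t2 := (allList_iff _ _).1 tab_ok e' he'
  rw [band_eq, Bool.and_eq_true, decide_eq_true_eq] at t1 t2
  refine ⟨e', he', ?_, ?_⟩
  · intro hL
    exact genCo0_smul_of_appFast h1.1 h1.2 t1.1 t2.1 t1.2 hL (Nat.eq_of_beq_eq_true h4.1)
  · apply map_Pl
    intro b hb
    rw [tvc_mulVec (gens_iso g hg), ← dec_tfc]
    exact mem_of_memc ((allList_iff _ _).1 h4.2 b hb)

theorem ga_iso : ∀ a ∈ ga, hf (dec a) (dec a) = 0 := by
  intro a ha
  rw [← gens_snd, List.mem_map] at ha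
  obtain ⟨g, hg, rfl⟩ := ha
  exact gens_iso g hg

theorem tvc_partner : ∀ a ∈ ga, ∃ x : G, (x, tvc a) ∈ R := by
  intro a ha
  rw [← gens_snd, List.mem_map] at ha
  obtain ⟨g, hg, rfl⟩ := ha
  exact gen_partner g hg

theorem tl_partner (l : List ℕ) (hl : ∀ a ∈ l, a ∈ ga) : ∃ x : G, (x, tl l) ∈ R := by
  induction l with
  | nil =>
    have e : tl [] = 1 := by simp [tl]
    rw [e]
    exact ⟨1, R.one_mem⟩
  | cons a l ih =>
    obtain ⟨x, hx⟩ := ih (fun b hb => hl b (List.mem_cons_of_mem _ hb))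
    obtain ⟨y, hy⟩ := tvc_partner a (hl a List.mem_cons_self)
    refine ⟨y * x, ?_⟩
    have e : tl (a :: l) = tvc a * tl l := by simp [tl]
    rw [e]
    exact R.mul_mem hy hx

theorem exists_word (v : VV) (hv0 : v ≠ 0) (hv : hf v v = 0) :
    ∃ l ∈ wtab, v = dec (l.foldr tfc 5201) := by
  have h := (allBelow_iff _ _).1 iso_complete (enc v) (enc_lt v)
  rw [orL_eq, orL_eq, Bool.or_eq_true, Bool.or_eq_true, decide_eq_true_eq, dec_enc, anyL_iff] at h
  rcases h with h | h | h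
  · exfalso
    apply hv0
    rw [← dec_enc v, Nat.eq_of_beq_eq_true h, dec_zero]
  · exact absurd hv h
  · obtain ⟨b, hb, hb2⟩ := h
    rw [← Nat.eq_of_beq_eq_true hb2, ← wtab_eval, List.mem_map] at hb
    obtain ⟨l, hl, e⟩ := hb
    exact ⟨l, hl, by rw [e, dec_enc]⟩

theorem wtab_ga : ∀ l ∈ wtab, ∀ a ∈ l, a ∈ ga := by
  intro l hl a ha
  have h := (allList_iff _ _).1 ((allList_iff _ _).1 wtab_letters l hl) a ha
  rw [anyL_iff] at h
  obtain ⟨b, hb, e⟩ := h
  rw [Nat.eq_of_beq_eq_true e]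
  exact hb

theorem tv_partner (v : VV) (hv0 : v ≠ 0) (hv : hf v v = 0) :
    ∃ x : G, (x, tSU card_eq' v c0 hv hc0) ∈ R := by
  obtain ⟨l, hl, e⟩ := exists_word v hv0 hv
  have hl' := wtab_ga l hl
  have h0 : (5201 : ℕ) ∈ ga := by decide
  have e2 : v = (tl l).1.1 *ᵥ dec 5201 := by
    rw [e, dec_foldr, tl_mulVec l (fun a ha => ga_iso a (hl' a ha))]
  obtain ⟨x, hx⟩ := tl_partner l hl'
  obtain ⟨y, hy⟩ := tvc_partner 5201 h0
  refine ⟨x * y * x⁻¹, ?_⟩
  have e3 : tSU card_eq' v c0 hv hc0 = tl l * tvc 5201 * (tl l)⁻¹ := by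
    apply SU_ext_mulVec
    intro z
    rw [tSU_mulVec, SU_mul_mulVec, SU_mul_mulVec, tvc_mulVec (ga_iso _ h0), tf, mulVec_add,
      mulVec_smul, SU_mulVec_inv_mulVec, ← e2]
    congr 3
    show Cfsg.hermForm 3 K25 5 z v = Cfsg.hermForm 3 K25 5 _ _
    rw [← SU_preserves (tl l) _ (dec 5201), SU_mulVec_inv_mulVec, ← e2]
  rw [e3]
  exact R.mul_mem (R.mul_mem hx hy) (R.inv_mem hx)

set_option maxRecDepth 100000 in
theorem skew_key : ∀ c : K25, c + c ^ 5 = 0 → c = 0 ∨ ∃ l : K25, l ≠ 0 ∧ c = c0 * l ^ 5 * l := by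
  decide +kernel

theorem partner_of_ut (A : U) (hA : ∃ (v : Fin 3 → K25) (c : K25), Cfsg.hermForm 3 K25 5 v v = 0 ∧
    ((A : Matrix.SpecialLinearGroup (Fin 3) K25) : Matrix (Fin 3) (Fin 3) K25)
      = Cfsg.unitaryTransvection 3 5 v c) : ∃ x : G, (x, A) ∈ R := by
  obtain ⟨v, c, hv, hA⟩ := hA
  by_cases hv0 : v = 0
  · have : A = 1 := by
      apply SU_ext_mulVec
      intro x
      rw [hA, unitaryTransvection_mulVec, hv0, SU_one_mulVec]; simp
    rw [this]
    exact ⟨1, R.one_mem⟩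
  · have hc := skew_of_ut_mem card_eq' A hv0 hv hA
    rcases skew_key c hc with rfl | ⟨l, hl, rfl⟩
    · have : A = 1 := by
        apply SU_ext_mulVec
        intro x
        rw [hA, unitaryTransvection_mulVec, SU_one_mulVec]; simp
      rw [this]
      exact ⟨1, R.one_mem⟩
    · have hlv : hf (l • v) (l • v) = 0 := by
        rw [hf, hermForm_smul_left, hermForm_smul_right, hv]; simp
      have : A = tSU card_eq' (l • v) c0 hlv hc0 := by
        apply SU_ext_mulVec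
        intro x
        rw [hA, unitaryTransvection_mulVec, tSU_mulVec, hermForm_smul_right]
        module
      rw [this]
      exact tv_partner (l • v) (smul_ne_zero hl hv0) hlv

/-- an entry of the table -/
def e0 : ℕ × List (ℕ × ℕ) := (8149138642891897237502240071418572061129940427797032301688054095693684622982933537332707334, [(1275, 25)])

set_option maxRecDepth 100000 in
theorem e0_mem : e0 ∈ tab := by decide +kernel

set_option maxRecDepth 100000 in
theorem e0_uniq : ∀ e ∈ tab, e.1 = e0.1 → e.2 = e0.2 := by decide +kernel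

set_option maxRecDepth 100000 in
theorem e0_leech : leechOK e0.1 = true := by decide +kernel

theorem e0_perp : ∀ e ∈ e0.2, hf (dec e.1) (dec 1275) = 0 := by decide +kernel

theorem e0_ne : hf (tf 5201 (dec 1275)) (dec 1275) ≠ 0 := by decide +kernel

theorem e0_b : ∃ e ∈ e0.2, dec 1275 = dec e.1 := by
  exact ⟨(1275, 25), by decide, rfl⟩

theorem not_rel : ((1 : G), tvc 5201) ∉ R := by
  intro h
  rw [mem_R] at h
  obtain ⟨e', he', a1, b1⟩ := h e0 e0_mem
  have t1 := (allList_iff _ _).1 tab_ok e0 e0_mem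
  have t2 := (allList_iff _ _).1 tab_ok e' he'
  rw [band_eq, Bool.and_eq_true] at t1 t2
  have a2 := a1 (V_mem e0_leech)
  have a3 : V e0.1 = V e'.1 := by
    rw [← a2]
    show _ = (((1 : ↥Co0) • (⟨V e0.1, V_mem e0_leech⟩ : ↥leechLattice) : ↥leechLattice) : GolayPt → ℤ)
    rw [one_smul]
  have a4 : e'.1 = e0.1 := by rw [← enc_V t1.1, ← enc_V t2.1, a3]
  have a5 := e0_uniq e' he' a4
  have b2 := b1 (dec 1275) (Submodule.subset_span e0_b)
  rw [a5, tvc_mulVec (ga_iso 5201 (by decide))] at b2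
  exact e0_ne (hf_Pl e0_perp _ b2)

theorem main0 : Nonempty (G ≃* Cfsg.PSU 3 K25 5) := by
  apply iso_of_relation (fun N hN => by
      have := hN
      exact su_normal_le_center_or card_eq' (by norm_num) (by norm_num) N)
    (by rw [card_G, card_PSU]) R _
    (Cfsg.Agent.S0780.result card_eq' 3 (by norm_num) (by norm_num))
    partner_of_ut ⟨_, not_rel⟩

end Cfsg.Agent.Lib.Helper54.U3
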