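/-
Helper library (helper54): the stabiliser of two minimal vectors of the Leech lattice with inner product -16 is
isomorphic to PSU(6, 2).
-/
import Cfsg.Agent.Lib.Helper54.U6ChkA
import Cfsg.Agent.Lib.Helper54.U6ChkB
import Cfsg.Agent.Lib.Helper54.U6ChkC
import Cfsg.Agent.Lib.Helper54.U6Words
import Cfsg.Agent.Lib.Helper54.RelIso
import Cfsg.Agent.Lib.Helper54.PSUCongr
import Cfsg.Agent.Lib.Helper54.Co2Simple
import Cfsg.Agent.Lib.Helper5.SUSimple
import Cfsg.Agent.S0280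

set_option autoImplicit false

namespace Cfsg.Agent.Lib.Helper54

open Cfsg MulAction

/-- one step of the chain of stabilisers -/
theorem card_fixL_cons {bs : List ↥leechLattice} {n : ℤ} {c : List ℤ} {M : ℕ} {α : ↥leechLattice}
    (hα : ClsL bs n c α) (hc : CountL bs n c M) (ht : TransL bs n c) :
    Nat.card ↥(FixL bs) = M * Nat.card ↥(FixL (α :: bs)) := by
  have h := card_smul_mem' (G := ↥(FixL bs)) α {x | ClsL bs n c x} (by
    intro y hy
    obtain ⟨g, hg, hgy⟩ := ht α y hα hy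
    exact ⟨⟨g, hg⟩, hgy⟩)
  have e : Nat.card {g : ↥(FixL bs) // g • α ∈ {x | ClsL bs n c x}} = Nat.card ↥(FixL bs) :=
    Nat.card_congr (Equiv.subtypeUnivEquiv (fun g => clsL_fix g.2 hα))
  rw [e] at h
  rw [h, hc]
  congr 1
  exact Nat.card_congr (stabFixEquiv α bs).toEquiv

end Cfsg.Agent.Lib.Helper54

namespace Cfsg.Agent.Lib.Helper54.U6

open Matrix Cfsg Cfsg.Agent.Lib.Helper5 Cfsg.Agent.Lib.Helper13 Cfsg.Agent.Lib.Helper40.U6
  Cfsg.Agent.Lib.Helper27 Cfsg.Agent.Lib.Helper54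

/-- the special unitary group -/
abbrev U : Type := ↥(Cfsg.SU 6 K4 2)

/-- the stabiliser of the two vectors -/
abbrev G : Type := ↥(FixL [wA, v0])

theorem card_G : Nat.card G = 9196830720 := by
  have hv0 : sqNorm ((v0 : ↥leechLattice) : GolayPt → ℤ) = 32 := by
    show sqNorm (V Xv0) = 32
    rw [sqNorm_V, Xv0_norm]
  have h1 : ClsL [v0] 32 [-16] wA := by
    rw [clsL_cons, clsL_nil]
    constructor
    · show dotInt (V Xv0) (V XwA) = -16
      rw [dotInt_V, XwA_dot]
    · show sqNorm (V XwA) = 32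
      rw [sqNorm_V, XwA_norm]
  have h2 : CountL [v0] 32 [-16] 4600 := by
    have := co0_count_pair v0 hv0 (-16) (by decide)
    unfold CountL
    rw [show (4600 : ℕ) = mOf (-16) from rfl, ← this]
    congr 1
    ext x
    simp only [Set.mem_ofPred_eq]
    rw [clsL_cons, clsL_nil]
    tauto
  have h3 := card_fixL_cons h1 h2 (transL_one_32 v0 hv0 (-16))
  rw [co2_card0] at h3
  show Nat.card ↥(FixL [wA, v0]) = 9196830720
  omega

theorem card_PSU : Nat.card (Cfsg.PSU 6 K4 2) = 9196830720 := by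
  have h := Cfsg.Agent.S0280.result (F := K4) (q := 2) K4.card_eq' 6 (by norm_num)
  have e : (2 : ℕ) ^ (6 * (6 - 1) / 2) * ∏ i ∈ Finset.range 6,
      (if Even i then 2 ^ (i + 1) + 1 else 2 ^ (i + 1) - 1) = 82771476480 := by decide +kernel
  rw [e] at h
  have g : Nat.gcd 6 (2 + 1) = 3 := by decide
  rw [g] at h
  generalize Nat.card (Cfsg.PSU 6 K4 2) = c at h ⊢
  omega

/-- compatibility of an element of `Co0` and a unitary matrix -/
def Rel (g : ↥Co0) (u : U) : Prop :=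
  ∀ e ∈ tab, ∃ e' ∈ tab, (∀ h : V e.1 ∈ leechLattice,
    ((g • (⟨V e.1, h⟩ : ↥leechLattice) : ↥leechLattice) : GolayPt → ℤ) = V e'.1) ∧
    ∀ y ∈ Pl e.2, u.1.1 *ᵥ y ∈ Pl e'.2

theorem Rel.one : Rel 1 1 := fun e he =>
  ⟨e, he, fun h => by rw [one_smul], fun y hy => by rw [SU_one_mulVec]; exact hy⟩

theorem Rel.mul {g g' : ↥Co0} {u u' : U} (h : Rel g u) (h' : Rel g' u') : Rel (g * g') (u * u') := by
  intro e he
  obtain ⟨e1, he1, a1, b1⟩ := h' e he
  obtain ⟨e2, he2, a2, b2⟩ := h e1 he1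
  refine ⟨e2, he2, ?_, ?_⟩
  · intro hL
    have hL1 : V e1.1 ∈ leechLattice := by
      rw [← a1 hL]; exact (g' • (⟨V e.1, hL⟩ : ↥leechLattice)).2
    have e3 : g' • (⟨V e.1, hL⟩ : ↥leechLattice) = ⟨V e1.1, hL1⟩ := Subtype.ext (a1 hL)
    rw [mul_smul, e3]
    exact a2 hL1
  · intro y hy
    rw [SU_mul_mulVec]
    exact b2 _ (b1 y hy)

/-- the compatible pairs -/
def relMonoid : Submonoid (G × U) where
  carrier := {p | Rel p.1.1 p.2}
  one_mem' := Rel.one
  mul_mem' := fun ha hb => Rel.mul ha hb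

instance finite_U : Finite U := inferInstance

/-- the compatible pairs -/
def R : Subgroup (G × U) := subgroupOfSubmonoid relMonoid

theorem mem_R {x : G} {u : U} : (x, u) ∈ R ↔ Rel x.1 u := Iff.rfl

theorem gens_eq : gens = [gens.getD 0 ((0, []), 0), gens.getD 1 ((0, []), 0), gens.getD 2 ((0, []), 0),
    gens.getD 3 ((0, []), 0), gens.getD 4 ((0, []), 0), gens.getD 5 ((0, []), 0)] := rfl

theorem chk_all : ∀ g ∈ gens, chkGen g = true := by
  intro g hg
  rw [gens_eq] at hg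
  simp only [List.mem_cons, List.not_mem_nil, or_false] at hg
  rcases hg with rfl | rfl | rfl | rfl | rfl | rfl
  · exact chk0
  · exact chk1
  · exact chk2
  · exact chk3
  · exact chk4
  · exact chk5

theorem gen_partner : ∀ g ∈ gens, ∃ x : G, (x, tvc g.2) ∈ R := by
  intro g hg
  have h1 := (allList_iff _ _).1 gens_ok g hg
  rw [band_eq, Bool.and_eq_true] at h1
  have h2 := (allList_iff _ _).1 gens_fix g hg
  rw [band_eq, Bool.and_eq_true] at h2
  have hfix : genCo0 g.1.2 h1.1 ∈ FixL [wA, v0] := by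
    intro b hb
    simp only [List.mem_cons, List.not_mem_nil, or_false] at hb
    rcases hb with rfl | rfl
    · apply Subtype.ext
      exact genCo0_smul_of_appFast h1.1 h1.2 XwA_code XwA_code (by rw [XwA_norm]; norm_num) _
        (Nat.eq_of_beq_eq_true h2.2)
    · apply Subtype.ext
      exact genCo0_smul_of_appFast h1.1 h1.2 Xv0_code Xv0_code (by rw [Xv0_norm]; norm_num) _
        (Nat.eq_of_beq_eq_true h2.1)
  refine ⟨⟨genCo0 g.1.2 h1.1, hfix⟩, ?_⟩
  rw [mem_R]
  intro e he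
  have h3 := (allList_iff _ _).1 (chk_all g hg) e he
  rw [forceN_eq, anyL_iff] at h3
  obtain ⟨e', he', h4⟩ := h3
  rw [band_eq, Bool.and_eq_true] at h4
  have t1 := (allList_iff _ _).1 tab_ok e he
  have t2 := (allList_iff _ _).1 tab_ok e' he'
  rw [band_eq, Bool.and_eq_true, decide_eq_true_eq] at t1 t2
  refine ⟨e', he', ?_, ?_⟩
  · intro hL
    exact genCo0_smul_of_appFast h1.1 h1.2 t1.1 t2.1 t1.2 hL (Nat.eq_of_beq_eq_true h4.1)
  · apply map_Pl
    intro b hb
    rw [tvc_mulVec (gens_iso g hg), ← dec_tfc]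
    exact mem_of_memc ((allList_iff _ _).1 h4.2 b hb)

theorem ga_iso : ∀ a ∈ ga, hf (dec a) (dec a) = 0 := by
  intro a ha
  rw [← gens_snd, List.mem_map] at ha
  obtain ⟨g, hg, rfl⟩ := ha
  exact gens_iso g hg

theorem tvc_partner : ∀ a ∈ ga, ∃ x : G, (x, tvc a) ∈ R := by
  intro a ha
  rw [← gens_snd, List.mem_map] at ha
  obtain ⟨g, hg, rfl⟩ := ha
  exact gen_partner g hg

theorem tl_partner (l : List ℕ) (hl : ∀ a ∈ l, a ∈ ga) : ∃ x : G, (x, tl l) ∈ R := by
  induction l with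
  | nil =>
    have e : tl [] = 1 := by simp [tl]
    rw [e]
    exact ⟨1, R.one_mem⟩
  | cons a l ih =>
    obtain ⟨x, hx⟩ := ih (fun b hb => hl b (List.mem_cons_of_mem _ hb))
    obtain ⟨y, hy⟩ := tvc_partner a (hl a List.mem_cons_self)
    refine ⟨y * x, ?_⟩
    have e : tl (a :: l) = tvc a * tl l := by simp [tl]
    rw [e]
    exact R.mul_mem hy hx

theorem exists_word (v : V6) (hv0 : v ≠ 0) (hv : hf v v = 0) :
    ∃ l ∈ wtab, v = dec (l.foldr tfc 1825) := by
  have h := (allBelow_iff _ _).1 iso_complete (enc v) (enc_lt v)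
  rw [orL_eq, orL_eq, Bool.or_eq_true, Bool.or_eq_true, decide_eq_true_eq, dec_enc, anyL_iff] at h
  rcases h with h | h | h
  · exfalso
    apply hv0
    rw [← dec_enc v, Nat.eq_of_beq_eq_true h, dec_zero]
  · exact absurd hv h
  · obtain ⟨b, hb, hb2⟩ := h
    rw [← Nat.eq_of_beq_eq_true hb2, ← wtab_eval, List.mem_map] at hb
    obtain ⟨l, hl, e⟩ := hb
    exact ⟨l, hl, by rw [e, dec_enc]⟩

theorem wtab_ga : ∀ l ∈ wtab, ∀ a ∈ l, a ∈ ga := by
  intro l hl a ha
  have h := (allList_iff _ _).1 ((allList_iff _ _).1 wtab_letters l hl) a ha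
  rw [anyL_iff] at h
  obtain ⟨b, hb, e⟩ := h
  rw [Nat.eq_of_beq_eq_true e]
  exact hb

theorem tv_partner (v : V6) (hv0 : v ≠ 0) (hv : hf v v = 0) : ∃ x : G, (x, tv v hv) ∈ R := by
  obtain ⟨l, hl, e⟩ := exists_word v hv0 hv
  have hl' := wtab_ga l hl
  have h0 : (1825 : ℕ) ∈ ga := by decide
  have e2 : v = (tl l).1.1 *ᵥ dec 1825 := by
    rw [e, dec_foldr, tl_mulVec l (fun a ha => ga_iso a (hl' a ha))]
  obtain ⟨x, hx⟩ := tl_partner l hl'
  obtain ⟨y, hy⟩ := tvc_partner 1825 h0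
  refine ⟨x * y * x⁻¹, ?_⟩
  have e3 : tv v hv = tl l * tvc 1825 * (tl l)⁻¹ := by
    apply SU_ext_mulVec
    intro z
    rw [tv_mulVec, SU_mul_mulVec, SU_mul_mulVec, tvc_mulVec (ga_iso _ h0), tf, mulVec_add,
      mulVec_smul, SU_mulVec_inv_mulVec, ← e2]
    congr 2
    show Cfsg.hermForm 6 K4 2 z v = Cfsg.hermForm 6 K4 2 _ _
    rw [← SU_preserves (tl l) _ (dec 1825), SU_mulVec_inv_mulVec, ← e2]
  rw [e3]
  exact R.mul_mem (R.mul_mem hx hy) (R.inv_mem hx)

theorem partner_of_ut (A : U) (hA : ∃ (v : Fin 6 → K4) (c : K4), Cfsg.hermForm 6 K4 2 v v = 0 ∧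
    ((A : Matrix.SpecialLinearGroup (Fin 6) K4) : Matrix (Fin 6) (Fin 6) K4)
      = Cfsg.unitaryTransvection 6 2 v c) : ∃ x : G, (x, A) ∈ R := by
  obtain ⟨v, c, hv, hA⟩ := hA
  by_cases hv0 : v = 0
  · have : A = 1 := by
      apply SU_ext_mulVec
      intro x
      rw [hA, unitaryTransvection_mulVec, hv0, SU_one_mulVec]; simp
    rw [this]
    exact ⟨1, R.one_mem⟩
  · have hc := skew_of_ut_mem K4.card_eq' A hv0 hv hA
    have key : ∀ c : K4, c + c ^ 2 = 0 → c = 0 ∨ c = 1 := by decide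
    rcases key c hc with rfl | rfl
    · have : A = 1 := by
        apply SU_ext_mulVec
        intro x
        rw [hA, unitaryTransvection_mulVec, SU_one_mulVec]; simp
      rw [this]
      exact ⟨1, R.one_mem⟩
    · have : A = tv v hv := by
        apply SU_ext_mulVec
        intro x
        rw [hA, unitaryTransvection_mulVec, tv_mulVec]; simp
      rw [this]
      exact tv_partner v hv0 hv

/-- the first entry of the table -/
def e0 : ℕ × List (ℕ × ℕ) :=
  (8149138673242392879360814103015322131770787000811304976296551122505721698284094394850115588,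
    [(5, 0), (80, 4), (1280, 8)])

set_option maxRecDepth 100000 in
theorem e0_mem : e0 ∈ tab := by decide +kernel

set_option maxRecDepth 100000 in
theorem e0_uniq : ∀ e ∈ tab, e.1 = e0.1 → e.2 = e0.2 := by decide +kernel

set_option maxRecDepth 100000 in
theorem e0_leech : leechOK e0.1 = true := by decide +kernel

theorem e0_perp : ∀ e ∈ e0.2, hf (dec e.1) (dec 5) = 0 := by decide +kernel

theorem e0_ne : hf (tf 1825 (dec 5)) (dec 5) ≠ 0 := by decide +kernel

theorem not_rel : ((1 : G), tvc 1825) ∉ R := by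
  intro h
  rw [mem_R] at h
  obtain ⟨e', he', a1, b1⟩ := h e0 e0_mem
  have t1 := (allList_iff _ _).1 tab_ok e0 e0_mem
  have t2 := (allList_iff _ _).1 tab_ok e' he'
  rw [band_eq, Bool.and_eq_true] at t1 t2
  have a2 := a1 (V_mem e0_leech)
  have a3 : V e0.1 = V e'.1 := by
    rw [← a2]
    show _ = (((1 : ↥Co0) • (⟨V e0.1, V_mem e0_leech⟩ : ↥leechLattice) : ↥leechLattice) : GolayPt → ℤ)
    rw [one_smul]
  have a4 : e'.1 = e0.1 := by rw [← enc_V t1.1, ← enc_V t2.1, a3]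
  have a5 := e0_uniq e' he' a4
  have b2 := b1 (dec 5) (Submodule.subset_span ⟨(5, 0), by decide, rfl⟩)
  rw [a5, tvc_mulVec (ga_iso 1825 (by decide))] at b2
  exact e0_ne (hf_Pl e0_perp _ b2)

theorem main0 : Nonempty (G ≃* Cfsg.PSU 6 K4 2) := by
  apply iso_of_relation (fun N hN => by
      have := hN
      exact su_normal_le_center_or K4.card_eq' (by norm_num) (by norm_num) N)
    (by rw [card_G, card_PSU]) R _
    (Cfsg.Agent.S0780.result K4.card_eq' 6 (by norm_num) (by norm_num))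
    partner_of_ut ⟨_, not_rel⟩

end Cfsg.Agent.Lib.Helper54.U6
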